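-- helper13: constant orders of pointwise stabilisers force multiple transitivity.
import Mathlib

set_option autoImplicit false

namespace Cfsg.Agent.Lib.Helper13

open MulAction

universe u v

/-- If `T` is invariant under `H` and all `H`-orbits of points of `T` have size `r`,
then `r ∣ |T|`. -/
theorem dvd_ncard_of_orbits {H : Type u} {X : Type v} [Group H] [MulAction H X] [Finite X]
    (r : ℕ) :
    ∀ (n : ℕ) (T : Set X), T.ncard = n → (∀ h : H, ∀ z ∈ T, h • z ∈ T) →
      (∀ z ∈ T, (orbit H z).ncard = r) → r ∣ T.ncard := by
  intro n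
  induction n using Nat.strong_induction_on with
  | _ n ih =>
    intro T hT hinv horb
    by_cases hemp : T = ∅
    · subst hemp
      simp
    · obtain ⟨z, hz⟩ := Set.nonempty_iff_ne_empty.mpr hemp
      have hsub : orbit H z ⊆ T := by
        rintro _ ⟨h, rfl⟩
        exact hinv h z hz
      have hcard : (T \ orbit H z).ncard + (orbit H z).ncard = T.ncard :=
        Set.ncard_sdiff_add_ncard_of_subset hsub
      have hpos : 0 < (orbit H z).ncard :=
        (Set.ncard_pos (Set.toFinite _)).mpr ⟨z, mem_orbit_self z⟩
      have h1 : r ∣ (T \ orbit H z).ncard := by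
        apply ih (T \ orbit H z).ncard (by omega) (T \ orbit H z) rfl
        · intro h w hw
          refine ⟨hinv h w hw.1, fun hmem => hw.2 ?_⟩
          have : w = h⁻¹ • (h • w) := by rw [inv_smul_smul]
          rw [this]
          exact mem_orbit_of_mem_orbit h⁻¹ hmem
        · intro w hw
          exact horb w hw.1
      rw [← hcard, horb z hz]
      exact Dvd.dvd.add h1 (dvd_refl r)

/-- the stabiliser of `z` in the fixing subgroup of `s` has the order of the fixing subgroup of
`insert z s`. -/
theorem card_stabilizer_fixingSubgroup {G : Type u} {X : Type v} [Group G] [MulAction G X]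
    (s : Set X) (z : X) :
    Nat.card (stabilizer (fixingSubgroup G s) z) = Nat.card (fixingSubgroup G (insert z s)) := by
  have hmap : (stabilizer (fixingSubgroup G s) z).map (fixingSubgroup G s).subtype =
      fixingSubgroup G (insert z s) := by
    ext g
    constructor
    · rintro ⟨h, hh, rfl⟩
      rw [mem_fixingSubgroup_iff]
      intro y hy
      rcases hy with rfl | hy
      · exact hh
      · exact (mem_fixingSubgroup_iff G).mp h.2 y hy
    · intro hg
      rw [mem_fixingSubgroup_iff] at hg
      refine ⟨⟨g, (mem_fixingSubgroup_iff G).mpr fun y hy => hg y (Set.mem_insert_of_mem _ hy)⟩,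
        ?_, rfl⟩
      exact hg z (Set.mem_insert _ _)
  rw [← hmap]
  exact (Subgroup.card_map_of_injective (Subgroup.subtype_injective _)).symm

/-- orbit sizes of a fixing subgroup. -/
theorem ncard_orbit_fixingSubgroup {G : Type u} {X : Type v} [Group G] [MulAction G X]
    (s : Set X) (z : X) :
    (orbit (fixingSubgroup G s) z).ncard * Nat.card (fixingSubgroup G (insert z s)) =
      Nat.card (fixingSubgroup G s) := by
  rw [← card_stabilizer_fixingSubgroup, ← index_stabilizer, mul_comm]
  exact Subgroup.card_mul_index _

theorem constStab_orbit_ncard {G : Type u} {X : Type v} [Group G] [MulAction G X]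
    {j l m : ℕ} (hl : 1 < l)
    (h1 : ∀ s : Set X, s.ncard = j → Nat.card (fixingSubgroup G s) = l)
    (h2 : ∀ s : Set X, s.ncard = j + 1 → Nat.card (fixingSubgroup G s) = m)
    [Finite X] (s : Set X) (hs : s.ncard = j) (z : X) (hz : z ∉ s) :
    (orbit (fixingSubgroup G s) z).ncard = l / m := by
  have h := ncard_orbit_fixingSubgroup (G := G) s z
  rw [h1 s hs, h2 (insert z s) (by rw [Set.ncard_insert_of_notMem hz, hs])] at h
  have hm : 0 < m := by
    rcases Nat.eq_zero_or_pos m with hm | hm
    · subst hm
      omega
    · exact hm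
  exact (Nat.div_eq_of_eq_mul_left hm h.symm).symm

theorem constStab_ratio_ne_one {G : Type u} {X : Type v} [Group G] [MulAction G X]
    [FaithfulSMul G X] [Finite X]
    {j l m : ℕ} (hl : 1 < l)
    (h1 : ∀ s : Set X, s.ncard = j → Nat.card (fixingSubgroup G s) = l)
    (h2 : ∀ s : Set X, s.ncard = j + 1 → Nat.card (fixingSubgroup G s) = m)
    (hjn : j ≤ Nat.card X) : l / m ≠ 1 := by
  intro hr
  have hj : j ≤ (Set.univ : Set X).ncard := by rwa [Set.ncard_univ]
  obtain ⟨s, -, hs⟩ := Set.exists_subset_card_eq hj
  have hbot : fixingSubgroup G s = ⊥ := by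
    rw [eq_bot_iff]
    intro g hg
    rw [Subgroup.mem_bot]
    apply FaithfulSMul.eq_of_smul_eq_smul (α := X)
    intro z
    rw [one_smul]
    by_cases hz : z ∈ s
    · exact (mem_fixingSubgroup_iff G).mp hg z hz
    · have ho := constStab_orbit_ncard hl h1 h2 s hs z hz
      rw [hr, Set.ncard_eq_one] at ho
      obtain ⟨w, hw⟩ := ho
      have hzw : z = w := by
        have : z ∈ orbit (fixingSubgroup G s) z := mem_orbit_self z
        rw [hw] at this
        exact this
      have hgz : (⟨g, hg⟩ : fixingSubgroup G s) • z ∈ orbit (fixingSubgroup G s) z :=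
        mem_orbit z _
      rw [hw] at hgz
      have : g • z = w := hgz
      rw [this, hzw]
  have := h1 s hs
  rw [hbot, Subgroup.card_bot] at this
  omega

theorem constStab_trans {G : Type u} {X : Type v} [Group G] [MulAction G X]
    [FaithfulSMul G X] [Finite X]
    {j l m : ℕ} (hj : 1 ≤ j) (hjn : j + 1 ≤ Nat.card X) (hl : 1 < l)
    (h1 : ∀ s : Set X, s.ncard = j → Nat.card (fixingSubgroup G s) = l)
    (h2 : ∀ s : Set X, s.ncard = j + 1 → Nat.card (fixingSubgroup G s) = m) :
    IsPretransitive G X := by
  classical
  constructor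
  intro x y
  by_contra hcon
  have hy : y ∉ orbit G x := fun hy => hcon (by obtain ⟨g, hg⟩ := hy; exact ⟨g, hg⟩)
  have hxy : x ≠ y := by
    rintro rfl
    exact hy (mem_orbit_self x)
  have hcard : j - 1 ≤ ({x, y}ᶜ : Set X).ncard := by
    rw [Set.ncard_compl, Set.ncard_pair hxy]
    omega
  obtain ⟨t, htsub, htcard⟩ := Set.exists_subset_card_eq hcard
  have hxt : x ∉ t := fun h => htsub h (by simp)
  have hyt : y ∉ t := fun h => htsub h (by simp)
  have hr := constStab_ratio_ne_one hl h1 h2 (by omega)
  -- general divisibility
  have key : ∀ s : Set X, s.ncard = j → l / m ∣ (orbit G x \ s).ncard := by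
    intro s hs
    apply dvd_ncard_of_orbits (H := fixingSubgroup G s) (l / m) _ _ rfl
    · intro h z hz
      refine ⟨?_, fun hmem => hz.2 ?_⟩
      · exact mem_orbit_of_mem_orbit (h : G) hz.1
      · have h3 : h • (h • z) = h • z := (mem_fixingSubgroup_iff G).mp h.2 _ hmem
        have h4 : h • z = z := smul_left_cancel h h3
        rwa [h4] at hmem
    · intro z hz
      exact constStab_orbit_ncard hl h1 h2 s hs z hz.2
  have k1 := key (insert x t) (by rw [Set.ncard_insert_of_notMem hxt, htcard]; omega)
  have k2 := key (insert y t) (by rw [Set.ncard_insert_of_notMem hyt, htcard]; omega)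
  have e1 : orbit G x \ insert y t = orbit G x \ t := by
    ext z
    simp only [Set.mem_sdiff, Set.mem_insert_iff, not_or]
    constructor
    · rintro ⟨hz, -, hzt⟩
      exact ⟨hz, hzt⟩
    · rintro ⟨hz, hzt⟩
      refine ⟨hz, ?_, hzt⟩
      rintro rfl
      exact hy hz
  have e2 : insert x (orbit G x \ insert x t) = orbit G x \ t := by
    ext z
    simp only [Set.mem_sdiff, Set.mem_insert_iff, not_or]
    constructor
    · rintro (rfl | ⟨hz, -, hzt⟩)
      · exact ⟨mem_orbit_self _, hxt⟩
      · exact ⟨hz, hzt⟩
    · rintro ⟨hz, hzt⟩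
      by_cases hzx : z = x
      · exact Or.inl hzx
      · exact Or.inr ⟨hz, hzx, hzt⟩
  rw [e1] at k2
  rw [← e2, Set.ncard_insert_of_notMem (by simp)] at k2
  have : l / m ∣ 1 := (Nat.dvd_add_right k1).mp k2
  exact hr (Nat.dvd_one.mp this)

theorem card_fixingSubgroup_ofStabilizer {G : Type u} {X : Type v} [Group G] [MulAction G X]
    (a : X) (s' : Set (SubMulAction.ofStabilizer G a)) :
    Nat.card (fixingSubgroup (stabilizer G a) s') =
      Nat.card (fixingSubgroup G (insert a (Subtype.val '' s'))) := by
  have hmap : (fixingSubgroup (stabilizer G a) s').map (stabilizer G a).subtype =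
      fixingSubgroup G (insert a (Subtype.val '' s')) := by
    ext g
    constructor
    · rintro ⟨h, hh, rfl⟩
      rw [mem_fixingSubgroup_iff]
      intro y hy
      rcases hy with rfl | ⟨w, hw, rfl⟩
      · exact h.2
      · have := (mem_fixingSubgroup_iff _).mp hh w hw
        exact congrArg Subtype.val this
    · intro hg
      rw [mem_fixingSubgroup_iff] at hg
      refine ⟨⟨g, hg a (Set.mem_insert _ _)⟩, ?_, rfl⟩
      rw [SetLike.mem_coe, mem_fixingSubgroup_iff]
      intro w hw
      apply Subtype.ext
      exact hg w (Set.mem_insert_of_mem _ ⟨w, hw, rfl⟩)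
  rw [← hmap]
  exact (Subgroup.card_map_of_injective (Subgroup.subtype_injective _)).symm

theorem faithful_ofStabilizer {G : Type u} {X : Type v} [Group G] [MulAction G X]
    [FaithfulSMul G X] (a : X) :
    FaithfulSMul (stabilizer G a) (SubMulAction.ofStabilizer G a) := by
  constructor
  intro g₁ g₂ h
  apply Subtype.ext
  apply FaithfulSMul.eq_of_smul_eq_smul (α := X)
  intro x
  by_cases hx : x = a
  · subst hx
    rw [g₁.2, g₂.2]
  · have := h ⟨x, hx⟩
    exact congrArg Subtype.val this

/-- If all pointwise stabilisers of `j`-subsets have the same order `l > 1` and those of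
`(j+1)`-subsets the same order `m`, a faithful action is `j`-transitive. -/
theorem constStab_aux (l m : ℕ) (hl : 1 < l) (j : ℕ) :
    ∀ (G : Type u) (X : Type v) [Group G] [MulAction G X] [FaithfulSMul G X] [Finite X],
      1 ≤ j → j + 1 ≤ Nat.card X →
      (∀ s : Set X, s.ncard = j → Nat.card (fixingSubgroup G s) = l) →
      (∀ s : Set X, s.ncard = j + 1 → Nat.card (fixingSubgroup G s) = m) →
      IsMultiplyPretransitive G X j := by
  induction j with
  | zero =>
    intro G X _ _ _ _ hj
    omega
  | succ j ih =>
    intro G X _ _ _ _ hj hjn h1 h2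
    have htrans : IsPretransitive G X := constStab_trans hj hjn hl h1 h2
    by_cases hj0 : j = 0
    · subst hj0
      exact is_one_pretransitive_iff.mpr htrans
    · have hne : Nonempty X := by
        by_contra hempty
        rw [not_nonempty_iff] at hempty
        simp at hjn
      obtain ⟨a⟩ := hne
      rw [SubMulAction.ofStabilizer.isMultiplyPretransitive (a := a)]
      have := faithful_ofStabilizer (G := G) a
      apply ih
      · omega
      · rw [SubMulAction.nat_card_ofStabilizer_eq]
        omega
      · intro s' hs'
        rw [card_fixingSubgroup_ofStabilizer]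
        apply h1
        rw [Set.ncard_insert_of_notMem (SubMulAction.notMem_val_image G s'),
          Set.ncard_image_of_injective _ Subtype.val_injective, hs']
      · intro s' hs'
        rw [card_fixingSubgroup_ofStabilizer]
        apply h2
        rw [Set.ncard_insert_of_notMem (SubMulAction.notMem_val_image G s'),
          Set.ncard_image_of_injective _ Subtype.val_injective, hs']

end Cfsg.Agent.Lib.Helper13
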