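import Mathlib

/-!
# Abstract transvection data (for McLaughlin's theorem)

A set `S` of pairs (centre, axis) closed under the operations available in a group
generated by transvections over a prime field.
-/

set_option linter.unusedSectionVars false

namespace Cfsg.Agent.Lib.Helper13.McL

open Module

variable {F : Type*} [Field F] {V : Type*} [AddCommGroup V] [Module F V]

/-- transvection datum -/
structure TD (S : Set (V × Dual F V)) : Prop where
  ne_left : ∀ {x : V} {φ : Dual F V}, (x, φ) ∈ S → x ≠ 0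
  ne_right : ∀ {x : V} {φ : Dual F V}, (x, φ) ∈ S → φ ≠ 0
  orth : ∀ {x : V} {φ : Dual F V}, (x, φ) ∈ S → φ x = 0
  smul_left : ∀ {x : V} {φ : Dual F V} (a : F), a ≠ 0 → (x, φ) ∈ S → (a • x, φ) ∈ S
  smul_right : ∀ {x : V} {φ : Dual F V} (a : F), a ≠ 0 → (x, φ) ∈ S → (x, a • φ) ∈ S
  conj : ∀ {x : V} {φ : Dual F V} {y : V} {ψ : Dual F V} (a : F), (x, φ) ∈ S → (y, ψ) ∈ S →
    (y + (a * φ y) • x, ψ - (a * ψ x) • φ) ∈ S
  comm : ∀ {x : V} {φ : Dual F V} {y : V} {ψ : Dual F V}, (x, φ) ∈ S → (y, ψ) ∈ S →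
    φ y ≠ 0 → ψ x = 0 → (x, ψ) ∈ S
  add_left : ∀ {x y : V} {φ : Dual F V}, (x, φ) ∈ S → (y, φ) ∈ S → x + y ≠ 0 → (x + y, φ) ∈ S
  add_right : ∀ {x : V} {φ ψ : Dual F V}, (x, φ) ∈ S → (x, ψ) ∈ S → φ + ψ ≠ 0 →
    (x, φ + ψ) ∈ S

/-- centres -/
def Cen (S : Set (V × Dual F V)) : Set V := {x | ∃ φ, (x, φ) ∈ S}

/-- the axes of a centre, as a subspace -/
def ax (S : Set (V × Dual F V)) (x : V) : Submodule F (Dual F V) :=
  Submodule.span F {φ | (x, φ) ∈ S}

/-- vectors fixed by all transvections with centre `x` -/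
def NS (S : Set (V × Dual F V)) (x : V) : Submodule F V where
  carrier := {v | ∀ φ, (x, φ) ∈ S → φ v = 0}
  add_mem' := by
    intro a b ha hb φ hφ
    simp [ha φ hφ, hb φ hφ]
  zero_mem' := by
    intro φ _
    simp
  smul_mem' := by
    intro c a ha φ hφ
    simp [ha φ hφ]

/-- vectors killed by all axes -/
def FS (S : Set (V × Dual F V)) : Submodule F V where
  carrier := {v | ∀ p ∈ S, p.2 v = 0}
  add_mem' := by
    intro a b ha hb p hp
    simp [ha p hp, hb p hp]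
  zero_mem' := by
    intro p _
    simp
  smul_mem' := by
    intro c a ha p hp
    simp [ha p hp]

theorem mem_NS {S : Set (V × Dual F V)} {x v : V} :
    v ∈ NS S x ↔ ∀ φ, (x, φ) ∈ S → φ v = 0 := Iff.rfl

theorem mem_FS {S : Set (V × Dual F V)} {v : V} :
    v ∈ FS S ↔ ∀ p ∈ S, p.2 v = 0 := Iff.rfl

theorem FS_le_NS (S : Set (V × Dual F V)) (x : V) : FS S ≤ NS S x :=
  fun _ hv φ hφ => hv (x, φ) hφ

/-- no transvection with centre in an invariant subspace and axis containing it -/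
def NP (S : Set (V × Dual F V)) : Prop :=
  ∀ M : Submodule F V, (∀ p ∈ S, p.1 ∈ M ∨ ∀ m ∈ M, p.2 m = 0) →
    ∀ p ∈ S, p.1 ∈ M → ¬ (∀ m ∈ M, p.2 m = 0)

/-- second unipotent-radical condition -/
def NP2 (S : Set (V × Dual F V)) : Prop :=
  ∀ (x : V) (φ : Dual F V) (w : V) (ω : Dual F V), (x, φ) ∈ S → (x + w, φ + ω) ∈ S →
    (∀ p ∈ S, p.2 w = 0) → (∀ p ∈ S, ω p.1 = 0) → w = 0 ∧ ω = 0

/-- two pairs do not commute -/
def Adj (p q : V × Dual F V) : Prop := p.2 q.1 ≠ 0 ∨ q.2 p.1 ≠ 0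

/-- connectedness of the non-commuting graph -/
def Conn (S : Set (V × Dual F V)) : Prop :=
  ∀ S₁ : Set (V × Dual F V), S₁ ⊆ S → S₁.Nonempty → (S \ S₁).Nonempty →
    ∃ p ∈ S₁, ∃ q ∈ S \ S₁, Adj p q

section basics

variable {S : Set (V × Dual F V)}

theorem TD.neg_left (h : TD S) {x : V} {φ : Dual F V} (hx : (x, φ) ∈ S) : (-x, φ) ∈ S := by
  have := h.smul_left (-1) (by simp) hx
  rwa [neg_smul, one_smul] at this

theorem TD.neg_right (h : TD S) {x : V} {φ : Dual F V} (hx : (x, φ) ∈ S) : (x, -φ) ∈ S := by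
  have := h.smul_right (-1) (by simp) hx
  rwa [neg_one_smul F φ] at this

theorem TD.sub_left (h : TD S) {x y : V} {φ : Dual F V} (hx : (x, φ) ∈ S) (hy : (y, φ) ∈ S)
    (hxy : x - y ≠ 0) : (x - y, φ) ∈ S := by
  have := h.add_left hx (h.neg_left hy) (by rwa [← sub_eq_add_neg])
  rwa [← sub_eq_add_neg] at this

theorem mem_ax (h : TD S) {x : V} {φ : Dual F V} :
    φ ∈ ax S x ↔ φ = 0 ∨ (x, φ) ∈ S := by
  constructor
  · intro hφ
    induction hφ using Submodule.span_induction with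
    | mem φ hφ => exact Or.inr hφ
    | zero => exact Or.inl rfl
    | add φ ψ _ _ h1 h2 =>
      rcases h1 with rfl | h1
      · simpa using h2
      rcases h2 with rfl | h2
      · simpa using Or.inr h1
      by_cases h0 : φ + ψ = 0
      · exact Or.inl h0
      · exact Or.inr (h.add_right h1 h2 h0)
    | smul a φ _ h1 =>
      rcases h1 with rfl | h1
      · simp
      by_cases ha : a = 0
      · simp [ha]
      · exact Or.inr (h.smul_right a ha h1)
  · rintro (rfl | hφ)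
    · exact Submodule.zero_mem _
    · exact Submodule.subset_span hφ

theorem mem_ax_of_mem {x : V} {φ : Dual F V} (hφ : (x, φ) ∈ S) : φ ∈ ax S x :=
  Submodule.subset_span hφ

theorem apply_self_of_mem_ax (h : TD S) {x : V} {φ : Dual F V} (hφ : φ ∈ ax S x) : φ x = 0 := by
  rcases (mem_ax h).1 hφ with rfl | hφ
  · simp
  · exact h.orth hφ

theorem self_mem_NS (h : TD S) (x : V) : x ∈ NS S x := fun _ hφ => h.orth hφ

theorem NS_eq (S : Set (V × Dual F V)) (x : V) : NS S x = (ax S x).dualCoannihilator := by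
  ext v
  rw [Submodule.mem_dualCoannihilator, mem_NS]
  constructor
  · intro hv φ hφ
    induction hφ using Submodule.span_induction with
    | mem φ hφ => exact hv φ hφ
    | zero => simp
    | add φ ψ _ _ h1 h2 => simp [h1, h2]
    | smul a φ _ h1 => simp [h1]
  · intro hv φ hφ
    exact hv φ (mem_ax_of_mem hφ)

theorem NS_smul (h : TD S) {a : F} (ha : a ≠ 0) (x : V) : NS S (a • x) = NS S x := by
  ext v
  simp only [mem_NS]
  constructor
  · intro hv φ hφ
    exact hv φ (h.smul_left a ha hφ)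
  · intro hv φ hφ
    have := h.smul_left a⁻¹ (inv_ne_zero ha) hφ
    rw [smul_smul, inv_mul_cancel₀ ha, one_smul] at this
    exact hv φ this

theorem smul_mem_Cen (h : TD S) {a : F} (ha : a ≠ 0) {x : V} (hx : x ∈ Cen S) :
    a • x ∈ Cen S := by
  obtain ⟨φ, hφ⟩ := hx
  exact ⟨φ, h.smul_left a ha hφ⟩

theorem Cen_ne_zero (h : TD S) {x : V} (hx : x ∈ Cen S) : x ≠ 0 := by
  obtain ⟨φ, hφ⟩ := hx
  exact h.ne_left hφ

theorem not_mem_NS_iff {x y : V} : y ∉ NS S x ↔ ∃ φ, (x, φ) ∈ S ∧ φ y ≠ 0 := by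
  simp only [mem_NS]
  push Not
  rfl

/-- adjacent centres: the sum is a centre -/
theorem cen_add_of_adj (h : TD S) {x y : V} (hy : y ∈ Cen S) (hxy : y ∉ NS S x) :
    x + y ∈ Cen S := by
  obtain ⟨φ, hφ, hφy⟩ := not_mem_NS_iff.1 hxy
  obtain ⟨ψ, hψ⟩ := hy
  have := h.conj (φ y)⁻¹ hφ hψ
  rw [inv_mul_cancel₀ hφy, one_smul] at this
  exact ⟨_, by rwa [add_comm] at this⟩

theorem NS_neg (h : TD S) (x : V) : NS S (-x) = NS S x := by
  have := NS_smul h (a := (-1 : F)) (by simp) x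
  rwa [neg_one_smul F x] at this

theorem add_not_mem_NS_left {x z u : V} (hz : z ∉ NS S x) (hu : u ∈ NS S x) : z + u ∉ NS S x := by
  intro hzu
  apply hz
  have := (NS S x).sub_mem hzu hu
  rwa [add_sub_cancel_right] at this

theorem add_not_mem_NS_right {x z u : V} (hu : u ∈ NS S x) (hz : z ∉ NS S x) : u + z ∉ NS S x := by
  rw [add_comm]
  exact add_not_mem_NS_left hz hu

theorem smul_not_mem_NS {x z : V} {a : F} (ha : a ≠ 0) (hz : z ∉ NS S x) : a • z ∉ NS S x := by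
  intro hzu
  exact hz (((NS S x).smul_mem_iff ha).1 hzu)

theorem kills_span {s : Set V} {χ : Dual F V} (hs : ∀ z ∈ s, χ z = 0) {m : V}
    (hm : m ∈ Submodule.span F s) : χ m = 0 := by
  have : Submodule.span F s ≤ LinearMap.ker χ := Submodule.span_le.2 (fun z hz => hs z hz)
  exact this hm

/-- axes of `x` vanishing at a neighbour `y` are axes of `y` -/
theorem inter_ker_le (h : TD S) {x y : V} (hyx : x ∉ NS S y) {φ' : Dual F V} (hφ' : φ' ∈ ax S x)
    (hφ'y : φ' y = 0) : φ' ∈ ax S y := by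
  obtain ⟨ψ, hψ, hψx⟩ := not_mem_NS_iff.1 hyx
  rcases (mem_ax h).1 hφ' with rfl | hφ''
  · exact zero_mem _
  · exact mem_ax_of_mem (h.comm hψ hφ'' hψx hφ'y)

theorem ax_le_of_one_dir (h : TD S) {x y : V} (hxy : y ∉ NS S x) (hyx : x ∈ NS S y) :
    ax S y ≤ ax S x := by
  intro ψ hψ
  rcases (mem_ax h).1 hψ with rfl | hψ'
  · exact zero_mem _
  · exact inter_ker_le h hxy hψ (hyx ψ hψ')

theorem ax_lt_of_one_dir (h : TD S) {x y : V} (hxy : y ∉ NS S x) (hyx : x ∈ NS S y) :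
    ax S y < ax S x := by
  refine lt_of_le_of_ne (ax_le_of_one_dir h hxy hyx) ?_
  intro heq
  obtain ⟨φ, hφ, hφy⟩ := not_mem_NS_iff.1 hxy
  have : φ ∈ ax S y := heq ▸ mem_ax_of_mem hφ
  exact hφy (apply_self_of_mem_ax h this)

/-- decomposition of an axis along a functional not vanishing at `y` -/
theorem ax_decomp (_h : TD S) {x y : V} {φ φ' : Dual F V} (hφ : φ ∈ ax S x) (hφy : φ y ≠ 0)
    (hφ' : φ' ∈ ax S x) :
    φ' - (φ' y / φ y) • φ ∈ ax S x ∧ (φ' - (φ' y / φ y) • φ) y = 0 := by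
  refine ⟨(ax S x).sub_mem hφ' ((ax S x).smul_mem _ hφ), ?_⟩
  simp only [LinearMap.sub_apply, LinearMap.smul_apply, smul_eq_mul]
  field_simp
  ring

variable [FiniteDimensional F V]

theorem finrank_ax_le_of_hyp (h : TD S) {x y : V} (hxy : y ∉ NS S x) (hyx : x ∉ NS S y) :
    finrank F (ax S x) ≤ finrank F (ax S y) := by
  obtain ⟨φ, hφ, hφy⟩ := not_mem_NS_iff.1 hxy
  obtain ⟨ψ, hψ, hψx⟩ := not_mem_NS_iff.1 hyx
  have h1 : ax S x ≤ (ax S y ⊓ LinearMap.ker (Dual.eval F V x)) ⊔ Submodule.span F {φ} := by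
    intro φ' hφ'
    obtain ⟨h1, h2⟩ := ax_decomp h (mem_ax_of_mem hφ) hφy hφ'
    have h3 : φ' = (φ' - (φ' y / φ y) • φ) + (φ' y / φ y) • φ := by abel
    rw [h3]
    refine Submodule.add_mem_sup (Submodule.mem_inf.2 ⟨inter_ker_le h hyx h1 h2, ?_⟩)
      (Submodule.smul_mem _ _ (Submodule.mem_span_singleton_self φ))
    rw [LinearMap.mem_ker, Dual.eval_apply]
    exact apply_self_of_mem_ax h h1
  have h2 : ax S y ⊓ LinearMap.ker (Dual.eval F V x) < ax S y := by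
    refine lt_of_le_of_ne inf_le_left ?_
    intro heq
    have : ψ ∈ ax S y ⊓ LinearMap.ker (Dual.eval F V x) := by
      rw [heq]
      exact mem_ax_of_mem hψ
    have := (Submodule.mem_inf.1 this).2
    rw [LinearMap.mem_ker, Dual.eval_apply] at this
    exact hψx this
  have h3 := Submodule.finrank_lt_finrank_of_lt h2
  have h4 := Submodule.finrank_mono h1
  have h5 := Submodule.finrank_add_le_finrank_add_finrank
    (ax S y ⊓ LinearMap.ker (Dual.eval F V x)) (Submodule.span F {φ})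
  have h6 : finrank F (Submodule.span F {φ}) ≤ 1 := by
    refine le_trans (finrank_span_le_card {φ}) (by simp)
  omega

theorem finrank_ax_eq_of_hyp (h : TD S) {x y : V} (hxy : y ∉ NS S x) (hyx : x ∉ NS S y) :
    finrank F (ax S x) = finrank F (ax S y) :=
  le_antisymm (finrank_ax_le_of_hyp h hxy hyx) (finrank_ax_le_of_hyp h hyx hxy)

/-- uniformity of the axis dimension -/
theorem uniform (h : TD S) (hNP : NP S) (hC : Conn S) :
    ∃ a : ℕ, ∀ x ∈ Cen S, finrank F (ax S x) = a := by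
  by_cases hne : S.Nonempty
  swap
  · refine ⟨0, ?_⟩
    rintro x ⟨φ, hφ⟩
    exact absurd ⟨_, hφ⟩ hne
  have hex : ∃ a : ℕ, ∃ x ∈ Cen S, finrank F (ax S x) = a := by
    obtain ⟨⟨x, φ⟩, hp⟩ := hne
    exact ⟨_, x, ⟨φ, hp⟩, rfl⟩
  classical
  obtain ⟨a₀, ha₀⟩ : ∃ a₀, a₀ = Nat.find hex := ⟨_, rfl⟩
  have hmin : ∀ x ∈ Cen S, a₀ ≤ finrank F (ax S x) := by
    intro x hx
    rw [ha₀]
    exact Nat.find_min' hex ⟨x, hx, rfl⟩
  obtain ⟨x₀, hx₀, hx₀a⟩ : ∃ x ∈ Cen S, finrank F (ax S x) = a₀ := by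
    rw [ha₀]
    exact Nat.find_spec hex
  refine ⟨a₀, ?_⟩
  -- key claim
  have key : ∀ x ∈ Cen S, finrank F (ax S x) = a₀ → ∀ y ∈ Cen S, finrank F (ax S y) ≠ a₀ →
      y ∈ NS S x := by
    intro x hx hxa y hy hya
    by_contra hxy
    by_cases hyx : x ∈ NS S y
    · have := Submodule.finrank_lt_finrank_of_lt (ax_lt_of_one_dir h hxy hyx)
      have := hmin y hy
      omega
    · have := finrank_ax_eq_of_hyp h hxy hyx
      omega
  by_contra hcon
  push Not at hcon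
  obtain ⟨y₀, hy₀, hy₀a⟩ := hcon
  obtain ⟨φ₀, hφ₀⟩ := hx₀
  obtain ⟨ψ₀, hψ₀⟩ := hy₀
  obtain ⟨p, hp, q, hq, hadj⟩ := hC {p | p ∈ S ∧ finrank F (ax S p.1) = a₀} (fun p hp => hp.1)
    ⟨(x₀, φ₀), hφ₀, hx₀a⟩ ⟨(y₀, ψ₀), hψ₀, fun hh => hy₀a hh.2⟩
  obtain ⟨x, φ⟩ := p
  obtain ⟨y, ψ⟩ := q
  have hxS : (x, φ) ∈ S := hp.1
  have hxa : finrank F (ax S x) = a₀ := hp.2
  have hyS : (y, ψ) ∈ S := hq.1
  have hya : finrank F (ax S y) ≠ a₀ := fun hh => hq.2 ⟨hyS, hh⟩
  have hφy : φ y = 0 := key x ⟨φ, hxS⟩ hxa y ⟨ψ, hyS⟩ hya φ hxS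
  have hψx : ψ x ≠ 0 := by
    rcases hadj with hh | hh
    · exact absurd hφy hh
    · exact hh
  have hyφ : (y, φ) ∈ S := h.comm hyS hxS hψx hφy
  refine hNP (Submodule.span F {z | z ∈ Cen S ∧ finrank F (ax S z) ≠ a₀}) ?_ (y, φ) hyφ
    (Submodule.subset_span ⟨⟨ψ, hyS⟩, hya⟩) ?_
  · rintro ⟨z, χ⟩ hz
    by_cases hza : finrank F (ax S z) = a₀
    · right
      intro m hm
      refine kills_span ?_ hm
      rintro z' ⟨hz', hz'a⟩
      exact key z ⟨χ, hz⟩ hza z' hz' hz'a χ hz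
    · left
      exact Submodule.subset_span ⟨⟨χ, hz⟩, hza⟩
  · intro m hm
    refine kills_span ?_ hm
    rintro z' ⟨hz', hz'a⟩
    exact key x ⟨φ, hxS⟩ hxa z' hz' hz'a φ hxS

/-- symmetry of the incidence relation -/
theorem symm (h : TD S) (hNP : NP S) (hC : Conn S) {x y : V} (hx : x ∈ Cen S) (hy : y ∈ Cen S)
    (hxy : y ∉ NS S x) : x ∉ NS S y := by
  obtain ⟨a, ha⟩ := uniform h hNP hC
  intro hyx
  have := Submodule.finrank_lt_finrank_of_lt (ax_lt_of_one_dir h hxy hyx)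
  rw [ha x hx, ha y hy] at this
  exact lt_irrefl _ this

theorem symm' (h : TD S) (hNP : NP S) (hC : Conn S) {x y : V} (hx : x ∈ Cen S) (hy : y ∈ Cen S)
    (hxy : y ∈ NS S x) : x ∈ NS S y := by
  by_contra hyx
  exact symm h hNP hC hy hx hyx hxy

omit [FiniteDimensional F V] in
/-- a centre is never fixed by everything -/
theorem cen_not_mem_FS (hNP : NP S) {x : V} (hx : x ∈ Cen S) : x ∉ FS S := by
  intro hxF
  obtain ⟨φ, hφ⟩ := hx
  exact hNP (FS S) (fun p hp => Or.inr (fun m hm => hm p hp)) (x, φ) hφ hxF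
    (fun m hm => hm (x, φ) hφ)

theorem exists_nbr (h : TD S) (hNP : NP S) (hC : Conn S) {x : V} (hx : x ∈ Cen S) :
    ∃ y ∈ Cen S, y ∉ NS S x := by
  by_contra hcon
  push Not at hcon
  apply cen_not_mem_FS hNP hx
  rintro ⟨y, ψ⟩ hy
  exact symm' h hNP hC hx ⟨ψ, hy⟩ (hcon y ⟨ψ, hy⟩) ψ hy

/-- any two centres have a common neighbour -/
theorem exists_common_nbr (h : TD S) (hNP : NP S) (hC : Conn S) {x y : V} (hx : x ∈ Cen S)
    (hy : y ∈ Cen S) : ∃ z ∈ Cen S, z ∉ NS S x ∧ z ∉ NS S y := by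
  by_contra hno
  obtain ⟨φ, hφ⟩ := hx
  obtain ⟨ψ, hψ⟩ := hy
  have hx : x ∈ Cen S := ⟨φ, hφ⟩
  obtain ⟨p, hp, q, hq, hadj⟩ := hC {p | p ∈ S ∧ ∃ z ∈ Cen S, z ∉ NS S x ∧ z ∉ NS S p.1}
    (fun p hp => hp.1)
    ⟨(x, φ), hφ, by
      obtain ⟨z, hz, hzx⟩ := exists_nbr h hNP hC hx
      exact ⟨z, hz, hzx, hzx⟩⟩ ⟨(y, ψ), hψ, fun hh => hno hh.2⟩
  obtain ⟨u, μ⟩ := p
  obtain ⟨u', μ'⟩ := q
  obtain ⟨hpS, z, hz, hzx, hzu⟩ := hp
  have hqS : (u', μ') ∈ S := hq.1
  have hu : u ∈ Cen S := ⟨μ, hpS⟩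
  have hu' : u' ∈ Cen S := ⟨μ', hqS⟩
  have huu' : u' ∉ NS S u := by
    rcases hadj with hh | hh
    · exact fun hc => hh (hc μ hpS)
    · exact symm h hNP hC hu' hu (fun hc => hh (hc μ' hqS))
  have hu'u : u ∉ NS S u' := symm h hNP hC hu hu' huu'
  apply hq.2
  refine ⟨hqS, ?_⟩
  show ∃ z ∈ Cen S, z ∉ NS S x ∧ z ∉ NS S u'
  by_cases h1 : z ∈ NS S u'
  swap
  · exact ⟨z, hz, hzx, h1⟩
  by_cases h2 : u' ∈ NS S x
  swap
  · refine ⟨x + u', cen_add_of_adj h hu' h2, add_not_mem_NS_right (self_mem_NS h x) h2, ?_⟩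
    exact add_not_mem_NS_left (symm h hNP hC hx hu' h2) (self_mem_NS h u')
  by_cases h3 : u ∈ NS S x
  swap
  · exact ⟨u, hu, h3, hu'u⟩
  refine ⟨z + u, cen_add_of_adj h hu (symm h hNP hC hu hz hzu), add_not_mem_NS_left hzx h3,
    add_not_mem_NS_right h1 hu'u⟩

/-- combination of two commuting centres, seen from a common neighbour -/
theorem comb_mem_cen (h : TD S) (hNP : NP S) (hC : Conn S) {x y z : V} (hx : x ∈ Cen S)
    (hy : y ∈ Cen S) (hz : z ∈ Cen S) (hxy : y ∈ NS S x) (hzx : x ∉ NS S z) (hzy : y ∉ NS S z)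
    (α β : F) (hw : α • x + β • y ∉ NS S z) : α • x + β • y ∈ Cen S := by
  by_cases hα : α = 0
  · subst hα
    have hβ : β ≠ 0 := by
      rintro rfl
      apply hw
      simp
    simpa using smul_mem_Cen h hβ hy
  by_cases hβ : β = 0
  · subst hβ
    simpa using smul_mem_Cen h hα hx
  have c1 : z + α • x ∈ Cen S :=
    cen_add_of_adj h (smul_mem_Cen h hα hx) (smul_not_mem_NS hα hzx)
  have hyz : z ∉ NS S y := symm h hNP hC hz hy hzy
  have hyx : x ∈ NS S y := symm' h hNP hC hx hy hxy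
  have c2 : (z + α • x) + β • y ∈ Cen S := by
    refine cen_add_of_adj h (smul_mem_Cen h hβ hy) ?_
    refine symm h hNP hC (smul_mem_Cen h hβ hy) c1 ?_
    rw [NS_smul h hβ]
    exact add_not_mem_NS_left hyz ((NS S y).smul_mem α hyx)
  have c3 : -z ∈ Cen S := by
    have := smul_mem_Cen h (a := (-1 : F)) (by simp) hz
    rwa [neg_one_smul F z] at this
  have e1 : (z + α • x) + β • y = z + (α • x + β • y) := by abel
  rw [e1] at c2
  have : (z + (α • x + β • y)) + -z ∈ Cen S := by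
    refine cen_add_of_adj h c3 ?_
    refine symm h hNP hC c3 c2 ?_
    rw [NS_neg h]
    exact add_not_mem_NS_right (self_mem_NS h z) hw
  have e2 : (z + (α • x + β • y)) + -z = α • x + β • y := by abel
  rwa [e2] at this

/-- one-dimensional axis spaces -/
theorem ax_one_dim {u : V} {θ θ' : Dual F V} (ha : finrank F (ax S u) = 1) (hθ : (u, θ) ∈ S)
    (hne : θ ≠ 0) (hθ' : θ' ∈ ax S u) : ∃ c : F, θ' = c • θ := by
  have hnz : (⟨θ, mem_ax_of_mem hθ⟩ : ax S u) ≠ 0 := by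
    intro hh
    exact hne (congrArg Subtype.val hh)
  obtain ⟨c, hc⟩ := (finrank_eq_one_iff_of_nonzero' (K := F) (V := ax S u)
    ⟨θ, mem_ax_of_mem hθ⟩ hnz).1 ha ⟨θ', hθ'⟩
  exact ⟨c, (congrArg Subtype.val hc).symm⟩

theorem finrank_ax_eq_one (h : TD S) {u : V} {θ : Dual F V} (hθ : (u, θ) ∈ S)
    (hall : ∀ θ', (u, θ') ∈ S → ∃ c : F, θ' = c • θ) : finrank F (ax S u) = 1 := by
  have hnz : (⟨θ, mem_ax_of_mem hθ⟩ : ax S u) ≠ 0 := by
    intro hh
    exact h.ne_right hθ (congrArg Subtype.val hh)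
  refine (finrank_eq_one_iff_of_nonzero' (K := F) (V := ax S u)
    ⟨θ, mem_ax_of_mem hθ⟩ hnz).2 ?_
  rintro ⟨θ', hθ'⟩
  rcases (mem_ax h).1 hθ' with rfl | hθ''
  · exact ⟨0, by ext; simp⟩
  · obtain ⟨c, hc⟩ := hall θ' hθ''
    exact ⟨c, Subtype.ext hc.symm⟩

/-- a centre is determined modulo the fixed space -/
theorem inj_mod_FS (h : TD S) (hNP : NP S) (hNP2 : NP2 S) (hC : Conn S) {x w : V}
    (hx : x ∈ Cen S) (hxw : x + w ∈ Cen S) (hw : w ∈ FS S) : w = 0 := by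
  obtain ⟨z, hz, hzx⟩ := exists_nbr h hNP hC hx
  have hxz : x ∉ NS S z := symm h hNP hC hx hz hzx
  obtain ⟨χ, hχ, hχx⟩ := not_mem_NS_iff.1 hxz
  have hχw : χ w = 0 := hw (z, χ) hχ
  have hχxw : χ (x + w) ≠ 0 := by
    rw [map_add, hχw, add_zero]
    exact hχx
  have hxwz : x + w ∉ NS S z := fun hc => hχxw (hc χ hχ)
  have hzxw : z ∉ NS S (x + w) := symm h hNP hC hz hxw hxwz
  obtain ⟨φ', hφ', hφ'z⟩ := not_mem_NS_iff.1 hzxw
  have hφ'w : φ' w = 0 := hw (x + w, φ') hφ'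
  have hφ'x : φ' x = 0 := by
    have := h.orth hφ'
    rw [map_add, hφ'w, add_zero] at this
    exact this
  by_cases hcase : ∃ φ, (x, φ) ∈ S ∧ φ z = 0
  · obtain ⟨φ, hφ, hφz⟩ := hcase
    have hzφ : (z, φ) ∈ S := h.comm hχ hφ hχx hφz
    have hφw : φ w = 0 := hw (x, φ) hφ
    have hφxw : φ (x + w) = 0 := by
      rw [map_add, hφw, add_zero]
      exact h.orth hφ
    have hxwφ : (x + w, φ) ∈ S := h.comm hφ' hzφ hφ'z hφxw
    have := hNP2 x φ w 0 hφ (by simpa using hxwφ) hw (fun p _ => by simp)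
    exact this.1
  push Not at hcase
  obtain ⟨φ, hφ⟩ := hx
  have hφz : φ z ≠ 0 := hcase φ hφ
  have hφw : φ w = 0 := hw (x, φ) hφ
  have hφx : φ x = 0 := h.orth hφ
  have hχz : χ z = 0 := h.orth hχ
  -- all axis spaces are one-dimensional
  have hone : finrank F (ax S x) = 1 := by
    refine finrank_ax_eq_one h hφ ?_
    intro θ' hθ'
    obtain ⟨h1, h2⟩ := ax_decomp h (mem_ax_of_mem hφ) hφz (mem_ax_of_mem hθ')
    rcases (mem_ax h).1 h1 with h3 | h3
    · exact ⟨θ' z / φ z, sub_eq_zero.1 h3⟩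
    · exact absurd h2 (hcase _ h3)
  obtain ⟨a, ha⟩ := uniform h hNP hC
  have ha1 : a = 1 := by rw [← ha x ⟨φ, hφ⟩, hone]
  subst ha1
  obtain ⟨ω, hω⟩ : ∃ ω : Dual F V, ω = φ' - (φ' z / φ z) • φ := ⟨_, rfl⟩
  have key : ∀ a : F, a ≠ 0 → (w - (a * χ x) • z, ω + (a * φ' z) • χ) ∈ S := by
    intro a ha0
    have s1 := h.conj a hχ hφ
    have s2 := h.conj (a * φ z * χ x)⁻¹ s1 hφ'
    have e1 : x + w + ((a * φ z * χ x)⁻¹ * (φ - (a * φ z) • χ) (x + w)) • (x + (a * χ x) • z)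
        = w - (a * χ x) • z := by
      have : (a * φ z * χ x)⁻¹ * (φ - (a * φ z) • χ) (x + w) = -1 := by
        simp only [LinearMap.sub_apply, LinearMap.smul_apply, smul_eq_mul, map_add, hφx, hφw,
          hχw]
        field_simp
        ring
      rw [this]
      module
    have e2 : φ' - ((a * φ z * χ x)⁻¹ * φ' (x + (a * χ x) • z)) • (φ - (a * φ z) • χ)
        = ω + (a * φ' z) • χ := by
      have : (a * φ z * χ x)⁻¹ * φ' (x + (a * χ x) • z) = φ' z / φ z := by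
        simp only [map_add, map_smul, smul_eq_mul, hφ'x]
        field_simp
        ring
      rw [this, hω]
      have e3 : (φ' z / φ z) * (a * φ z) = a * φ' z := by
        field_simp
      rw [← e3]
      module
    rw [e1, e2] at s2
    exact s2
  have hωcen : ∀ p ∈ S, ω p.1 = 0 := by
    rintro ⟨y, ψ⟩ hp
    show ω y = 0
    by_contra hne
    have hy : y ∈ Cen S := ⟨ψ, hp⟩
    by_cases hχy : χ y = 0
    · have k1 := key 1 one_ne_zero
      have hc1 : w - (1 * χ x) • z ∈ Cen S := ⟨_, k1⟩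
      have h1 : y ∉ NS S (w - (1 * χ x) • z) := by
        intro hc
        have := hc _ k1
        simp only [LinearMap.add_apply, LinearMap.smul_apply, hχy, smul_eq_mul, mul_zero,
          add_zero] at this
        exact hne this
      have h2 := symm h hNP hC hc1 hy h1
      obtain ⟨ψ', hψ', hψ'c⟩ := not_mem_NS_iff.1 h2
      have hψ'w : ψ' w = 0 := hw (y, ψ') hψ'
      have hψ'z : ψ' z ≠ 0 := by
        intro hh
        apply hψ'c
        simp [hψ'w, hh]
      have h3 : z ∉ NS S y := fun hc => hψ'z (hc ψ' hψ')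
      have h4 := symm h hNP hC hy hz h3
      obtain ⟨χ', hχ', hχ'y⟩ := not_mem_NS_iff.1 h4
      obtain ⟨c, hc⟩ := ax_one_dim (ha z hz) hχ (h.ne_right hχ) (mem_ax_of_mem hχ')
      apply hχ'y
      rw [hc]
      simp [hχy]
    · obtain ⟨a, ha'⟩ : ∃ a : F, a = -ω y / (φ' z * χ y) := ⟨_, rfl⟩
      have ha0 : a ≠ 0 := by
        rw [ha']
        exact div_ne_zero (neg_ne_zero.2 hne) (mul_ne_zero hφ'z hχy)
      have k := key a ha0
      have hc1 : w - (a * χ x) • z ∈ Cen S := ⟨_, k⟩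
      have h3 : z ∉ NS S y := symm h hNP hC hz hy (fun hc => hχy (hc χ hχ))
      obtain ⟨ψ', hψ', hψ'z⟩ := not_mem_NS_iff.1 h3
      have hψ'w : ψ' w = 0 := hw (y, ψ') hψ'
      have h4 : w - (a * χ x) • z ∉ NS S y := by
        intro hc
        have := hc ψ' hψ'
        simp only [map_sub, map_smul, hψ'w, smul_eq_mul, zero_sub, neg_eq_zero, mul_eq_zero]
          at this
        rcases this with (hh | hh) | hh
        · exact ha0 hh
        · exact hχx hh
        · exact hψ'z hh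
      have h5 := symm h hNP hC hy hc1 h4
      obtain ⟨θ', hθ', hθ'y⟩ := not_mem_NS_iff.1 h5
      obtain ⟨c, hc⟩ := ax_one_dim (ha _ hc1) k (h.ne_right k) (mem_ax_of_mem hθ')
      apply hθ'y
      rw [hc]
      simp only [LinearMap.smul_apply, LinearMap.add_apply, smul_eq_mul]
      rw [ha']
      field_simp
      ring
  have k1 := key 1 one_ne_zero
  have m1 : (-(1 * χ x) • z, (1 * φ' z) • χ) ∈ S :=
    h.smul_left _ (by simpa using hχx) (h.smul_right _ (by simpa using hφ'z) hχ)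
  have m2 : (-(1 * χ x) • z + w, (1 * φ' z) • χ + ω) ∈ S := by
    have e1 : -(1 * χ x) • z + w = w - (1 * χ x) • z := by module
    have e2 : (1 * φ' z) • χ + ω = ω + (1 * φ' z) • χ := by abel
    rw [e1, e2]
    exact k1
  exact (hNP2 _ _ w ω m1 m2 hw hωcen).1

/-- combination of two commuting centres is a centre (if nonzero) -/
theorem comb_mem_cen' (h : TD S) (hNP : NP S) (hNP2 : NP2 S) (hC : Conn S) (h2 : (2 : F) ≠ 0)
    {x y : V} (hx : x ∈ Cen S) (hy : y ∈ Cen S) (hxy : y ∈ NS S x) (α β : F)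
    (hw : α • x + β • y ≠ 0) : α • x + β • y ∈ Cen S := by
  by_cases hα : α = 0
  · subst hα
    have hβ : β ≠ 0 := by
      rintro rfl
      apply hw
      simp
    simpa using smul_mem_Cen h hβ hy
  by_cases hβ : β = 0
  · subst hβ
    simpa using smul_mem_Cen h hα hx
  obtain ⟨z, hz, hzx, hzy⟩ := exists_common_nbr h hNP hC hx hy
  have hxz : x ∉ NS S z := symm h hNP hC hx hz hzx
  have hyz : y ∉ NS S z := symm h hNP hC hy hz hzy
  by_cases hwz : α • x + β • y ∈ NS S z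
  swap
  · exact comb_mem_cen h hNP hC hx hy hz hxy hxz hyz α β hwz
  obtain ⟨w, hwdef⟩ : ∃ w : V, w = α • x + β • y := ⟨_, rfl⟩
  rw [← hwdef] at hw hwz ⊢
  have hwF : w ∉ FS S := by
    intro hwF
    have c1 : (-α) • x ∈ Cen S := smul_mem_Cen h (neg_ne_zero.2 hα) hx
    have c2 : (-α) • x + w ∈ Cen S := by
      have : (-α) • x + w = β • y := by rw [hwdef]; module
      rw [this]
      exact smul_mem_Cen h hβ hy
    exact hw (inj_mod_FS h hNP hNP2 hC c1 c2 hwF)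
  obtain ⟨⟨z', χ⟩, hz'S, hχw⟩ : ∃ p ∈ S, p.2 w ≠ 0 := by
    by_contra hcon
    push Not at hcon
    exact hwF hcon
  have hz' : z' ∈ Cen S := ⟨χ, hz'S⟩
  have hwz' : w ∉ NS S z' := fun hc => hχw (hc χ hz'S)
  -- the family x + t w
  have fam : ∀ t : F, x + t • w ∈ Cen S := by
    intro t
    have e : x + t • w = (1 + t * α) • x + (t * β) • y := by rw [hwdef]; module
    rw [e]
    refine comb_mem_cen h hNP hC hx hy hz hxy hxz hyz _ _ ?_
    rw [← e]
    exact add_not_mem_NS_left hxz ((NS S z).smul_mem t hwz)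
  -- finishing lemma
  have fin : ∀ u₁ u₂ : V, u₁ ∈ Cen S → u₂ ∈ Cen S → u₁ ∉ NS S z' → u₂ ∉ NS S z' →
      ∀ c : F, c ≠ 0 → u₂ - u₁ = c • w → w ∈ Cen S := by
    intro u₁ u₂ hu₁ hu₂ h1 h2' c hc he
    have hz'1 : u₁ ∉ NS S z' := h1
    have ew : w = (-c⁻¹) • u₁ + c⁻¹ • u₂ := by
      have : w = c⁻¹ • (u₂ - u₁) := by
        rw [he, smul_smul, inv_mul_cancel₀ hc, one_smul]
      rw [this]
      module
    by_cases hadj : u₂ ∈ NS S u₁
    · rw [ew]
      refine comb_mem_cen h hNP hC hu₁ hu₂ hz' hadj h1 h2' _ _ ?_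
      rw [← ew]
      exact hwz'
    · have c3 : -u₁ ∈ Cen S := by
        have := smul_mem_Cen h (a := (-1 : F)) (by simp) hu₁
        rwa [neg_one_smul F u₁] at this
      have c4 : -u₁ + u₂ ∈ Cen S := by
        refine cen_add_of_adj h hu₂ ?_
        rw [NS_neg h]
        exact hadj
      have : w = c⁻¹ • (-u₁ + u₂) := by rw [ew]; module
      rw [this]
      exact smul_mem_Cen h (inv_ne_zero hc) c4
  have f0 : x ∈ Cen S := hx
  have f1 : x + w ∈ Cen S := by simpa using fam 1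
  have f2 : x + (2 : F) • w ∈ Cen S := fam 2
  by_cases g0 : x ∈ NS S z'
  · have g1 : x + w ∉ NS S z' := add_not_mem_NS_right g0 hwz'
    have g2 : x + (2 : F) • w ∉ NS S z' := add_not_mem_NS_right g0 (smul_not_mem_NS h2 hwz')
    exact fin _ _ f1 f2 g1 g2 1 one_ne_zero (by module)
  · by_cases g1 : x + w ∈ NS S z'
    · have g2 : x + (2 : F) • w ∉ NS S z' := by
        have : x + (2 : F) • w = (x + w) + w := by module
        rw [this]
        exact add_not_mem_NS_right g1 hwz'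
      exact fin _ _ f0 f2 g0 g2 2 h2 (by module)
    · exact fin _ _ f0 f1 g0 g1 1 one_ne_zero (by module)

theorem cen_add (h : TD S) (hNP : NP S) (hNP2 : NP2 S) (hC : Conn S) (h2 : (2 : F) ≠ 0)
    {x y : V} (hx : x ∈ Cen S) (hy : y ∈ Cen S) (hxy : x + y ≠ 0) : x + y ∈ Cen S := by
  by_cases hadj : y ∈ NS S x
  · have := comb_mem_cen' h hNP hNP2 hC h2 hx hy hadj 1 1 (by simpa using hxy)
    simpa using this
  · exact cen_add_of_adj h hy hadj

/-- every nonzero vector in the span of the centres is a centre -/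
theorem cen_of_mem_span (h : TD S) (hNP : NP S) (hNP2 : NP2 S) (hC : Conn S) (h2 : (2 : F) ≠ 0)
    {v : V} (hv : v ∈ Submodule.span F (Cen S)) (hv0 : v ≠ 0) : v ∈ Cen S := by
  have key : ∀ v ∈ Submodule.span F (Cen S), v = 0 ∨ v ∈ Cen S := by
    intro v hv
    induction hv using Submodule.span_induction with
    | mem x hx => exact Or.inr hx
    | zero => exact Or.inl rfl
    | add x y _ _ h1 h2' =>
      rcases h1 with rfl | h1
      · simpa using h2'
      rcases h2' with rfl | h2'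
      · simpa using Or.inr h1
      by_cases h0 : x + y = 0
      · exact Or.inl h0
      · exact Or.inr (cen_add h hNP hNP2 hC h2 h1 h2' h0)
    | smul a x _ h1 =>
      rcases h1 with rfl | h1
      · simp
      by_cases ha : a = 0
      · simp [ha]
      · exact Or.inr (smul_mem_Cen h ha h1)
  exact (key v hv).resolve_left hv0

end basics

end Cfsg.Agent.Lib.Helper13.McL
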