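import Mathlib
import Cfsg.Agent.Lib.Helper13.McL1

/-!
# Transvection data spanning the whole space: linear or symplectic type
-/

set_option linter.unusedSectionVars false

namespace Cfsg.Agent.Lib.Helper13.McL

open Module

variable {F : Type*} [Field F] {V : Type*} [AddCommGroup V] [Module F V] [FiniteDimensional F V]
variable {S : Set (V × Dual F V)}

/-- the second radical condition is automatic when the centres span -/
theorem NP2_of_full (h : TD S) (hNP : NP S) (hspan : Submodule.span F (Cen S) = ⊤) : NP2 S := by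
  intro x φ w ω hx hxw hw hω
  have hω0 : ω = 0 := by
    ext v
    have hv : v ∈ Submodule.span F (Cen S) := by rw [hspan]; trivial
    have := kills_span (χ := ω) (s := Cen S)
      (fun z hz => by obtain ⟨ψ, hψ⟩ := hz; exact hω (z, ψ) hψ) hv
    simpa using this
  refine ⟨?_, hω0⟩
  by_contra hw0
  subst hω0
  rw [add_zero] at hxw
  have : (x + w - x, φ) ∈ S := h.sub_left hxw hx (by simpa using hw0)
  rw [add_sub_cancel_left] at this
  exact cen_not_mem_FS hNP ⟨φ, this⟩ hw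

theorem cen_of_ne (h : TD S) (hNP : NP S) (hC : Conn S) (h2 : (2 : F) ≠ 0)
    (hspan : Submodule.span F (Cen S) = ⊤) {x : V} (hx : x ≠ 0) : x ∈ Cen S :=
  cen_of_mem_span h hNP (NP2_of_full h hNP hspan) hC h2 (by rw [hspan]; trivial) hx

/-- linear type -/
theorem sl_type (h : TD S) (hNP : NP S) (hC : Conn S) (h2 : (2 : F) ≠ 0)
    (hspan : Submodule.span F (Cen S) = ⊤)
    (hnot : ¬ ∀ x θ θ', (x, θ) ∈ S → (x, θ') ∈ S → ∃ c : F, θ' = c • θ) :
    ∀ x φ, x ≠ 0 → φ ≠ 0 → φ x = 0 → (x, φ) ∈ S := by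
  have hcen : ∀ x : V, x ≠ 0 → x ∈ Cen S := fun x hx => cen_of_ne h hNP hC h2 hspan hx
  obtain ⟨a, ha⟩ := uniform h hNP hC
  have ha1 : a ≠ 1 := by
    intro ha1
    apply hnot
    intro x θ θ' hθ hθ'
    exact ax_one_dim (by rw [ha x ⟨θ, hθ⟩, ha1]) hθ (h.ne_right hθ) (mem_ax_of_mem hθ')
  intro x φ hx hφ hφx
  have hxc := hcen x hx
  obtain ⟨y, hy, hyx⟩ := exists_nbr h hNP hC hxc
  have hxy : x ∉ NS S y := symm h hNP hC hxc hy hyx
  obtain ⟨φ₁, hφ₁, hφ₁y⟩ := not_mem_NS_iff.1 hyx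
  obtain ⟨ψ₁, hψ₁, hψ₁x⟩ := not_mem_NS_iff.1 hxy
  obtain ⟨χ, hχ, hχy⟩ : ∃ χ, (x, χ) ∈ S ∧ χ y = 0 := by
    by_contra hcon
    push Not at hcon
    apply ha1
    rw [← ha x hxc]
    refine finrank_ax_eq_one h hφ₁ ?_
    intro θ' hθ'
    obtain ⟨h1, h2'⟩ := ax_decomp h (mem_ax_of_mem hφ₁) hφ₁y (mem_ax_of_mem hθ')
    rcases (mem_ax h).1 h1 with h3 | h3
    · exact ⟨θ' y / φ₁ y, sub_eq_zero.1 h3⟩
    · exact absurd h2' (hcon _ h3)
  have hχx : χ x = 0 := h.orth hχ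
  have hχy' : (y, χ) ∈ S := by
    have := inter_ker_le h hxy (mem_ax_of_mem hχ) hχy
    exact ((mem_ax h).1 this).resolve_left (h.ne_right hχ)
  obtain ⟨z, hz⟩ : ∃ z, χ z ≠ 0 := by
    by_contra hcon
    push Not at hcon
    exact h.ne_right hχ (LinearMap.ext hcon)
  have hzc : z ∈ Cen S := hcen z (by rintro rfl; simp at hz)
  have hzx : z ∉ NS S x := fun hc => hz (hc χ hχ)
  have hzy : z ∉ NS S y := fun hc => hz (hc χ hχy')
  have hxz : x ∉ NS S z := symm h hNP hC hxc hzc hzx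
  have hyz : y ∉ NS S z := symm h hNP hC hy hzc hzy
  have hK : ∀ k, k ∈ NS S x → k ∈ NS S y → k = 0 := by
    intro k hkx hky
    by_contra hk0
    obtain ⟨ζ₀, hζ₀⟩ : ∃ ζ₀ : Dual F V, ζ₀ = ψ₁ - (ψ₁ z / χ z) • χ := ⟨_, rfl⟩
    have hζ₀y : ζ₀ ∈ ax S y := by
      rw [hζ₀]
      exact (ax S y).sub_mem (mem_ax_of_mem hψ₁) ((ax S y).smul_mem _ (mem_ax_of_mem hχy'))
    have hζ₀z0 : ζ₀ z = 0 := by
      rw [hζ₀]
      simp only [LinearMap.sub_apply, LinearMap.smul_apply, smul_eq_mul]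
      field_simp
      ring
    have hζ₀z : ζ₀ ∈ ax S z := inter_ker_le h hyz hζ₀y hζ₀z0
    have hζ₀x : ζ₀ x ≠ 0 := by
      rw [hζ₀]
      simp only [LinearMap.sub_apply, LinearMap.smul_apply, smul_eq_mul, hχx, mul_zero, sub_zero]
      exact hψ₁x
    have hζ₀k : ζ₀ k = 0 := by
      rcases (mem_ax h).1 hζ₀y with h0 | h0
      · rw [h0]; simp
      · exact hky _ h0
    have hkz : k ∈ NS S z := by
      intro ζ hζ
      obtain ⟨h1, h2'⟩ := ax_decomp h hζ₀z hζ₀x (mem_ax_of_mem hζ)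
      have h3 := inter_ker_le h hzx h1 h2'
      have h4 : (ζ - (ζ x / ζ₀ x) • ζ₀) k = 0 := by
        rcases (mem_ax h).1 h3 with h0 | h0
        · rw [h0]; simp
        · exact hkx _ h0
      simp only [LinearMap.sub_apply, LinearMap.smul_apply, hζ₀k, smul_eq_mul, mul_zero,
        sub_zero] at h4
      exact h4
    have hxk0 : x + k ≠ 0 := by
      intro h0
      have : x = -k := eq_neg_of_add_eq_zero_left h0
      apply hxy
      rw [this]
      exact (NS S y).neg_mem hky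
    have hxkc : x + k ∈ Cen S := hcen _ hxk0
    have hxky : x + k ∉ NS S y := add_not_mem_NS_left hxy hky
    have hyxk : y ∉ NS S (x + k) := symm h hNP hC hy hxkc hxky
    have hxkz : x + k ∉ NS S z := add_not_mem_NS_left hxz hkz
    have hzxk : z ∉ NS S (x + k) := symm h hNP hC hzc hxkc hxkz
    have hφ₁k : φ₁ k = 0 := hkx _ hφ₁
    have hχk : χ k = 0 := hkx χ hχ
    have key : φ₁ ∈ ax S (x + k) := by
      obtain ⟨h1, h2'⟩ := ax_decomp h (mem_ax_of_mem hχ) hz (mem_ax_of_mem hφ₁)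
      have h3 : φ₁ - (φ₁ z / χ z) • χ ∈ ax S z := inter_ker_le h hxz h1 h2'
      have h4 : (φ₁ - (φ₁ z / χ z) • χ) (x + k) = 0 := by
        simp [h.orth hφ₁, hφ₁k, hχx, hχk]
      have h5 : φ₁ - (φ₁ z / χ z) • χ ∈ ax S (x + k) := inter_ker_le h hzxk h3 h4
      have h6 : χ ∈ ax S (x + k) := by
        refine inter_ker_le h hyxk (mem_ax_of_mem hχy') ?_
        simp [hχx, hχk]
      have : φ₁ = (φ₁ - (φ₁ z / χ z) • χ) + (φ₁ z / χ z) • χ := by abel
      rw [this]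
      exact (ax S (x + k)).add_mem h5 ((ax S (x + k)).smul_mem _ h6)
    have hxkφ : (x + k, φ₁) ∈ S := ((mem_ax h).1 key).resolve_left (h.ne_right hφ₁)
    have hkφ : (k, φ₁) ∈ S := by
      have := h.sub_left hxkφ hφ₁ (by simpa using hk0)
      rwa [add_sub_cancel_left] at this
    have hkc : k ∈ Cen S := ⟨φ₁, hkφ⟩
    have : y ∉ NS S k := fun hc => hφ₁y (hc φ₁ hkφ)
    exact symm h hNP hC hkc hy this hky
  have hsup : ax S x ⊔ ax S y = ⊤ := by
    have h1 : (ax S x ⊔ ax S y).dualCoannihilator = ⊥ := by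
      rw [eq_bot_iff]
      intro k hk
      rw [Submodule.mem_dualCoannihilator] at hk
      have hkx : k ∈ NS S x := fun θ hθ => hk θ (Submodule.mem_sup_left (mem_ax_of_mem hθ))
      have hky : k ∈ NS S y := fun θ hθ => hk θ (Submodule.mem_sup_right (mem_ax_of_mem hθ))
      simpa using hK k hkx hky
    have h2' := Subspace.dualCoannihilator_dualAnnihilator_eq (W := ax S x ⊔ ax S y)
    rw [h1, Submodule.dualAnnihilator_bot] at h2'
    exact h2'.symm
  have hφmem : φ ∈ ax S x ⊔ ax S y := by rw [hsup]; trivial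
  obtain ⟨φa, hφa, ψa, hψa, hsum⟩ := Submodule.mem_sup.1 hφmem
  have hψax : ψa x = 0 := by
    have : ψa = φ - φa := by rw [← hsum]; abel
    rw [this, LinearMap.sub_apply, hφx, apply_self_of_mem_ax h hφa, sub_zero]
  have hψa' : ψa ∈ ax S x := inter_ker_le h hyx hψa hψax
  have : φ ∈ ax S x := by rw [← hsum]; exact (ax S x).add_mem hφa hψa'
  exact ((mem_ax h).1 this).resolve_left hφ

/-- symplectic type -/
theorem sp_type (h : TD S) (hNP : NP S) (hC : Conn S) (h2 : (2 : F) ≠ 0)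
    (hspan : Submodule.span F (Cen S) = ⊤)
    (hone : ∀ x θ θ', (x, θ) ∈ S → (x, θ') ∈ S → ∃ c : F, θ' = c • θ) (x₀ : V) (hx₀ : x₀ ≠ 0) :
    ∃ B : LinearMap.BilinForm F V, B.IsAlt ∧ B.Nondegenerate ∧
      ∀ x φ, (x, φ) ∈ S ↔ x ≠ 0 ∧ ∃ c : F, c ≠ 0 ∧ φ = c • B x := by
  have hcen : ∀ x : V, x ≠ 0 → x ∈ Cen S := fun x hx => cen_of_ne h hNP hC h2 hspan hx
  obtain ⟨φ₀, hφ₀⟩ := hcen x₀ hx₀
  have hφ₀x : φ₀ x₀ = 0 := h.orth hφ₀
  have hNS : ∀ u θ v, (u, θ) ∈ S → θ v = 0 → v ∈ NS S u := by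
    intro u θ v hθ hv θ' hθ'
    obtain ⟨c, hc⟩ := hone u θ θ' hθ hθ'
    rw [hc]
    simp [hv]
  have hsym : ∀ u θ v θ', (u, θ) ∈ S → (v, θ') ∈ S → θ v = 0 → θ' u = 0 := by
    intro u θ v θ' hθ hθ' hv
    exact symm' h hNP hC ⟨θ, hθ⟩ ⟨θ', hθ'⟩ (hNS u θ v hθ hv) θ' hθ'
  have hβex : ∀ v, ∃ θ : Dual F V, φ₀ v ≠ 0 → (v, θ) ∈ S ∧ θ x₀ = -φ₀ v := by
    intro v
    by_cases hv : φ₀ v = 0
    · exact ⟨0, fun hh => absurd hv hh⟩
    · have hv0 : v ≠ 0 := by rintro rfl; simp at hv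
      obtain ⟨θ, hθ⟩ := hcen v hv0
      have hθx : θ x₀ ≠ 0 := fun hh => hv (hsym v θ x₀ φ₀ hθ hφ₀ hh)
      refine ⟨(-φ₀ v / θ x₀) • θ,
        fun _ => ⟨h.smul_right _ (div_ne_zero (neg_ne_zero.2 hv) hθx) hθ, ?_⟩⟩
      simp only [LinearMap.smul_apply, smul_eq_mul]
      field_simp
  choose β hβ using hβex
  have hβS : ∀ v, φ₀ v ≠ 0 → (v, β v) ∈ S := fun v hv => (hβ v hv).1
  have hβx : ∀ v, φ₀ v ≠ 0 → β v x₀ = -φ₀ v := fun v hv => (hβ v hv).2
  have huniq : ∀ v θ, φ₀ v ≠ 0 → (v, θ) ∈ S → θ x₀ = -φ₀ v → θ = β v := by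
    intro v θ hv hθ hθx
    obtain ⟨c, hc⟩ := hone v (β v) θ (hβS v hv) hθ
    have hc1 : c = 1 := by
      have h1 := congrArg (fun f : Dual F V => f x₀) hc
      simp only [LinearMap.smul_apply, smul_eq_mul] at h1
      rw [hθx, hβx v hv] at h1
      have hne : -φ₀ v ≠ 0 := neg_ne_zero.2 hv
      have h3 : (1 : F) * -φ₀ v = c * -φ₀ v := by rw [one_mul]; exact h1
      exact (mul_right_cancel₀ hne h3).symm
    rw [hc, hc1, one_smul]
  have hshift : ∀ (v : V) (b : F), φ₀ v ≠ 0 → β (v + b • x₀) = β v + b • φ₀ := by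
    intro v b hv
    have hv' : φ₀ (v + b • x₀) ≠ 0 := by simpa [hφ₀x] using hv
    symm
    refine huniq _ _ hv' ?_ ?_
    · have := h.conj (b / φ₀ v) hφ₀ (hβS v hv)
      have e1 : b / φ₀ v * φ₀ v = b := by field_simp
      have e2 : b / φ₀ v * β v x₀ = -b := by rw [hβx v hv]; field_simp
      rw [e1, e2] at this
      have e3 : β v - (-b) • φ₀ = β v + b • φ₀ := by module
      rwa [e3] at this
    · simp [hβx v hv, hφ₀x]
  have hanti : ∀ v w, φ₀ v ≠ 0 → φ₀ w ≠ 0 → β w v = -β v w := by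
    intro v w hv hw
    obtain ⟨b, hb⟩ : ∃ b : F, b = -β v w / φ₀ w := ⟨_, rfl⟩
    have hv' : φ₀ (v + b • x₀) ≠ 0 := by simpa [hφ₀x] using hv
    have h1 : β (v + b • x₀) w = 0 := by
      rw [hshift v b hv, hb]
      simp only [LinearMap.add_apply, LinearMap.smul_apply, smul_eq_mul]
      field_simp
      ring
    have h2' : β w (v + b • x₀) = 0 := hsym _ _ _ _ (hβS _ hv') (hβS w hw) h1
    rw [map_add, map_smul, hβx w hw, hb, smul_eq_mul] at h2'
    have : -β v w / φ₀ w * -φ₀ w = β v w := by field_simp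
    rw [this] at h2'
    exact eq_neg_of_add_eq_zero_left h2'
  obtain ⟨v₀, hv₀⟩ : ∃ v₀, φ₀ v₀ ≠ 0 := by
    by_contra hcon
    push Not at hcon
    exact h.ne_right hφ₀ (LinearMap.ext hcon)
  have hext : ∀ f g : Dual F V, (∀ u, φ₀ u ≠ 0 → f u = g u) → f = g := by
    intro f g hfg
    ext u
    by_cases hu : φ₀ u = 0
    · have h1 := hfg (u + v₀) (by simpa [hu] using hv₀)
      have h2' := hfg v₀ hv₀
      rw [map_add, map_add, h2'] at h1
      exact add_right_cancel h1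
    · exact hfg u hu
  classical
  obtain ⟨b⟩ : Nonempty (Basis (Basis.ofVectorSpaceIndex F V) F V) := ⟨Basis.ofVectorSpace F V⟩
  obtain ⟨L, hL⟩ : ∃ L : V →ₗ[F] Dual F V, ∀ i, L (b i) =
      if φ₀ (b i) ≠ 0 then β (b i) else β (b i + v₀) - β v₀ :=
    ⟨b.constr F (fun i => if φ₀ (b i) ≠ 0 then β (b i) else β (b i + v₀) - β v₀),
      fun i => b.constr_basis F _ i⟩
  have hLA : ∀ u, φ₀ u ≠ 0 → ∀ v, L v u = -β u v := by
    intro u hu v
    have : L.flip u = -β u := by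
      refine b.ext fun i => ?_
      rw [LinearMap.flip_apply, hL]
      by_cases hi : φ₀ (b i) ≠ 0
      · rw [if_pos hi, LinearMap.neg_apply, hanti u (b i) hu hi]
      · rw [if_neg hi]
        push Not at hi
        have hi' : φ₀ (b i + v₀) ≠ 0 := by simpa [hi] using hv₀
        rw [LinearMap.sub_apply, hanti u (b i + v₀) hu hi', hanti u v₀ hu hv₀, map_add,
          LinearMap.neg_apply]
        ring
    have h3 := congrArg (fun f : Dual F V => f v) this
    simpa using h3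
  have hLB : ∀ v, φ₀ v ≠ 0 → L v = β v := by
    intro v hv
    refine hext _ _ fun u hu => ?_
    rw [hLA u hu v, hanti v u hv hu, neg_neg]
  have hLS : ∀ v, v ≠ 0 → (v, L v) ∈ S := by
    intro v hv0
    by_cases hv : φ₀ v ≠ 0
    · rw [hLB v hv]; exact hβS v hv
    push Not at hv
    obtain ⟨θ, hθ⟩ := hcen v hv0
    obtain ⟨u, hu, hθu⟩ : ∃ u, φ₀ u ≠ 0 ∧ θ u ≠ 0 := by
      obtain ⟨u₂, hu₂⟩ : ∃ u₂, θ u₂ ≠ 0 := by
        by_contra hcon
        push Not at hcon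
        exact h.ne_right hθ (LinearMap.ext hcon)
      by_cases c1 : θ v₀ ≠ 0
      · exact ⟨v₀, hv₀, c1⟩
      push Not at c1
      by_cases c2 : φ₀ u₂ ≠ 0
      · exact ⟨u₂, c2, hu₂⟩
      push Not at c2
      exact ⟨v₀ + u₂, by simpa [c2] using hv₀, by simpa [c1] using hu₂⟩
    have hβuv : β u v ≠ 0 := fun hh => hθu (hsym u (β u) v θ (hβS u hu) hθ hh)
    have hvu : φ₀ (v + u) ≠ 0 := by simpa [hv] using hu
    have s := h.conj (-(β u v)⁻¹) (hβS u hu) (hβS (v + u) hvu)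
    have e1 : -(β u v)⁻¹ * β u (v + u) = -1 := by
      rw [map_add, h.orth (hβS u hu), add_zero]
      field_simp
    have e2 : -(β u v)⁻¹ * β (v + u) u = 1 := by
      rw [hanti u (v + u) hu hvu, map_add, h.orth (hβS u hu), add_zero]
      field_simp
    rw [e1, e2] at s
    have e3 : v + u + (-1 : F) • u = v := by module
    have e4 : β (v + u) - (1 : F) • β u = L v := by
      rw [one_smul, ← hLB _ hvu, ← hLB u hu, map_add, add_sub_cancel_right]
    rw [e3, e4] at s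
    exact s
  have halt : ∀ v, L v v = 0 := by
    intro v
    by_cases hv : v = 0
    · subst hv; simp
    · exact h.orth (hLS v hv)
  have hanti' : ∀ v u, L v u = -L u v := by
    intro v u
    have := halt (v + u)
    simp only [map_add, LinearMap.add_apply, halt v, halt u] at this
    linear_combination this
  have hleft : ∀ v, (∀ u, L v u = 0) → v = 0 := by
    intro v hv
    by_contra hv0
    exact h.ne_right (hLS v hv0) (LinearMap.ext hv)
  refine ⟨L, halt, ⟨hleft, ?_⟩, ?_⟩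
  · intro u hu
    exact hleft u (fun v => by rw [hanti' u v, hu v, neg_zero])
  · intro x φ
    constructor
    · intro hx
      have hx0 := h.ne_left hx
      obtain ⟨c, hc⟩ := hone x (L x) φ (hLS x hx0) hx
      refine ⟨hx0, c, ?_, hc⟩
      rintro rfl
      exact h.ne_right hx (by rw [hc, zero_smul])
    · rintro ⟨hx0, c, hc, rfl⟩
      exact h.smul_right c hc (hLS x hx0)

/-- a connected transvection datum whose centres span is of linear or symplectic type -/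
theorem full_dichotomy (h : TD S) (hNP : NP S) (hC : Conn S) (h2 : (2 : F) ≠ 0)
    (hspan : Submodule.span F (Cen S) = ⊤) :
    (∀ x φ, x ≠ 0 → φ ≠ 0 → φ x = 0 → (x, φ) ∈ S) ∨
    ∃ B : LinearMap.BilinForm F V, B.IsAlt ∧ B.Nondegenerate ∧
      ∀ x φ, (x, φ) ∈ S ↔ x ≠ 0 ∧ ∃ c : F, c ≠ 0 ∧ φ = c • B x := by
  by_cases hone : ∀ x θ θ', (x, θ) ∈ S → (x, θ') ∈ S → ∃ c : F, θ' = c • θ
  · by_cases hV : ∃ x₀ : V, x₀ ≠ 0
    · obtain ⟨x₀, hx₀⟩ := hV
      exact Or.inr (sp_type h hNP hC h2 hspan hone x₀ hx₀)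
    · push Not at hV
      exact Or.inl (fun x φ hx => absurd (hV x) hx)
  · exact Or.inl (sl_type h hNP hC h2 hspan hone)

end Cfsg.Agent.Lib.Helper13.McL
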