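import Mathlib
import Cfsg.Agent.Lib.Helper13.McL2

/-!
# Transvection data: duality, restriction to the span of the centres, components
-/

set_option linter.unusedSectionVars false

namespace Cfsg.Agent.Lib.Helper13.McL

open Module

variable {F : Type*} [Field F] {V : Type*} [AddCommGroup V] [Module F V] [FiniteDimensional F V]
variable {S : Set (V × Dual F V)}

/-- the dual datum -/
def dualS (S : Set (V × Dual F V)) : Set (Dual F V × Dual F (Dual F V)) :=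
  {q | ∃ x, (x, q.1) ∈ S ∧ q.2 = Dual.eval F V x}

/-- axes -/
def Axs (S : Set (V × Dual F V)) : Set (Dual F V) := {φ | ∃ x, (x, φ) ∈ S}

theorem eval_inj {x y : V} (hxy : Dual.eval F V x = Dual.eval F V y) : x = y :=
  Module.eval_apply_injective F hxy

theorem TD_dualS (h : TD S) : TD (dualS S) where
  ne_left := by
    rintro φ E ⟨x, hx, -⟩
    exact h.ne_right hx
  ne_right := by
    rintro φ E ⟨x, hx, hE⟩ h0
    have : Dual.eval F V x = Dual.eval F V 0 := by rw [← hE, h0, map_zero]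
    exact h.ne_left hx (eval_inj this)
  orth := by
    rintro φ E ⟨x, hx, hE⟩
    have hE' : E = Dual.eval F V x := hE
    rw [hE', Dual.eval_apply]
    exact h.orth hx
  smul_left := by
    rintro φ E a ha ⟨x, hx, hE⟩
    exact ⟨x, h.smul_right a ha hx, hE⟩
  smul_right := by
    rintro φ E a ha ⟨x, hx, hE⟩
    have hE' : E = Dual.eval F V x := hE
    exact ⟨a • x, h.smul_left a ha hx, by rw [map_smul, hE']⟩
  conj := by
    rintro φ E ψ E' a ⟨x, hx, hE⟩ ⟨y, hy, hE'⟩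
    have hE1 : E = Dual.eval F V x := hE
    have hE2 : E' = Dual.eval F V y := hE'
    have := h.conj (-a) hx hy
    refine ⟨y + (-a * φ y) • x, ?_, ?_⟩
    · have e : ψ - (-a * ψ x) • φ = ψ + (a * E ψ) • φ := by
        rw [hE1, Dual.eval_apply]
        module
      rw [e] at this
      exact this
    · show E' - (a * E' φ) • E = Dual.eval F V (y + (-a * φ y) • x)
      rw [map_add, map_smul, hE1, hE2, Dual.eval_apply]
      module
  comm := by
    rintro φ E ψ E' ⟨x, hx, hE⟩ ⟨y, hy, hE'⟩ h1 h2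
    have hE1 : E = Dual.eval F V x := hE
    have hE2 : E' = Dual.eval F V y := hE'
    rw [hE1, Dual.eval_apply] at h1
    rw [hE2, Dual.eval_apply] at h2
    exact ⟨y, h.comm hy hx h1 h2, hE'⟩
  add_left := by
    rintro φ ψ E ⟨x, hx, hE⟩ ⟨y, hy, hE'⟩ hne
    have hE1 : E = Dual.eval F V x := hE
    have hE2 : E = Dual.eval F V y := hE'
    have hxy : x = y := eval_inj (hE1.symm.trans hE2)
    subst hxy
    exact ⟨x, h.add_right hx hy hne, hE⟩
  add_right := by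
    rintro φ E E' ⟨x, hx, hE⟩ ⟨y, hy, hE'⟩ hne
    have hE1 : E = Dual.eval F V x := hE
    have hE2 : E' = Dual.eval F V y := hE'
    refine ⟨x + y, h.add_left hx hy ?_, by rw [map_add, hE1, hE2]⟩
    rintro h0
    apply hne
    rw [hE1, hE2, ← map_add, h0, map_zero]

theorem NP_dualS (hNP : NP S) : NP (dualS S) := by
  intro M' hinv q hq hq1 hq2
  obtain ⟨φ, E⟩ := q
  obtain ⟨x, hx, hE⟩ := hq
  have hE1 : E = Dual.eval F V x := hE
  refine hNP M'.dualCoannihilator ?_ (x, φ) hx ?_ ?_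
  · rintro ⟨y, ψ⟩ hy
    rcases hinv (ψ, Dual.eval F V y) ⟨y, hy, rfl⟩ with h1 | h1
    · right
      intro m hm
      exact (Submodule.mem_dualCoannihilator _).1 hm ψ h1
    · left
      rw [Submodule.mem_dualCoannihilator]
      intro μ hμ
      have := h1 μ hμ
      rwa [Dual.eval_apply] at this
  · rw [Submodule.mem_dualCoannihilator]
    intro μ hμ
    have := hq2 μ hμ
    have e : E μ = 0 := this
    rwa [hE1, Dual.eval_apply] at e
  · intro m hm
    exact (Submodule.mem_dualCoannihilator _).1 hm φ hq1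

theorem NP2_dualS (hNP2 : NP2 S) : NP2 (dualS S) := by
  intro φ E ω Ω hq hq' h1 h2
  obtain ⟨x, hx, hE⟩ := hq
  obtain ⟨x', hx', hE'⟩ := hq'
  have hE1 : E = Dual.eval F V x := hE
  have hE2 : E + Ω = Dual.eval F V x' := hE'
  have hΩ : Ω = Dual.eval F V (x' - x) := by
    rw [map_sub, ← hE2, ← hE1]
    abel
  have hx'' : (x + (x' - x), φ + ω) ∈ S := by
    have e : x + (x' - x) = x' := by abel
    rw [e]
    exact hx'
  have := hNP2 x φ (x' - x) ω hx hx'' ?_ ?_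
  · refine ⟨this.2, ?_⟩
    rw [hΩ, this.1, map_zero]
  · rintro ⟨y, ψ⟩ hy
    have := h2 (ψ, Dual.eval F V y) ⟨y, hy, rfl⟩
    have e : Ω ψ = 0 := this
    rw [hΩ, Dual.eval_apply] at e
    exact e
  · rintro ⟨y, ψ⟩ hy
    have := h1 (ψ, Dual.eval F V y) ⟨y, hy, rfl⟩
    have e : (Dual.eval F V y) ω = 0 := this
    rwa [Dual.eval_apply] at e

theorem Conn_dualS (hC : Conn S) : Conn (dualS S) := by
  intro S₁' hsub hne hne'
  obtain ⟨⟨φ₁, E₁⟩, hq₁⟩ := hne
  obtain ⟨⟨φ₂, E₂⟩, hq₂, hq₂'⟩ := hne'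
  obtain ⟨x₁, hx₁, hE₁⟩ := hsub hq₁
  obtain ⟨x₂, hx₂, hE₂⟩ := hq₂
  have hE1 : E₁ = Dual.eval F V x₁ := hE₁
  have hE2 : E₂ = Dual.eval F V x₂ := hE₂
  subst hE1 hE2
  obtain ⟨p, hp, q, hq, hadj⟩ := hC {p | p ∈ S ∧ (p.2, Dual.eval F V p.1) ∈ S₁'}
    (fun p hp => hp.1) ⟨(x₁, φ₁), hx₁, hq₁⟩ ⟨(x₂, φ₂), hx₂, fun hh => hq₂' hh.2⟩
  refine ⟨(p.2, Dual.eval F V p.1), hp.2, (q.2, Dual.eval F V q.1),
    ⟨⟨q.1, hq.1, rfl⟩, fun hh => hq.2 ⟨hq.1, hh⟩⟩, ?_⟩
  rcases hadj with h1 | h1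
  · right
    show (Dual.eval F V q.1) p.2 ≠ 0
    rwa [Dual.eval_apply]
  · left
    show (Dual.eval F V p.1) q.2 ≠ 0
    rwa [Dual.eval_apply]

theorem Cen_dualS : Cen (dualS S) = Axs S := by
  ext φ
  constructor
  · rintro ⟨E, x, hx, -⟩
    exact ⟨x, hx⟩
  · rintro ⟨x, hx⟩
    exact ⟨_, x, hx, rfl⟩

/-- every nonzero vector in the span of the axes is an axis -/
theorem axis_of_mem_span (h : TD S) (hNP : NP S) (hNP2 : NP2 S) (hC : Conn S) (h2 : (2 : F) ≠ 0)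
    {φ : Dual F V} (hφ : φ ∈ Submodule.span F (Axs S)) (hφ0 : φ ≠ 0) : φ ∈ Axs S := by
  rw [← Cen_dualS] at hφ ⊢
  exact cen_of_mem_span (TD_dualS h) (NP_dualS hNP) (NP2_dualS hNP2) (Conn_dualS hC) h2 hφ hφ0

theorem axs_inf_annih (h : TD S) (hNP : NP S) (hNP2 : NP2 S) (hC : Conn S) (h2 : (2 : F) ≠ 0)
    {φ : Dual F V} (hφ : φ ∈ Submodule.span F (Axs S)) (hφ' : ∀ x ∈ Cen S, φ x = 0) : φ = 0 := by
  by_contra hφ0
  have h1 := axis_of_mem_span h hNP hNP2 hC h2 hφ hφ0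
  rw [← Cen_dualS] at h1
  refine cen_not_mem_FS (NP_dualS hNP) h1 ?_
  rintro ⟨ψ, E⟩ ⟨y, hy, hE⟩
  have hE1 : E = Dual.eval F V y := hE
  show E φ = 0
  rw [hE1, Dual.eval_apply]
  exact hφ' y ⟨ψ, hy⟩

theorem FS_eq (S : Set (V × Dual F V)) : FS S = (Submodule.span F (Axs S)).dualCoannihilator := by
  ext v
  rw [Submodule.mem_dualCoannihilator, mem_FS]
  constructor
  · intro hv φ hφ
    have : Submodule.span F (Axs S) ≤ LinearMap.ker (Dual.eval F V v) := by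
      refine Submodule.span_le.2 ?_
      rintro ψ ⟨x, hx⟩
      show (Dual.eval F V v) ψ = 0
      rw [Dual.eval_apply]
      exact hv (x, ψ) hx
    have := this hφ
    rwa [LinearMap.mem_ker, Dual.eval_apply] at this
  · intro hv p hp
    exact hv p.2 (Submodule.subset_span ⟨p.1, hp⟩)

theorem span_inf_FS (h : TD S) (hNP : NP S) (hNP2 : NP2 S) (hC : Conn S) (h2 : (2 : F) ≠ 0) :
    Submodule.span F (Cen S) ⊓ FS S = ⊥ := by
  rw [eq_bot_iff]
  rintro v ⟨hv1, hv2⟩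
  by_contra hv0
  exact cen_not_mem_FS hNP (cen_of_mem_span h hNP hNP2 hC h2 hv1 hv0) hv2

theorem isCompl_span_FS (h : TD S) (hNP : NP S) (hNP2 : NP2 S) (hC : Conn S) (h2 : (2 : F) ≠ 0) :
    IsCompl (Submodule.span F (Cen S)) (FS S) := by
  have hinf := span_inf_FS h hNP hNP2 hC h2
  have hinf' : Submodule.span F (Axs S) ⊓ (Submodule.span F (Cen S)).dualAnnihilator = ⊥ := by
    rw [eq_bot_iff]
    rintro φ ⟨hφ1, hφ2⟩
    rw [SetLike.mem_coe, Submodule.mem_dualAnnihilator] at hφ2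
    exact axs_inf_annih h hNP hNP2 hC h2 hφ1 (fun x hx => hφ2 x (Submodule.subset_span hx))
  have e1 := Subspace.finrank_add_finrank_dualCoannihilator_eq (Submodule.span F (Axs S))
  rw [← FS_eq] at e1
  have e2 := Subspace.finrank_add_finrank_dualAnnihilator_eq (Submodule.span F (Cen S))
  have e3 := Submodule.finrank_sup_add_finrank_inf_eq (Submodule.span F (Axs S))
    (Submodule.span F (Cen S)).dualAnnihilator
  rw [hinf', finrank_bot, add_zero] at e3
  have e4 : finrank F ↥(Submodule.span F (Axs S) ⊔ (Submodule.span F (Cen S)).dualAnnihilator)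
      ≤ finrank F V := by
    rw [← Subspace.dual_finrank_eq]
    exact Submodule.finrank_le _
  have e5 := Submodule.finrank_sup_add_finrank_inf_eq (Submodule.span F (Cen S)) (FS S)
  rw [hinf, finrank_bot, add_zero] at e5
  have hsup : Submodule.span F (Cen S) ⊔ FS S = ⊤ := by
    apply Submodule.eq_top_of_finrank_eq
    have := Submodule.finrank_le (Submodule.span F (Cen S) ⊔ FS S)
    omega
  exact ⟨disjoint_iff.2 hinf, codisjoint_iff.2 hsup⟩

/-- the datum restricted to a subspace containing the centres -/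
def resS (S : Set (V × Dual F V)) (W : Submodule F V) : Set (W × Dual F W) :=
  {q | ∃ φ : Dual F V, ((q.1 : V), φ) ∈ S ∧ φ.domRestrict W = q.2}

theorem TD_resS (h : TD S) (W : Submodule F V)
    (hinj : ∀ φ ∈ Submodule.span F (Axs S), φ.domRestrict W = 0 → φ = 0) : TD (resS S W) where
  ne_left := by
    rintro x φ' ⟨φ, hφ, -⟩ h0
    exact h.ne_left hφ (by rw [h0]; rfl)
  ne_right := by
    rintro x φ' ⟨φ, hφ, hφ'⟩ h0
    have e : φ.domRestrict W = φ' := hφ'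
    exact h.ne_right hφ (hinj φ (Submodule.subset_span ⟨_, hφ⟩) (e.trans h0))
  orth := by
    rintro x φ' ⟨φ, hφ, hφ'⟩
    have e : φ.domRestrict W = φ' := hφ'
    rw [← e, LinearMap.domRestrict_apply]
    exact h.orth hφ
  smul_left := by
    rintro x φ' a ha ⟨φ, hφ, hφ'⟩
    exact ⟨φ, h.smul_left a ha hφ, hφ'⟩
  smul_right := by
    rintro x φ' a ha ⟨φ, hφ, hφ'⟩
    have e : φ.domRestrict W = φ' := hφ'
    refine ⟨a • φ, h.smul_right a ha hφ, ?_⟩
    show (a • φ).domRestrict W = a • φ'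
    rw [← e]
    rfl
  conj := by
    rintro x φ' y ψ' a ⟨φ, hφ, hφ'⟩ ⟨ψ, hψ, hψ'⟩
    have e1 : φ.domRestrict W = φ' := hφ'
    have e2 : ψ.domRestrict W = ψ' := hψ'
    refine ⟨ψ - (a * ψ x) • φ, ?_, ?_⟩
    · have := h.conj a hφ hψ
      have e3 : φ' y = φ y := by rw [← e1]; rfl
      show (((y + (a * φ' y) • x : W) : V), ψ - (a * ψ x) • φ) ∈ S
      rw [e3]
      exact this
    · show (ψ - (a * ψ x) • φ).domRestrict W = ψ' - (a * ψ' x) • φ'
      rw [← e1, ← e2]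
      rfl
  comm := by
    rintro x φ' y ψ' ⟨φ, hφ, hφ'⟩ ⟨ψ, hψ, hψ'⟩ h1 h2
    have e1 : φ.domRestrict W = φ' := hφ'
    have e2 : ψ.domRestrict W = ψ' := hψ'
    rw [← e1, LinearMap.domRestrict_apply] at h1
    rw [← e2, LinearMap.domRestrict_apply] at h2
    exact ⟨ψ, h.comm hφ hψ h1 h2, hψ'⟩
  add_left := by
    rintro x y φ' ⟨φ, hφ, hφ'⟩ ⟨ψ, hψ, hψ'⟩ hne
    have e1 : φ.domRestrict W = φ' := hφ'
    have e2 : ψ.domRestrict W = φ' := hψ'
    have hψφ : ψ = φ := by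
      have := hinj (ψ - φ) (Submodule.sub_mem _ (Submodule.subset_span ⟨_, hψ⟩)
        (Submodule.subset_span ⟨_, hφ⟩)) (by
          have e3 : (ψ - φ).domRestrict W = ψ.domRestrict W - φ.domRestrict W := rfl
          rw [e3, e1, e2, sub_self])
      exact sub_eq_zero.1 this
    subst hψφ
    refine ⟨ψ, ?_, hψ'⟩
    have := h.add_left hφ hψ (by
      intro h0
      apply hne
      exact Subtype.ext h0)
    exact this
  add_right := by
    rintro x φ' ψ' ⟨φ, hφ, hφ'⟩ ⟨ψ, hψ, hψ'⟩ hne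
    have e1 : φ.domRestrict W = φ' := hφ'
    have e2 : ψ.domRestrict W = ψ' := hψ'
    refine ⟨φ + ψ, h.add_right hφ hψ ?_, ?_⟩
    · intro h0
      apply hne
      rw [← e1, ← e2]
      have e3 : φ.domRestrict W + ψ.domRestrict W = (φ + ψ).domRestrict W := rfl
      rw [e3, h0]
      rfl
    · show (φ + ψ).domRestrict W = φ' + ψ'
      rw [← e1, ← e2]
      rfl

theorem NP_resS (hNP : NP S) (W : Submodule F V) (hW : ∀ x ∈ Cen S, x ∈ W) : NP (resS S W) := by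
  intro M hinv q hq hq1 hq2
  obtain ⟨x, φ'⟩ := q
  obtain ⟨φ, hφ, hφ'⟩ := hq
  have e1 : φ.domRestrict W = φ' := hφ'
  refine hNP (M.map W.subtype) ?_ ((x : V), φ) hφ ⟨x, hq1, rfl⟩ ?_
  · rintro ⟨y, ψ⟩ hy
    have hyW : y ∈ W := hW y ⟨ψ, hy⟩
    rcases hinv (⟨y, hyW⟩, ψ.domRestrict W) ⟨ψ, hy, rfl⟩ with h1 | h1
    · left
      exact ⟨⟨y, hyW⟩, h1, rfl⟩
    · right
      rintro m ⟨m', hm', rfl⟩
      exact h1 m' hm'
  · rintro m ⟨m', hm', rfl⟩
    have := hq2 m' hm'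
    have e : φ' m' = 0 := this
    rw [← e1] at e
    exact e

theorem Conn_resS (hC : Conn S) (W : Submodule F V) (hW : ∀ x ∈ Cen S, x ∈ W) :
    Conn (resS S W) := by
  intro S₁' hsub hne hne'
  obtain ⟨⟨x₁, φ₁'⟩, hq₁⟩ := hne
  obtain ⟨⟨x₂, φ₂'⟩, hq₂, hq₂'⟩ := hne'
  obtain ⟨φ₁, hφ₁, hφ₁'⟩ := hsub hq₁
  obtain ⟨φ₂, hφ₂, hφ₂'⟩ := hq₂
  have e1 : φ₁.domRestrict W = φ₁' := hφ₁'
  have e2 : φ₂.domRestrict W = φ₂' := hφ₂'
  subst e1 e2
  obtain ⟨p, hp, q, hq, hadj⟩ := hC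
    {p | p ∈ S ∧ ∃ hp : p.1 ∈ W, ((⟨p.1, hp⟩ : W), p.2.domRestrict W) ∈ S₁'}
    (fun p hp => hp.1) ⟨((x₁ : V), φ₁), hφ₁, x₁.2, hq₁⟩
    ⟨((x₂ : V), φ₂), hφ₂, fun hh => hq₂' (by obtain ⟨_, _, h3⟩ := hh; exact h3)⟩
  obtain ⟨y, ψ⟩ := p
  obtain ⟨z, χ⟩ := q
  obtain ⟨hyS, hyW, hy1⟩ := hp
  have hzS : (z, χ) ∈ S := hq.1
  have hzW : z ∈ W := hW z ⟨χ, hzS⟩
  refine ⟨_, hy1, (⟨z, hzW⟩, χ.domRestrict W),
    ⟨⟨χ, hzS, rfl⟩, fun hh => hq.2 ⟨hzS, hzW, hh⟩⟩, ?_⟩
  exact hadj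

theorem span_Cen_resS (S : Set (V × Dual F V)) :
    Submodule.span F (Cen (resS S (Submodule.span F (Cen S)))) = ⊤ := by
  apply Submodule.map_injective_of_injective (Submodule.span F (Cen S)).injective_subtype
  rw [Submodule.map_subtype_top, Submodule.map_span]
  congr 1
  ext x
  constructor
  · rintro ⟨x', ⟨φ', φ, hφ, -⟩, rfl⟩
    exact ⟨φ, hφ⟩
  · rintro ⟨φ, hφ⟩
    exact ⟨⟨x, Submodule.subset_span ⟨φ, hφ⟩⟩, ⟨φ.domRestrict _, φ, hφ, rfl⟩, rfl⟩

/-- structure of a connected transvection datum -/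
theorem conn_structure (h : TD S) (hNP : NP S) (hNP2 : NP2 S) (hC : Conn S) (h2 : (2 : F) ≠ 0) :
    IsCompl (Submodule.span F (Cen S)) (FS S) ∧
    ((∀ (x : Submodule.span F (Cen S)) (φ : Dual F (Submodule.span F (Cen S))), x ≠ 0 → φ ≠ 0 →
        φ x = 0 → (x, φ) ∈ resS S (Submodule.span F (Cen S))) ∨
     ∃ B : LinearMap.BilinForm F (Submodule.span F (Cen S)), B.IsAlt ∧ B.Nondegenerate ∧
       ∀ x φ, (x, φ) ∈ resS S (Submodule.span F (Cen S)) ↔
        x ≠ 0 ∧ ∃ c : F, c ≠ 0 ∧ φ = c • B x) := by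
  refine ⟨isCompl_span_FS h hNP hNP2 hC h2, ?_⟩
  have hinj : ∀ φ ∈ Submodule.span F (Axs S),
      φ.domRestrict (Submodule.span F (Cen S)) = 0 → φ = 0 := by
    intro φ hφ h0
    refine axs_inf_annih h hNP hNP2 hC h2 hφ (fun x hx => ?_)
    have := congrArg (fun f : Dual F (Submodule.span F (Cen S)) =>
      f ⟨x, Submodule.subset_span hx⟩) h0
    simpa using this
  exact full_dichotomy (TD_resS h _ hinj) (NP_resS hNP _ (fun x hx => Submodule.subset_span hx))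
    (Conn_resS hC _ (fun x hx => Submodule.subset_span hx)) h2 (span_Cen_resS S)

/-- unions of connected components -/
def Closed (S C : Set (V × Dual F V)) : Prop :=
  C ⊆ S ∧ ∀ p ∈ C, ∀ q ∈ S, Adj p q → q ∈ C

theorem Adj.symm {p q : V × Dual F V} (h : Adj p q) : Adj q p := Or.symm h

variable {C : Set (V × Dual F V)}

theorem Closed.mem_of_fst (hNP : NP S) (hcl : Closed S C) {r : V × Dual F V} (hr : r ∈ S)
    (h1 : r.1 ∈ Submodule.span F (Cen C)) : r ∈ C := by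
  obtain ⟨u, μ⟩ := r
  have hu : u ∉ FS S := cen_not_mem_FS hNP ⟨μ, hr⟩
  obtain ⟨⟨z, χ⟩, hq, hχu⟩ : ∃ q ∈ S, q.2 u ≠ 0 := by
    by_contra hcon
    push Not at hcon
    exact hu hcon
  by_cases hqC : (z, χ) ∈ C
  · exact hcl.2 _ hqC _ hr (Or.inl hχu)
  · exfalso
    apply hχu
    refine kills_span ?_ h1
    rintro x ⟨φ, hx⟩
    by_contra hne
    exact hqC (hcl.2 _ hx _ hq (Or.inr hne))

theorem Closed.TD (h : TD S) (hNP : NP S) (hcl : Closed S C) : TD C where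
  ne_left := fun hx => h.ne_left (hcl.1 hx)
  ne_right := fun hx => h.ne_right (hcl.1 hx)
  orth := fun hx => h.orth (hcl.1 hx)
  smul_left := fun a ha hx => hcl.mem_of_fst hNP (h.smul_left a ha (hcl.1 hx))
    (Submodule.smul_mem _ _ (Submodule.subset_span ⟨_, hx⟩))
  smul_right := fun a ha hx => hcl.mem_of_fst hNP (h.smul_right a ha (hcl.1 hx))
    (Submodule.subset_span ⟨_, hx⟩)
  conj := fun a hx hy => hcl.mem_of_fst hNP (h.conj a (hcl.1 hx) (hcl.1 hy))
    (Submodule.add_mem _ (Submodule.subset_span ⟨_, hy⟩)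
      (Submodule.smul_mem _ _ (Submodule.subset_span ⟨_, hx⟩)))
  comm := fun hx hy h1 h2 => hcl.mem_of_fst hNP (h.comm (hcl.1 hx) (hcl.1 hy) h1 h2)
    (Submodule.subset_span ⟨_, hx⟩)
  add_left := fun hx hy hne => hcl.mem_of_fst hNP (h.add_left (hcl.1 hx) (hcl.1 hy) hne)
    (Submodule.add_mem _ (Submodule.subset_span ⟨_, hx⟩) (Submodule.subset_span ⟨_, hy⟩))
  add_right := fun hx hy hne => hcl.mem_of_fst hNP (h.add_right (hcl.1 hx) (hcl.1 hy) hne)
    (Submodule.subset_span ⟨_, hx⟩)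

theorem Closed.NP (hNP : NP S) (hcl : Closed S C) : NP C := by
  intro M hinv p hp hp1 hp2
  refine hNP (M ⊓ Submodule.span F (Cen C)) ?_ p (hcl.1 hp)
    ⟨hp1, Submodule.subset_span ⟨p.2, hp⟩⟩ (fun m hm => hp2 m hm.1)
  intro q hq
  by_cases hqC : q ∈ C
  · rcases hinv q hqC with h1 | h1
    · exact Or.inl ⟨h1, Submodule.subset_span ⟨q.2, hqC⟩⟩
    · exact Or.inr (fun m hm => h1 m hm.1)
  · right
    intro m hm
    refine kills_span ?_ hm.2
    rintro x ⟨φ, hx⟩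
    by_contra hne
    exact hqC (hcl.2 _ hx _ hq (Or.inr hne))

theorem Closed.NP2 (hNP2 : NP2 S) (hcl : Closed S C) : NP2 C := by
  intro x φ w ω hx hxw h1 h2
  refine hNP2 x φ w ω (hcl.1 hx) (hcl.1 hxw) ?_ ?_
  · intro p hp
    by_cases hpC : p ∈ C
    · exact h1 p hpC
    · have e1 : p.2 x = 0 := by
        by_contra hne
        exact hpC (hcl.2 _ hx _ hp (Or.inr hne))
      have e2 : p.2 (x + w) = 0 := by
        by_contra hne
        exact hpC (hcl.2 _ hxw _ hp (Or.inr hne))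
      rw [map_add, e1, zero_add] at e2
      exact e2
  · intro p hp
    by_cases hpC : p ∈ C
    · exact h2 p hpC
    · have e1 : φ p.1 = 0 := by
        by_contra hne
        exact hpC (hcl.2 _ hx _ hp (Or.inl hne))
      have e2 : (φ + ω) p.1 = 0 := by
        by_contra hne
        exact hpC (hcl.2 _ hxw _ hp (Or.inl hne))
      rw [LinearMap.add_apply, e1, zero_add] at e2
      exact e2

/-- decomposition into connected components -/
theorem exists_components (hfin : S.Finite) :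
    ∀ n : ℕ, ∀ D : Set (V × Dual F V), D.ncard = n → Closed S D →
    ∃ (m : ℕ) (C : Fin m → Set (V × Dual F V)),
      (∀ j, Closed S (C j) ∧ Conn (C j) ∧ (C j).Nonempty ∧ C j ⊆ D) ∧
      (∀ p ∈ D, ∃ j, p ∈ C j) ∧ (∀ i j, i ≠ j → Disjoint (C i) (C j)) := by
  intro n
  induction n using Nat.strong_induction_on with
  | _ n ih =>
  intro D hn hD
  have hDfin : D.Finite := hfin.subset hD.1
  by_cases hem : D = ∅
  · subst hem
    exact ⟨0, fun j => j.elim0, fun j => j.elim0, fun p hp => absurd hp (Set.notMem_empty p),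
      fun i => i.elim0⟩
  by_cases hconn : Conn D
  · refine ⟨1, fun _ => D, fun _ => ⟨hD, hconn, Set.nonempty_iff_ne_empty.2 hem, subset_rfl⟩,
      fun p hp => ⟨0, hp⟩, ?_⟩
    intro i j hij
    exact absurd (Subsingleton.elim i j) hij
  · unfold Conn at hconn
    push Not at hconn
    obtain ⟨D₁, hsub, hne, hne', hnadj⟩ := hconn
    have hD₁ : Closed S D₁ := by
      refine ⟨hsub.trans hD.1, fun p hp q hq hadj => ?_⟩
      by_contra hq1
      exact hnadj p hp q ⟨hD.2 p (hsub hp) q hq hadj, hq1⟩ hadj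
    have hD₂ : Closed S (D \ D₁) := by
      refine ⟨Set.sdiff_subset.trans hD.1, fun p hp q hq hadj => ?_⟩
      refine ⟨hD.2 p hp.1 q hq hadj, fun hq1 => ?_⟩
      exact hnadj q hq1 p hp hadj.symm
    have c1 : D₁.ncard < n := by
      rw [← hn]
      refine Set.ncard_lt_ncard ?_ hDfin
      refine ⟨hsub, fun hh => ?_⟩
      obtain ⟨q, hq, hq1⟩ := hne'
      exact hq1 (hh hq)
    have c2 : (D \ D₁).ncard < n := by
      rw [← hn]
      refine Set.ncard_lt_ncard ?_ hDfin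
      refine ⟨Set.sdiff_subset, fun hh => ?_⟩
      obtain ⟨q, hq⟩ := hne
      exact (hh (hsub hq)).2 hq
    obtain ⟨m₁, C₁, hC₁, hcov₁, hdis₁⟩ := ih _ c1 D₁ rfl hD₁
    obtain ⟨m₂, C₂, hC₂, hcov₂, hdis₂⟩ := ih _ c2 (D \ D₁) rfl hD₂
    refine ⟨m₁ + m₂, Fin.append C₁ C₂, ?_, ?_, ?_⟩
    · intro j
      refine Fin.addCases (fun i => ?_) (fun i => ?_) j
      · rw [Fin.append_left]
        exact ⟨(hC₁ i).1, (hC₁ i).2.1, (hC₁ i).2.2.1, (hC₁ i).2.2.2.trans hsub⟩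
      · rw [Fin.append_right]
        exact ⟨(hC₂ i).1, (hC₂ i).2.1, (hC₂ i).2.2.1, (hC₂ i).2.2.2.trans Set.sdiff_subset⟩
    · intro p hp
      by_cases hp1 : p ∈ D₁
      · obtain ⟨j, hj⟩ := hcov₁ p hp1
        exact ⟨Fin.castAdd m₂ j, by rw [Fin.append_left]; exact hj⟩
      · obtain ⟨j, hj⟩ := hcov₂ p ⟨hp, hp1⟩
        exact ⟨Fin.natAdd m₁ j, by rw [Fin.append_right]; exact hj⟩
    · intro i j
      refine Fin.addCases (fun i => ?_) (fun i => ?_) i <;>
        refine Fin.addCases (fun j => ?_) (fun j => ?_) j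
      · intro hij
        rw [Fin.append_left, Fin.append_left]
        exact hdis₁ i j (fun hh => hij (by rw [hh]))
      · intro _
        rw [Fin.append_left, Fin.append_right]
        exact Set.disjoint_left.2 (fun p hp1 hp2 => ((hC₂ j).2.2.2 hp2).2 ((hC₁ i).2.2.2 hp1))
      · intro _
        rw [Fin.append_right, Fin.append_left]
        exact Set.disjoint_left.2 (fun p hp1 hp2 => ((hC₂ i).2.2.2 hp1).2 ((hC₁ j).2.2.2 hp2))
      · intro hij
        rw [Fin.append_right, Fin.append_right]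
        exact hdis₂ i j (fun hh => hij (by rw [hh]))

end Cfsg.Agent.Lib.Helper13.McL
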