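import Mathlib

/-!
# Generation of the special linear and symplectic groups by transvections
-/

set_option linter.unusedSectionVars false

namespace Cfsg.Agent.Lib.Helper13.McL

open Module

variable {F : Type*} [Field F] {W : Type*} [AddCommGroup W] [Module F W]

/-- `f` is the transvection with centre `x` and axis `φ` -/
def IsTv (f : W ≃ₗ[F] W) (x : W) (φ : Dual F W) : Prop := ∀ v, f v = v + φ v • x

theorem exists_tv {x : W} {φ : Dual F W} (h : φ x = 0) : ∃ f : W ≃ₗ[F] W, IsTv f x φ :=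
  ⟨LinearEquiv.transvection h, fun v => LinearEquiv.transvection.apply h v⟩

theorem IsTv.unique {f g : W ≃ₗ[F] W} {x : W} {φ : Dual F W} (hf : IsTv f x φ)
    (hg : IsTv g x φ) : f = g := by
  ext v
  rw [hf v, hg v]

theorem IsTv.eq_one_left {f : W ≃ₗ[F] W} {φ : Dual F W} (hf : IsTv f 0 φ) : f = 1 := by
  ext v
  simp [hf v]

theorem IsTv.eq_one_right {f : W ≃ₗ[F] W} {x : W} (hf : IsTv f x 0) : f = 1 := by
  ext v
  simp [hf v]

theorem IsTv.mul_add_left {f g : W ≃ₗ[F] W} {x y : W} {φ : Dual F W} (hf : IsTv f x φ)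
    (hg : IsTv g y φ) (hy : φ y = 0) : IsTv (f * g) (x + y) φ := by
  intro v
  rw [LinearEquiv.mul_apply, hg v, hf, map_add, map_smul, hy]
  simp only [smul_eq_mul, mul_zero, add_zero]
  module

theorem IsTv.mul_add_right {f g : W ≃ₗ[F] W} {x : W} {φ ψ : Dual F W} (hf : IsTv f x φ)
    (hg : IsTv g x ψ) (hx : φ x = 0) : IsTv (f * g) x (φ + ψ) := by
  intro v
  rw [LinearEquiv.mul_apply, hg v, hf, map_add, map_smul, hx]
  simp only [smul_eq_mul, mul_zero, add_zero, LinearMap.add_apply]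
  module

theorem mul_inv_apply' (f : W ≃ₗ[F] W) (v : W) : f (f⁻¹ v) = v := by
  rw [← LinearEquiv.mul_apply, mul_inv_cancel]
  rfl

theorem inv_mul_apply' (f : W ≃ₗ[F] W) (v : W) : f⁻¹ (f v) = v := by
  rw [← LinearEquiv.mul_apply, inv_mul_cancel]
  rfl

theorem IsTv.inv_apply {f : W ≃ₗ[F] W} {x : W} {φ : Dual F W} (hf : IsTv f x φ) (hx : φ x = 0)
    (v : W) : f⁻¹ v = v - φ v • x := by
  apply f.injective
  rw [mul_inv_apply', hf, map_sub, map_smul, hx]
  simp

theorem IsTv.inv {f : W ≃ₗ[F] W} {x : W} {φ : Dual F W} (hf : IsTv f x φ) (hx : φ x = 0) :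
    IsTv f⁻¹ (-x) φ := by
  intro v
  rw [hf.inv_apply hx]
  module

theorem IsTv.conj {t : W ≃ₗ[F] W} (g : W ≃ₗ[F] W) {y : W} {ψ : Dual F W} (ht : IsTv t y ψ) :
    IsTv (g * t * g⁻¹) (g y) (ψ.comp (g⁻¹ : W ≃ₗ[F] W).toLinearMap) := by
  intro v
  rw [LinearEquiv.mul_apply, LinearEquiv.mul_apply, ht, map_add, map_smul, mul_inv_apply']
  rfl

theorem IsTv.pow {f : W ≃ₗ[F] W} {x : W} {φ : Dual F W} (hf : IsTv f x φ) (hx : φ x = 0)
    (k : ℕ) : IsTv (f ^ k) ((k : F) • x) φ := by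
  induction k with
  | zero =>
    intro v
    simp
  | succ k ih =>
    intro v
    rw [pow_succ, LinearEquiv.mul_apply, hf v, ih, map_add, map_smul, hx]
    simp only [smul_eq_mul, mul_zero, add_zero]
    push_cast
    module

theorem IsTv.toLinearMap {f : W ≃ₗ[F] W} {x : W} {φ : Dual F W} (hf : IsTv f x φ) :
    (f : W →ₗ[F] W) = LinearMap.transvection φ x := by
  ext v
  rw [LinearMap.transvection.apply]
  exact hf v

theorem IsTv.det [FiniteDimensional F W] {f : W ≃ₗ[F] W} {x : W} {φ : Dual F W}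
    (hf : IsTv f x φ) : LinearMap.det (f : W →ₗ[F] W) = 1 + φ x := by
  rw [hf.toLinearMap, LinearMap.transvection.det]

/-- the fixed space -/
def fixS (f : W ≃ₗ[F] W) : Submodule F W := LinearMap.ker ((f : W →ₗ[F] W) - LinearMap.id)

theorem mem_fixS {f : W ≃ₗ[F] W} {v : W} : v ∈ fixS f ↔ f v = v := by
  rw [fixS, LinearMap.mem_ker, LinearMap.sub_apply, sub_eq_zero]
  rfl

theorem exists_rank_one [FiniteDimensional F W] (f : W ≃ₗ[F] W)
    (hf : finrank F (fixS f) + 1 = finrank F W) :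
    ∃ (x : W) (φ : Dual F W), x ≠ 0 ∧ φ ≠ 0 ∧ IsTv f x φ := by
  obtain ⟨g, hg⟩ : ∃ g : W →ₗ[F] W, g = (f : W →ₗ[F] W) - LinearMap.id := ⟨_, rfl⟩
  have h1 := LinearMap.finrank_range_add_finrank_ker g
  have h2 : finrank F (LinearMap.range g) = 1 := by
    have : LinearMap.ker g = fixS f := by rw [hg]; rfl
    rw [this] at h1
    omega
  obtain ⟨v₀, hv₀, hall⟩ := finrank_eq_one_iff'.1 h2
  have hx0 : (v₀ : W) ≠ 0 := fun hh => hv₀ (Subtype.ext hh)
  obtain ⟨ψ', hψ'⟩ : ∃ ψ' : Dual F W, ψ' (v₀ : W) ≠ 0 := by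
    by_contra hcon
    push Not at hcon
    exact hx0 ((Module.forall_dual_apply_eq_zero_iff F (v₀ : W)).1 hcon)
  have hrep : ∀ v, g v = (((ψ' v₀)⁻¹ • ψ').comp g) v • (v₀ : W) := by
    intro v
    obtain ⟨c, hc⟩ := hall ⟨g v, LinearMap.mem_range_self g v⟩
    have hc' : c • (v₀ : W) = g v := congrArg Subtype.val hc
    have : (((ψ' v₀)⁻¹ • ψ').comp g) v = c := by
      simp only [LinearMap.comp_apply, LinearMap.smul_apply, smul_eq_mul]
      rw [← hc', map_smul, smul_eq_mul]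
      field_simp
    rw [this, hc']
  refine ⟨v₀, ((ψ' v₀)⁻¹ • ψ').comp g, hx0, ?_, ?_⟩
  · intro h0
    apply hv₀
    obtain ⟨w, hw⟩ := v₀.2
    refine Subtype.ext ?_
    rw [← hw, hrep w, h0]
    simp
  · intro v
    have hgv : g v = f v - v := by rw [hg]; rfl
    rw [← hrep v, hgv]
    abel

/-- the group generated by all transvections -/
def tvGroup (F : Type*) [Field F] (W : Type*) [AddCommGroup W] [Module F W] :
    Subgroup (W ≃ₗ[F] W) :=
  Subgroup.closure {f | ∃ (x : W) (φ : Dual F W), φ x = 0 ∧ IsTv f x φ}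

theorem det_of_mem_tvGroup [FiniteDimensional F W] {g : W ≃ₗ[F] W} (hg : g ∈ tvGroup F W) :
    LinearMap.det (g : W →ₗ[F] W) = 1 := by
  induction hg using Subgroup.closure_induction with
  | mem f hf =>
    obtain ⟨x, φ, hx, hf⟩ := hf
    rw [hf.det, hx, add_zero]
  | one => exact LinearMap.det_id
  | mul f g _ _ h1 h2 =>
    have : ((f * g : W ≃ₗ[F] W) : W →ₗ[F] W) = (f : W →ₗ[F] W) ∘ₗ (g : W →ₗ[F] W) := rfl
    rw [this, LinearMap.det_comp, h1, h2, mul_one]
  | inv f _ h1 =>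
    have : (f : W →ₗ[F] W) ∘ₗ ((f⁻¹ : W ≃ₗ[F] W) : W →ₗ[F] W) = LinearMap.id := by
      ext v
      exact mul_inv_apply' f v
    have h3 := LinearMap.det_comp (f : W →ₗ[F] W) ((f⁻¹ : W ≃ₗ[F] W) : W →ₗ[F] W)
    rw [this, LinearMap.det_id, h1, one_mul] at h3
    exact h3.symm

theorem exists_tv_fix (f : W ≃ₗ[F] W) {u : W}
    (hu : u ∉ fixS f ⊔ Submodule.span F {f u - u}) :
    ∃ g ∈ tvGroup F W, fixS f < fixS (g * f) := by
  obtain ⟨ψ, hψu, hψ⟩ := Submodule.exists_dual_map_eq_bot_of_notMem hu inferInstance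
  have hker : ∀ v ∈ fixS f ⊔ Submodule.span F {f u - u}, ψ v = 0 := by
    intro v hv
    have : ψ v ∈ Submodule.map ψ (fixS f ⊔ Submodule.span F {f u - u}) :=
      Submodule.mem_map_of_mem hv
    rw [hψ] at this
    simpa using this
  obtain ⟨φ, hφ⟩ : ∃ φ : Dual F W, φ = (ψ u)⁻¹ • ψ := ⟨_, rfl⟩
  have hφu : φ u = 1 := by
    rw [hφ]
    simp [hψu]
  have hφker : ∀ v ∈ fixS f ⊔ Submodule.span F {f u - u}, φ v = 0 := by
    intro v hv
    rw [hφ]
    simp [hker v hv]
  have hφd : φ (f u - u) = 0 :=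
    hφker _ (Submodule.mem_sup_right (Submodule.mem_span_singleton_self _))
  have hφx : φ (u - f u) = 0 := by
    have : u - f u = -(f u - u) := by abel
    rw [this, map_neg, hφd, neg_zero]
  obtain ⟨t, ht⟩ := exists_tv hφx
  have hφfu : φ (f u) = 1 := by
    have : f u = (f u - u) + u := by abel
    rw [this, map_add, hφd, hφu, zero_add]
  refine ⟨t, Subgroup.subset_closure ⟨_, _, hφx, ht⟩, ?_⟩
  have hu' : u ∉ fixS f := fun hh => hu (Submodule.mem_sup_left hh)
  have hle : fixS f ≤ fixS (t * f) := by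
    intro v hv
    have hv' := mem_fixS.1 hv
    rw [mem_fixS, LinearEquiv.mul_apply, hv', ht, hφker v (Submodule.mem_sup_left hv), zero_smul,
      add_zero]
  refine lt_of_le_of_ne hle ?_
  intro heq
  apply hu'
  rw [heq, mem_fixS, LinearEquiv.mul_apply, ht, hφfu, one_smul]
  abel

theorem exists_increase [FiniteDimensional F W] (f : W ≃ₗ[F] W)
    (h2 : finrank F (fixS f) + 2 ≤ finrank F W) :
    ∃ g ∈ tvGroup F W, fixS f < fixS (g * f) := by
  by_cases hgood : ∃ u, u ∉ fixS f ⊔ Submodule.span F {f u - u}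
  · obtain ⟨u, hu⟩ := hgood
    exact exists_tv_fix f hu
  push Not at hgood
  obtain ⟨u₁, hu₁⟩ : ∃ u₁, u₁ ∉ fixS f := by
    by_contra hcon
    push Not at hcon
    have : fixS f = ⊤ := eq_top_iff.2 (fun v _ => hcon v)
    rw [this, finrank_top] at h2
    omega
  obtain ⟨u₂, hu₂⟩ : ∃ u₂, u₂ ∉ fixS f ⊔ Submodule.span F {u₁} := by
    by_contra hcon
    push Not at hcon
    have : fixS f ⊔ Submodule.span F {u₁} = ⊤ := eq_top_iff.2 (fun v _ => hcon v)
    have h3 := Submodule.finrank_add_le_finrank_add_finrank (fixS f) (Submodule.span F {u₁})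
    have h4 : finrank F (Submodule.span F {u₁}) ≤ 1 :=
      le_trans (finrank_span_le_card {u₁}) (by simp)
    rw [this, finrank_top] at h3
    omega
  obtain ⟨ψ, hψu, hψ⟩ := Submodule.exists_dual_map_eq_bot_of_notMem hu₂ inferInstance
  have hker : ∀ v ∈ fixS f ⊔ Submodule.span F {u₁}, ψ v = 0 := by
    intro v hv
    have : ψ v ∈ Submodule.map ψ (fixS f ⊔ Submodule.span F {u₁}) :=
      Submodule.mem_map_of_mem hv
    rw [hψ] at this
    simpa using this
  obtain ⟨φ₀, hφ₀⟩ : ∃ φ₀ : Dual F W, φ₀ = (ψ u₂)⁻¹ • ψ := ⟨_, rfl⟩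
  have hφu₂ : φ₀ u₂ = 1 := by
    rw [hφ₀]
    simp [hψu]
  have hφker : ∀ v ∈ fixS f ⊔ Submodule.span F {u₁}, φ₀ v = 0 := by
    intro v hv
    rw [hφ₀]
    simp [hker v hv]
  have hφu₁ : φ₀ u₁ = 0 :=
    hφker _ (Submodule.mem_sup_right (Submodule.mem_span_singleton_self _))
  have hφP : ∀ v ∈ fixS f, φ₀ v = 0 := fun v hv => hφker v (Submodule.mem_sup_left hv)
  obtain ⟨t₀, ht₀⟩ := exists_tv hφu₁
  have ht₀G : t₀ ∈ tvGroup F W := Subgroup.subset_closure ⟨_, _, hφu₁, ht₀⟩
  have hle : fixS f ≤ fixS (t₀ * f) := by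
    intro v hv
    have hv' := mem_fixS.1 hv
    rw [mem_fixS, LinearEquiv.mul_apply, hv', ht₀, hφP v hv, zero_smul, add_zero]
  by_cases heq : fixS (t₀ * f) = fixS f
  swap
  · exact ⟨t₀, ht₀G, lt_of_le_of_ne hle (Ne.symm heq)⟩
  have hu₂P : u₂ ∉ fixS f := fun hh => hu₂ (Submodule.mem_sup_left hh)
  obtain ⟨p, hp, z, hz, hpz⟩ := Submodule.mem_sup.1 (hgood u₂)
  obtain ⟨d, rfl⟩ := Submodule.mem_span_singleton.1 hz
  have hd : d ≠ 0 := by
    rintro rfl
    apply hu₂P
    rw [zero_smul, add_zero] at hpz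
    rw [← hpz]
    exact hp
  have h5 : f u₂ - u₂ = d⁻¹ • (u₂ - p) := by
    have : u₂ - p = d • (f u₂ - u₂) := by
      rw [eq_comm, ← sub_eq_zero]
      have e : d • (f u₂ - u₂) - (u₂ - p) = (p + d • (f u₂ - u₂)) - u₂ := by abel
      rw [e, hpz, sub_self]
    rw [this, smul_smul, inv_mul_cancel₀ hd, one_smul]
  have hfu₂ : f u₂ = u₂ + d⁻¹ • (u₂ - p) := by
    rw [← h5]
    abel
  have hφp : φ₀ p = 0 := hφP p hp
  obtain ⟨lam, hlam⟩ : ∃ lam : F, lam = 1 + d⁻¹ := ⟨_, rfl⟩
  have hφfu₂ : φ₀ (f u₂) = lam := by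
    rw [hfu₂, map_add, map_smul, map_sub, hφu₂, hφp, hlam]
    simp
  have hlam0 : lam ≠ 0 := by
    intro h0
    apply hu₂P
    have hd1 : d⁻¹ = -1 := by
      rw [hlam] at h0
      exact eq_neg_of_add_eq_zero_right h0
    have hfp : f u₂ = p := by
      rw [hfu₂, hd1]
      module
    have h6 : f (f u₂) = f u₂ := by
      rw [hfp]
      exact mem_fixS.1 hp
    exact mem_fixS.2 (f.injective h6)
  have hf'u₂ : (t₀ * f) u₂ - u₂ = d⁻¹ • (u₂ - p) + lam • u₁ := by
    rw [LinearEquiv.mul_apply, ht₀, hφfu₂, hfu₂]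
    abel
  have hgood' : u₂ ∉ fixS (t₀ * f) ⊔ Submodule.span F {(t₀ * f) u₂ - u₂} := by
    rw [heq, hf'u₂]
    intro hmem
    obtain ⟨p', hp', z', hz', hpz'⟩ := Submodule.mem_sup.1 hmem
    obtain ⟨e, rfl⟩ := Submodule.mem_span_singleton.1 hz'
    have h7 := congrArg φ₀ hpz'
    simp only [map_add, map_smul, map_sub, hφP p' hp', hφu₂, hφp, hφu₁, smul_eq_mul, mul_zero,
      add_zero, sub_zero, mul_one, zero_add] at h7
    have he : e = d := by
      have : e * d⁻¹ * d = 1 * d := by rw [h7]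
      rw [mul_assoc, inv_mul_cancel₀ hd, mul_one, one_mul] at this
      exact this
    apply hu₁
    have h8 : (d * lam) • u₁ = p - p' := by
      rw [he] at hpz'
      have e1 : d • (d⁻¹ • (u₂ - p) + lam • u₁) = (u₂ - p) + (d * lam) • u₁ := by
        rw [smul_add, smul_smul, mul_inv_cancel₀ hd, one_smul, smul_smul]
      rw [e1] at hpz'
      rw [← sub_eq_zero]
      have e2 : (d * lam) • u₁ - (p - p') = (p' + (u₂ - p + (d * lam) • u₁)) - u₂ := by abel
      rw [e2, hpz', sub_self]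
    have h9 : (d * lam) • u₁ ∈ fixS f := by
      rw [h8]
      exact (fixS f).sub_mem hp hp'
    exact ((fixS f).smul_mem_iff (mul_ne_zero hd hlam0)).1 h9
  obtain ⟨t₁, ht₁G, hlt⟩ := exists_tv_fix (t₀ * f) hgood'
  refine ⟨t₁ * t₀, (tvGroup F W).mul_mem ht₁G ht₀G, ?_⟩
  rw [mul_assoc, ← heq]
  exact hlt

/-- every linear automorphism of determinant one is a product of transvections -/
theorem mem_tvGroup_of_det [FiniteDimensional F W] :
    ∀ n : ℕ, ∀ f : W ≃ₗ[F] W, finrank F W - finrank F (fixS f) = n →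
      LinearMap.det (f : W →ₗ[F] W) = 1 → f ∈ tvGroup F W := by
  intro n
  induction n using Nat.strong_induction_on with
  | _ n ih =>
  intro f hn hdet
  by_cases htop : fixS f = ⊤
  · have : f = 1 := by
      ext v
      exact mem_fixS.1 (by rw [htop]; trivial)
    rw [this]
    exact one_mem _
  have hlt : finrank F (fixS f) < finrank F W :=
    Submodule.finrank_lt htop
  by_cases h1 : finrank F (fixS f) + 1 = finrank F W
  · obtain ⟨x, φ, hx, hφ, hf⟩ := exists_rank_one f h1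
    have := hf.det
    rw [hdet] at this
    have hφx : φ x = 0 := by linear_combination -this
    exact Subgroup.subset_closure ⟨x, φ, hφx, hf⟩
  · obtain ⟨g, hg, hgt⟩ := exists_increase f (by omega)
    have h3 := Submodule.finrank_lt_finrank_of_lt hgt
    have h4 : finrank F (fixS (g * f)) ≤ finrank F W := Submodule.finrank_le _
    have hdet' : LinearMap.det ((g * f : W ≃ₗ[F] W) : W →ₗ[F] W) = 1 := by
      have : ((g * f : W ≃ₗ[F] W) : W →ₗ[F] W) = (g : W →ₗ[F] W) ∘ₗ (f : W →ₗ[F] W) := rfl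
      rw [this, LinearMap.det_comp, det_of_mem_tvGroup hg, hdet, mul_one]
    have := ih (finrank F W - finrank F (fixS (g * f))) (by omega) (g * f) rfl hdet'
    have h5 : f = g⁻¹ * (g * f) := by group
    rw [h5]
    exact (tvGroup F W).mul_mem ((tvGroup F W).inv_mem hg) this

theorem closure_eq_sl [FiniteDimensional F W] (R : Set (W × Dual F W))
    (hR : ∀ x φ, x ≠ 0 → φ ≠ 0 → φ x = 0 → (x, φ) ∈ R) (hR' : ∀ p ∈ R, p.2 p.1 = 0) :
    (Subgroup.closure {r : W ≃ₗ[F] W | ∃ p ∈ R, IsTv r p.1 p.2} : Set (W ≃ₗ[F] W)) =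
      {f : W ≃ₗ[F] W | LinearMap.det (f : W →ₗ[F] W) = 1} := by
  ext f
  constructor
  · intro hf
    have : Subgroup.closure {r : W ≃ₗ[F] W | ∃ p ∈ R, IsTv r p.1 p.2} ≤ tvGroup F W := by
      refine Subgroup.closure_mono ?_
      rintro r ⟨p, hp, hr⟩
      exact ⟨p.1, p.2, hR' p hp, hr⟩
    exact det_of_mem_tvGroup (this hf)
  · intro hf
    have h1 := mem_tvGroup_of_det _ f rfl hf
    have : tvGroup F W ≤ Subgroup.closure {r : W ≃ₗ[F] W | ∃ p ∈ R, IsTv r p.1 p.2} := by
      refine (Subgroup.closure_le _).2 ?_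
      rintro r ⟨x, φ, hx, hr⟩
      by_cases hx0 : x = 0
      · subst hx0
        rw [hr.eq_one_left]
        exact one_mem _
      by_cases hφ0 : φ = 0
      · subst hφ0
        rw [hr.eq_one_right]
        exact one_mem _
      exact Subgroup.subset_closure ⟨(x, φ), hR x φ hx0 hφ0 hx, hr⟩
    exact this h1

/-! ### symplectic -/

theorem IsTv.isometry {B : LinearMap.BilinForm F W} (hB : B.IsAlt) {t : W ≃ₗ[F] W} {x : W}
    {c : F} (ht : IsTv t x (c • B x)) (v w : W) : B (t v) (t w) = B v w := by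
  rw [ht v, ht w]
  have h1 : B x x = 0 := hB x
  have h2 : B v x = -B x v := (hB.neg_eq x v).symm
  simp only [map_add, map_smul, LinearMap.add_apply, LinearMap.smul_apply, smul_eq_mul, h1, h2]
  ring

theorem sp_move {B : LinearMap.BilinForm F W} (hB : B.IsAlt) (a b : W) (hab : B b a ≠ 0) :
    ∃ t : W ≃ₗ[F] W, (∃ (x : W) (c : F), IsTv t x (c • B x)) ∧ t a = b ∧
      ∀ v, B (b - a) v = 0 → t v = v := by
  have hx : ((B b a)⁻¹ • B (b - a)) (b - a) = 0 := by
    rw [LinearMap.smul_apply, hB (b - a), smul_zero]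
  obtain ⟨t, ht⟩ := exists_tv hx
  refine ⟨t, ⟨b - a, (B b a)⁻¹, ht⟩, ?_, ?_⟩
  · rw [ht]
    simp only [LinearMap.smul_apply, map_sub, LinearMap.sub_apply, hB a, sub_zero, smul_eq_mul]
    rw [inv_mul_cancel₀ hab, one_smul]
    abel
  · intro v hv
    rw [ht, LinearMap.smul_apply, hv]
    simp

/-- the group generated by the symplectic transvections -/
def spGroup (B : LinearMap.BilinForm F W) : Subgroup (W ≃ₗ[F] W) :=
  Subgroup.closure {f | ∃ (x : W) (c : F), IsTv f x (c • B x)}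

theorem isometry_of_mem_spGroup {B : LinearMap.BilinForm F W} (hB : B.IsAlt) {g : W ≃ₗ[F] W}
    (hg : g ∈ spGroup B) : ∀ v w, B (g v) (g w) = B v w := by
  induction hg using Subgroup.closure_induction with
  | mem f hf =>
    obtain ⟨x, c, hf⟩ := hf
    exact hf.isometry hB
  | one =>
    intro v w
    rfl
  | mul f g _ _ h1 h2 =>
    intro v w
    rw [LinearEquiv.mul_apply, LinearEquiv.mul_apply, h1, h2]
  | inv f _ h1 =>
    intro v w
    have := h1 (f⁻¹ v) (f⁻¹ w)
    rw [mul_inv_apply', mul_inv_apply'] at this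
    exact this.symm

theorem exists_increase_sp [FiniteDimensional F W] {B : LinearMap.BilinForm F W} (hB : B.IsAlt)
    (hnd : B.Nondegenerate) (f : W ≃ₗ[F] W) (hf : ∀ x y, B (f x) (f y) = B x y) {u : W}
    (hu : u ∉ fixS f) : ∃ g ∈ spGroup B, fixS f < fixS (g * f) := by
  have key : ∃ t ∈ spGroup B, t u = f u ∧ ∀ v ∈ fixS f, t v = v := by
    have hP : ∀ v ∈ fixS f, B (f u - u) v = 0 := by
      intro v hv
      have hv' := mem_fixS.1 hv
      have e : B (f u) v = B u v := by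
        have := hf u v
        rw [hv'] at this
        exact this
      rw [map_sub, LinearMap.sub_apply, e, sub_self]
    by_cases hc : B (f u) u ≠ 0
    · obtain ⟨t, ht, hta, htv⟩ := sp_move hB u (f u) hc
      exact ⟨t, Subgroup.subset_closure ht, hta, fun v hv => htv v (hP v hv)⟩
    · push Not at hc
      have hfu : f u ∉ fixS f := by
        intro hh
        exact hu (mem_fixS.2 (f.injective (mem_fixS.1 hh)))
      have horth := LinearMap.BilinForm.orthogonal_orthogonal hnd hB.isRefl (fixS f)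
      obtain ⟨y₁, hy₁, hy₁u⟩ : ∃ y₁ ∈ B.orthogonal (fixS f), B y₁ u ≠ 0 := by
        by_contra hcon
        push Not at hcon
        apply hu
        rw [← horth, LinearMap.BilinForm.mem_orthogonal_iff]
        exact hcon
      obtain ⟨y₂, hy₂, hy₂u⟩ : ∃ y₂ ∈ B.orthogonal (fixS f), B y₂ (f u) ≠ 0 := by
        by_contra hcon
        push Not at hcon
        apply hfu
        rw [← horth, LinearMap.BilinForm.mem_orthogonal_iff]
        exact hcon
      obtain ⟨y, hy, hyu, hyfu⟩ :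
          ∃ y ∈ B.orthogonal (fixS f), B y u ≠ 0 ∧ B y (f u) ≠ 0 := by
        by_cases c1 : B y₁ (f u) ≠ 0
        · exact ⟨y₁, hy₁, hy₁u, c1⟩
        push Not at c1
        by_cases c2 : B y₂ u ≠ 0
        · exact ⟨y₂, hy₂, c2, hy₂u⟩
        push Not at c2
        refine ⟨y₁ + y₂, Submodule.add_mem _ hy₁ hy₂, ?_, ?_⟩
        · rw [map_add, LinearMap.add_apply, c2, add_zero]
          exact hy₁u
        · rw [map_add, LinearMap.add_apply, c1, zero_add]
          exact hy₂u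
      have hyP : ∀ v ∈ fixS f, B y v = 0 := by
        intro v hv
        have := LinearMap.BilinForm.mem_orthogonal_iff.1 hy v hv
        rw [← hB.neg_eq v y, this, neg_zero]
      have h1 : B (u + y) u ≠ 0 := by
        rw [map_add, LinearMap.add_apply, hB u, zero_add]
        exact hyu
      obtain ⟨t₁, ht₁, ht₁a, ht₁v⟩ := sp_move hB u (u + y) h1
      have h2 : B (f u) (u + y) ≠ 0 := by
        rw [map_add, hc, zero_add, ← hB.neg_eq y (f u)]
        exact neg_ne_zero.2 hyfu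
      obtain ⟨t₂, ht₂, ht₂a, ht₂v⟩ := sp_move hB (u + y) (f u) h2
      refine ⟨t₂ * t₁, (spGroup B).mul_mem (Subgroup.subset_closure ht₂)
        (Subgroup.subset_closure ht₁), ?_, ?_⟩
      · rw [LinearEquiv.mul_apply, ht₁a, ht₂a]
      · intro v hv
        have e1 : t₁ v = v := ht₁v v (by rw [add_sub_cancel_left]; exact hyP v hv)
        have e2 : t₂ v = v := by
          refine ht₂v v ?_
          have : f u - (u + y) = (f u - u) - y := by abel
          rw [this, map_sub, LinearMap.sub_apply, hP v hv, hyP v hv, sub_zero]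
        rw [LinearEquiv.mul_apply, e1, e2]
  obtain ⟨t, ht, htu, htv⟩ := key
  refine ⟨t⁻¹, (spGroup B).inv_mem ht, ?_⟩
  have hinv : ∀ v w, t v = w → t⁻¹ w = v := by
    intro v w hvw
    rw [← hvw, inv_mul_apply']
  have hle : fixS f ≤ fixS (t⁻¹ * f) := by
    intro v hv
    rw [mem_fixS, LinearEquiv.mul_apply, mem_fixS.1 hv]
    exact hinv v v (htv v hv)
  refine lt_of_le_of_ne hle ?_
  intro heq
  apply hu
  rw [heq, mem_fixS, LinearEquiv.mul_apply]
  exact hinv u (f u) htu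

/-- every isometry of a nondegenerate alternating form is a product of symplectic
transvections -/
theorem mem_spGroup_of_isometry [FiniteDimensional F W] {B : LinearMap.BilinForm F W}
    (hB : B.IsAlt) (hnd : B.Nondegenerate) :
    ∀ n : ℕ, ∀ f : W ≃ₗ[F] W, finrank F W - finrank F (fixS f) = n →
      (∀ x y, B (f x) (f y) = B x y) → f ∈ spGroup B := by
  intro n
  induction n using Nat.strong_induction_on with
  | _ n ih =>
  intro f hn hf
  by_cases htop : fixS f = ⊤
  · have : f = 1 := by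
      ext v
      exact mem_fixS.1 (by rw [htop]; trivial)
    rw [this]
    exact one_mem _
  obtain ⟨u, hu⟩ : ∃ u, u ∉ fixS f := by
    by_contra hcon
    push Not at hcon
    exact htop (eq_top_iff.2 fun v _ => hcon v)
  obtain ⟨g, hg, hgt⟩ := exists_increase_sp hB hnd f hf hu
  have h3 := Submodule.finrank_lt_finrank_of_lt hgt
  have h4 : finrank F (fixS (g * f)) ≤ finrank F W := Submodule.finrank_le _
  have hgi := isometry_of_mem_spGroup hB hg
  have := ih (finrank F W - finrank F (fixS (g * f))) (by omega) (g * f) rfl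
    (fun x y => by rw [LinearEquiv.mul_apply, LinearEquiv.mul_apply, hgi, hf])
  have h5 : f = g⁻¹ * (g * f) := by group
  rw [h5]
  exact (spGroup B).mul_mem ((spGroup B).inv_mem hg) this

theorem closure_eq_sp [FiniteDimensional F W] (B : LinearMap.BilinForm F W) (hB : B.IsAlt)
    (hnd : B.Nondegenerate) (R : Set (W × Dual F W))
    (hR : ∀ x φ, (x, φ) ∈ R ↔ x ≠ 0 ∧ ∃ c : F, c ≠ 0 ∧ φ = c • B x) :
    (Subgroup.closure {r : W ≃ₗ[F] W | ∃ p ∈ R, IsTv r p.1 p.2} : Set (W ≃ₗ[F] W)) =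
      {f : W ≃ₗ[F] W | ∀ x y, B (f x) (f y) = B x y} := by
  ext f
  constructor
  · intro hf
    have : Subgroup.closure {r : W ≃ₗ[F] W | ∃ p ∈ R, IsTv r p.1 p.2} ≤ spGroup B := by
      refine Subgroup.closure_mono ?_
      rintro r ⟨⟨x, φ⟩, hp, hr⟩
      obtain ⟨-, c, -, rfl⟩ := (hR x φ).1 hp
      exact ⟨x, c, hr⟩
    exact isometry_of_mem_spGroup hB (this hf)
  · intro hf
    have h1 := mem_spGroup_of_isometry hB hnd _ f rfl hf
    have : spGroup B ≤ Subgroup.closure {r : W ≃ₗ[F] W | ∃ p ∈ R, IsTv r p.1 p.2} := by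
      refine (Subgroup.closure_le _).2 ?_
      rintro r ⟨x, c, hr⟩
      by_cases hx0 : x = 0
      · subst hx0
        rw [hr.eq_one_left]
        exact one_mem _
      by_cases hc0 : c = 0
      · subst hc0
        rw [zero_smul] at hr
        rw [hr.eq_one_right]
        exact one_mem _
      exact Subgroup.subset_closure ⟨(x, c • B x), (hR _ _).2 ⟨hx0, c, hc0, rfl⟩, hr⟩
    exact this h1

end Cfsg.Agent.Lib.Helper13.McL
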