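import Mathlib
import Cfsg.Prelude.Def_Solvable
import Cfsg.Agent.Lib.Helper13.McL1
import Cfsg.Agent.Lib.Helper13.McL4

/-!
# The transvection datum of a linear group over a prime field
-/

set_option linter.unusedSectionVars false

namespace Cfsg.Agent.Lib.Helper13.McL

open Module

section general

variable {F : Type*} [Field F] {V : Type*} [AddCommGroup V] [Module F V]

theorem TD.of_basic {S : Set (V × Dual F V)}
    (ne_left : ∀ {x : V} {φ : Dual F V}, (x, φ) ∈ S → x ≠ 0)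
    (ne_right : ∀ {x : V} {φ : Dual F V}, (x, φ) ∈ S → φ ≠ 0)
    (orth : ∀ {x : V} {φ : Dual F V}, (x, φ) ∈ S → φ x = 0)
    (smul_left : ∀ {x : V} {φ : Dual F V} (a : F), a ≠ 0 → (x, φ) ∈ S → (a • x, φ) ∈ S)
    (smul_right : ∀ {x : V} {φ : Dual F V} (a : F), a ≠ 0 → (x, φ) ∈ S → (x, a • φ) ∈ S)
    (conj : ∀ {x : V} {φ : Dual F V} {y : V} {ψ : Dual F V} (a : F), (x, φ) ∈ S → (y, ψ) ∈ S →
      (y + (a * φ y) • x, ψ - (a * ψ x) • φ) ∈ S)
    (add_left : ∀ {x y : V} {φ : Dual F V}, (x, φ) ∈ S → (y, φ) ∈ S → x + y ≠ 0 →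
      (x + y, φ) ∈ S)
    (add_right : ∀ {x : V} {φ ψ : Dual F V}, (x, φ) ∈ S → (x, ψ) ∈ S → φ + ψ ≠ 0 →
      (x, φ + ψ) ∈ S) : TD S where
  ne_left := ne_left
  ne_right := ne_right
  orth := orth
  smul_left := smul_left
  smul_right := smul_right
  conj := conj
  add_left := add_left
  add_right := add_right
  comm := by
    intro x φ y ψ hx hy h1 h2
    have s1 := conj 1 hx hy
    rw [h2, mul_zero, zero_smul, sub_zero, one_mul] at s1
    have s2 : (-y, ψ) ∈ S := by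
      have := smul_left (-1) (by simp) hy
      rwa [neg_one_smul F y] at this
    have e : y + φ y • x + -y = φ y • x := by abel
    have s3 := add_left s1 s2 (by
      rw [e]
      exact smul_ne_zero h1 (ne_left hx))
    rw [e] at s3
    have s4 := smul_left (φ y)⁻¹ (inv_ne_zero h1) s3
    rwa [smul_smul, inv_mul_cancel₀ h1, one_smul] at s4

/-- the transvection datum of a linear group -/
def SH (H : Subgroup (V ≃ₗ[F] V)) : Set (V × Dual F V) :=
  {q | q.1 ≠ 0 ∧ q.2 ≠ 0 ∧ q.2 q.1 = 0 ∧ ∃ h ∈ H, IsTv h q.1 q.2}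

theorem IsTv.smul_swap {h : V ≃ₗ[F] V} {x : V} {φ : Dual F V} {a : F}
    (hh : IsTv h (a • x) φ) : IsTv h x (a • φ) := by
  intro v
  rw [hh v, LinearMap.smul_apply, smul_smul, smul_eq_mul, mul_comm]

theorem IsTv.commute {f g : V ≃ₗ[F] V} {x y : V} {φ ψ : Dual F V} (hf : IsTv f x φ)
    (hg : IsTv g y ψ) (h1 : φ y = 0) (h2 : ψ x = 0) : f * g = g * f := by
  ext v
  rw [LinearEquiv.mul_apply, LinearEquiv.mul_apply, hg v, hf v, hf, hg, map_add, map_add,
    map_smul, map_smul, h1, h2]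
  simp only [smul_eq_mul, mul_zero, add_zero]
  abel

/-- the unipotent radical of a flag -/
def radSub (H : Subgroup (V ≃ₗ[F] V)) (A B : Submodule F V) (hBA : B ≤ A) : Subgroup H where
  carrier := {h | (∀ v, (h : V ≃ₗ[F] V) v - v ∈ A) ∧ (∀ a ∈ A, (h : V ≃ₗ[F] V) a - a ∈ B) ∧
    ∀ b ∈ B, (h : V ≃ₗ[F] V) b = b}
  mul_mem' := by
    rintro a b ⟨ha1, ha2, ha3⟩ ⟨hb1, hb2, hb3⟩
    refine ⟨fun v => ?_, fun w hw => ?_, fun m hm => ?_⟩
    · show (a.1 * b.1) v - v ∈ A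
      have e : (a.1 * b.1) v - v = (a.1 (b.1 v) - b.1 v) + (b.1 v - v) := by
        rw [LinearEquiv.mul_apply]
        abel
      rw [e]
      exact A.add_mem (ha1 _) (hb1 _)
    · show (a.1 * b.1) w - w ∈ B
      have e : (a.1 * b.1) w - w = (a.1 (b.1 w) - b.1 w) + (b.1 w - w) := by
        rw [LinearEquiv.mul_apply]
        abel
      rw [e]
      have hbw : b.1 w ∈ A := by
        have : b.1 w = w + (b.1 w - w) := by abel
        rw [this]
        exact A.add_mem hw (hBA (hb2 w hw))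
      exact B.add_mem (ha2 _ hbw) (hb2 w hw)
    · show (a.1 * b.1) m = m
      rw [LinearEquiv.mul_apply, hb3 m hm, ha3 m hm]
  one_mem' := by
    refine ⟨fun v => ?_, fun w _ => ?_, fun m _ => rfl⟩
    · show (1 : V ≃ₗ[F] V) v - v ∈ A
      simp
    · show (1 : V ≃ₗ[F] V) w - w ∈ B
      simp
  inv_mem' := by
    rintro a ⟨ha1, ha2, ha3⟩
    have h1 : ∀ v, a.1⁻¹ v - v ∈ A := by
      intro v
      have := ha1 (a.1⁻¹ v)
      rw [mul_inv_apply'] at this
      have e : a.1⁻¹ v - v = -(v - a.1⁻¹ v) := by abel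
      rw [e]
      exact A.neg_mem this
    refine ⟨h1, fun w hw => ?_, fun m hm => ?_⟩
    · show a.1⁻¹ w - w ∈ B
      have hu : a.1⁻¹ w ∈ A := by
        have : a.1⁻¹ w = w + (a.1⁻¹ w - w) := by abel
        rw [this]
        exact A.add_mem hw (h1 w)
      have := ha2 _ hu
      rw [mul_inv_apply'] at this
      have e : a.1⁻¹ w - w = -(w - a.1⁻¹ w) := by abel
      rw [e]
      exact B.neg_mem this
    · show a.1⁻¹ m = m
      have := ha3 m hm
      conv_lhs => rw [← this]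
      exact inv_mul_apply' _ _

theorem radSub_normal (H : Subgroup (V ≃ₗ[F] V)) (A B : Submodule F V) (hBA : B ≤ A)
    (hA : ∀ h ∈ H, ∀ a ∈ A, h a ∈ A) (hB : ∀ h ∈ H, ∀ b ∈ B, h b ∈ B) :
    (radSub H A B hBA).Normal := by
  constructor
  rintro n ⟨h1, h2, h3⟩ g
  have e : ∀ v, (g.1 * n.1 * g.1⁻¹) v - v = g.1 (n.1 (g.1⁻¹ v) - g.1⁻¹ v) := by
    intro v
    rw [LinearEquiv.mul_apply, LinearEquiv.mul_apply, map_sub, mul_inv_apply']
  refine ⟨fun v => ?_, fun a ha => ?_, fun b hb => ?_⟩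
  · show (g.1 * n.1 * g.1⁻¹) v - v ∈ A
    rw [e]
    exact hA g.1 g.2 _ (h1 _)
  · show (g.1 * n.1 * g.1⁻¹) a - a ∈ B
    rw [e]
    exact hB g.1 g.2 _ (h2 _ (hA g.1⁻¹ (H.inv_mem g.2) a ha))
  · show (g.1 * n.1 * g.1⁻¹) b = b
    rw [LinearEquiv.mul_apply, LinearEquiv.mul_apply, h3 _ (hB g.1⁻¹ (H.inv_mem g.2) b hb),
      mul_inv_apply']

end general

section prime

variable {p : ℕ} [Fact p.Prime] {V : Type*} [AddCommGroup V] [Module (ZMod p) V]

theorem two_step (h : V ≃ₗ[ZMod p] V) (A B : Submodule (ZMod p) V)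
    (h1 : ∀ a ∈ A, h a - a ∈ B) (h2 : ∀ b ∈ B, h b = b) : ∀ a ∈ A, (h ^ p) a = a := by
  have hk : ∀ k : ℕ, ∀ b ∈ B, (h ^ k) b = b := by
    intro k
    induction k with
    | zero =>
      intro b _
      simp
    | succ k ih =>
      intro b hb
      rw [pow_succ, LinearEquiv.mul_apply, h2 b hb, ih b hb]
  have key : ∀ k : ℕ, ∀ a d : V, h a = a + d → d ∈ B → (h ^ k) a = a + k • d := by
    intro k
    induction k with
    | zero =>
      intro a d _ _
      simp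
    | succ k ih =>
      intro a d hha hdB
      rw [pow_succ, LinearEquiv.mul_apply, hha, map_add, ih a d hha hdB, hk k d hdB, succ_nsmul]
      abel
  intro a ha
  have := key p a (h a - a) (by abel) (h1 a ha)
  rw [this, ZModModule.char_nsmul_eq_zero p, add_zero]

theorem radSub_isPGroup (H : Subgroup (V ≃ₗ[ZMod p] V)) (A B : Submodule (ZMod p) V)
    (hBA : B ≤ A) : IsPGroup p (radSub H A B hBA) := by
  intro g
  refine ⟨2, ?_⟩
  obtain ⟨⟨g, hgH⟩, h1, h2, h3⟩ := g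
  apply Subtype.ext
  apply Subtype.ext
  show g ^ p ^ 2 = 1
  have hA : ∀ a ∈ A, (g ^ p) a = a := two_step g A B h2 h3
  have hV : ∀ k : ℕ, ∀ v, (g ^ k) v - v ∈ A := by
    intro k
    induction k with
    | zero =>
      intro v
      simp
    | succ k ih =>
      intro v
      have e : (g ^ (k + 1)) v - v = ((g ^ k) (g v) - g v) + (g v - v) := by
        rw [pow_succ, LinearEquiv.mul_apply]
        abel
      rw [e]
      exact A.add_mem (ih _) (h1 v)
  have hfin : ∀ v, ((g ^ p) ^ p) v = v := fun v =>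
    two_step (g ^ p) ⊤ A (fun v _ => hV p v) hA v trivial
  rw [pow_two, pow_mul]
  ext v
  exact hfin v

theorem radSub_eq_bot (H : Subgroup (V ≃ₗ[ZMod p] V)) (hOp : Cfsg.pCore p ↥H = ⊥)
    (A B : Submodule (ZMod p) V) (hBA : B ≤ A) (hA : ∀ h ∈ H, ∀ a ∈ A, h a ∈ A)
    (hB : ∀ h ∈ H, ∀ b ∈ B, h b ∈ B) : radSub H A B hBA = ⊥ := by
  rw [eq_bot_iff, ← hOp]
  exact le_sSup ⟨radSub_normal H A B hBA hA hB, radSub_isPGroup H A B hBA⟩

theorem SH_smul_left (H : Subgroup (V ≃ₗ[ZMod p] V)) {x : V} {φ : Dual (ZMod p) V} (a : ZMod p)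
    (hx : (x, φ) ∈ SH H) : ∃ g ∈ H, IsTv g (a • x) φ := by
  obtain ⟨hx0, hφ0, hφx, h, hh, htv⟩ := hx
  refine ⟨h ^ a.val, H.pow_mem hh _, ?_⟩
  have := htv.pow hφx a.val
  rwa [ZMod.natCast_zmod_val] at this

theorem TD_SH (H : Subgroup (V ≃ₗ[ZMod p] V)) : TD (SH H) := by
  refine TD.of_basic ?_ ?_ ?_ ?_ ?_ ?_ ?_ ?_
  · intro x φ hx
    exact hx.1
  · intro x φ hx
    exact hx.2.1
  · intro x φ hx
    exact hx.2.2.1
  · intro x φ a ha hx
    obtain ⟨g, hg, hgt⟩ := SH_smul_left H a hx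
    have h0 : φ x = 0 := hx.2.2.1
    exact ⟨smul_ne_zero ha hx.1, hx.2.1, by
      show φ (a • x) = 0
      rw [map_smul, h0, smul_zero], g, hg, hgt⟩
  · intro x φ a ha hx
    obtain ⟨g, hg, hgt⟩ := SH_smul_left H a hx
    have h0 : φ x = 0 := hx.2.2.1
    exact ⟨hx.1, smul_ne_zero ha hx.2.1, by
      show (a • φ) x = 0
      rw [LinearMap.smul_apply, h0, smul_zero], g, hg, hgt.smul_swap⟩
  · intro x φ y ψ a hx hy
    obtain ⟨g, hg, hgt⟩ := SH_smul_left H a hx
    obtain ⟨hy0, hψ0, hψy, t, ht, htt⟩ := hy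
    have hy0' : y ≠ 0 := hy0
    have hψ0' : ψ ≠ 0 := hψ0
    have hψy' : ψ y = 0 := hψy
    have htt' : IsTv t y ψ := htt
    have hφx : φ x = 0 := hx.2.2.1
    have hφax : φ (a • x) = 0 := by rw [map_smul, hφx, smul_zero]
    have c := htt'.conj g
    have e1 : g y = y + (a * φ y) • x := by rw [hgt y, smul_smul, mul_comm]
    have e2 : ψ.comp (g⁻¹ : V ≃ₗ[ZMod p] V).toLinearMap = ψ - (a * ψ x) • φ := by
      ext v
      simp only [LinearMap.comp_apply, LinearEquiv.coe_coe, LinearMap.sub_apply,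
        LinearMap.smul_apply, smul_eq_mul]
      rw [hgt.inv_apply hφax, map_sub, map_smul, map_smul, smul_eq_mul, smul_eq_mul]
      ring
    refine ⟨?_, ?_, ?_, g * t * g⁻¹, H.mul_mem (H.mul_mem hg ht) (H.inv_mem hg), ?_⟩
    · show y + (a * φ y) • x ≠ 0
      rw [← e1]
      intro h0
      apply hy0'
      apply g.injective
      rw [h0, map_zero]
    · show ψ - (a * ψ x) • φ ≠ 0
      rw [← e2]
      intro h0
      apply hψ0'
      ext v
      have := congrArg (fun f : Dual (ZMod p) V => f (g v)) h0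
      simpa [inv_mul_apply'] using this
    · show (ψ - (a * ψ x) • φ) (y + (a * φ y) • x) = 0
      simp only [LinearMap.sub_apply, LinearMap.smul_apply, map_add, map_smul, smul_eq_mul,
        hψy', hφx]
      ring
    · show IsTv (g * t * g⁻¹) (y + (a * φ y) • x) (ψ - (a * ψ x) • φ)
      rw [← e1, ← e2]
      exact c
  · intro x y φ hx hy hne
    obtain ⟨hx0, hφ0, hφx, h, hh, htv⟩ := hx
    obtain ⟨hy0, -, hφy, h', hh', htv'⟩ := hy
    have hφx' : φ x = 0 := hφx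
    have hφy' : φ y = 0 := hφy
    exact ⟨hne, hφ0, by
      show φ (x + y) = 0
      rw [map_add, hφx', hφy', add_zero], h * h', H.mul_mem hh hh',
      IsTv.mul_add_left htv htv' hφy'⟩
  · intro x φ ψ hx hy hne
    obtain ⟨hx0, hφ0, hφx, h, hh, htv⟩ := hx
    obtain ⟨-, hψ0, hψx, h', hh', htv'⟩ := hy
    have hφx' : φ x = 0 := hφx
    have hψx' : ψ x = 0 := hψx
    exact ⟨hx0, hne, by
      show (φ + ψ) x = 0
      rw [LinearMap.add_apply, hφx', hψx', add_zero], h * h', H.mul_mem hh hh',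
      IsTv.mul_add_right htv htv' hφx'⟩

/-- the generators are transvections of the datum -/
theorem mem_SH_of_T [Finite V] (H : Subgroup (V ≃ₗ[ZMod p] V)) (t : V ≃ₗ[ZMod p] V) (ht : t ∈ H)
    (hord : orderOf t = p)
    (hrk : finrank (ZMod p) (LinearMap.ker ((t : V →ₗ[ZMod p] V) - LinearMap.id)) + 1 =
      finrank (ZMod p) V) :
    ∃ q ∈ SH H, IsTv t q.1 q.2 := by
  obtain ⟨x, φ, hx, hφ, htv⟩ := exists_rank_one t hrk
  have hφx : φ x = 0 := by
    have hpow : ∀ k : ℕ, (t ^ k) x = (1 + φ x) ^ k • x := by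
      intro k
      induction k with
      | zero => simp
      | succ k ih =>
        have e : x + φ x • x = (1 + φ x) • x := by module
        rw [pow_succ, LinearEquiv.mul_apply, htv x, e, map_smul, ih, smul_smul, ← pow_succ']
    have hp1 : t ^ p = 1 := by
      have := pow_orderOf_eq_one t
      rwa [hord] at this
    have h1 := hpow p
    rw [hp1, ZMod.pow_card] at h1
    have h2 : φ x • x = 0 := by
      have h3 : x = (1 + φ x) • x := h1
      have h4 : (1 + φ x) • x = x + φ x • x := by module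
      rw [h4] at h3
      exact left_eq_add.1 h3
    rcases smul_eq_zero.1 h2 with h3 | h3
    · exact h3
    · exact absurd h3 hx
  exact ⟨(x, φ), ⟨hx, hφ, hφx, t, ht, htv⟩, htv⟩

theorem inv_of_SH (H : Subgroup (V ≃ₗ[ZMod p] V)) (T : Set (V ≃ₗ[ZMod p] V))
    (hHT : H = Subgroup.closure T) (hT : ∀ t ∈ T, ∃ q ∈ SH H, IsTv t q.1 q.2)
    (M : Submodule (ZMod p) V) (hM : ∀ q ∈ SH H, q.1 ∈ M ∨ ∀ m ∈ M, q.2 m = 0) :
    ∀ h ∈ H, ∀ m ∈ M, h m ∈ M := by
  have key : ∀ h ∈ Subgroup.closure T, (∀ m ∈ M, h m ∈ M) ∧ (∀ m ∈ M, h⁻¹ m ∈ M) := by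
    intro h hh
    induction hh using Subgroup.closure_induction with
    | mem t ht =>
      obtain ⟨q, hq, htv⟩ := hT t ht
      constructor
      · intro m hm
        rw [htv m]
        rcases hM q hq with h1 | h1
        · exact M.add_mem hm (M.smul_mem _ h1)
        · rw [h1 m hm, zero_smul, add_zero]
          exact hm
      · intro m hm
        rw [htv.inv_apply hq.2.2.1 m]
        rcases hM q hq with h1 | h1
        · exact M.sub_mem hm (M.smul_mem _ h1)
        · rw [h1 m hm, zero_smul, sub_zero]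
          exact hm
    | one => exact ⟨fun m hm => hm, fun m hm => by simpa using hm⟩
    | mul a b _ _ ha hb =>
      refine ⟨fun m hm => ?_, fun m hm => ?_⟩
      · rw [LinearEquiv.mul_apply]
        exact ha.1 _ (hb.1 m hm)
      · rw [mul_inv_rev, LinearEquiv.mul_apply]
        exact hb.2 _ (ha.2 m hm)
    | inv a _ ha => exact ⟨ha.2, by rw [inv_inv]; exact ha.1⟩
  intro h hh
  rw [hHT] at hh
  exact (key h hh).1

theorem NP_SH (H : Subgroup (V ≃ₗ[ZMod p] V)) (T : Set (V ≃ₗ[ZMod p] V))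
    (hHT : H = Subgroup.closure T) (hT : ∀ t ∈ T, ∃ q ∈ SH H, IsTv t q.1 q.2)
    (hOp : Cfsg.pCore p ↥H = ⊥) : NP (SH H) := by
  intro M hM q hq hq1 hq2
  obtain ⟨hx0, hφ0, hφx, h, hh, htv⟩ := hq
  have hinv := inv_of_SH H T hHT hT M hM
  have hmem : (⟨h, hh⟩ : H) ∈ radSub H M M le_rfl := by
    refine ⟨fun v => ?_, fun a ha => ?_, fun b hb => ?_⟩
    · show h v - v ∈ M
      rw [htv v, add_sub_cancel_left]
      exact M.smul_mem _ hq1
    · show h a - a ∈ M
      rw [htv a, hq2 a ha, zero_smul, add_zero, sub_self]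
      exact M.zero_mem
    · show h b = b
      rw [htv b, hq2 b hb, zero_smul, add_zero]
  rw [radSub_eq_bot H hOp M M le_rfl hinv hinv, Subgroup.mem_bot] at hmem
  have h1 : h = 1 := congrArg Subtype.val hmem
  apply hφ0
  ext v
  have h2 : q.2 v • q.1 = 0 := by
    have := htv v
    rw [h1] at this
    have h3 : v = v + q.2 v • q.1 := this
    exact left_eq_add.1 h3
  rcases smul_eq_zero.1 h2 with h3 | h3
  · simpa using h3
  · exact absurd h3 hx0

theorem NP2_SH (H : Subgroup (V ≃ₗ[ZMod p] V)) (T : Set (V ≃ₗ[ZMod p] V))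
    (hHT : H = Subgroup.closure T) (hT : ∀ t ∈ T, ∃ q ∈ SH H, IsTv t q.1 q.2)
    (hOp : Cfsg.pCore p ↥H = ⊥) : NP2 (SH H) := by
  intro x φ w ω hx hxw hw hω
  have hNP := NP_SH H T hHT hT hOp
  have hxS : (x, φ) ∈ SH H := hx
  have hxwS : (x + w, φ + ω) ∈ SH H := hxw
  obtain ⟨hx0, hφ0, hφx, h₁, hh₁, htv₁⟩ := hx
  obtain ⟨hxw0, hφω0, hφωxw, h₂, hh₂, htv₂⟩ := hxw
  have hx0' : x ≠ 0 := hx0
  have hφx' : φ x = 0 := hφx
  have htv₁' : IsTv h₁ x φ := htv₁
  have htv₂' : IsTv h₂ (x + w) (φ + ω) := htv₂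
  have hφω0' : φ + ω ≠ 0 := hφω0
  have hωx : ω x = 0 := hω (x, φ) hxS
  obtain ⟨A, hA⟩ : ∃ A, A = Submodule.span (ZMod p) (Cen (SH H)) := ⟨_, rfl⟩
  obtain ⟨B, hB⟩ : ∃ B, B = FS (SH H) ⊓ A := ⟨_, rfl⟩
  have hBA : B ≤ A := by rw [hB]; exact inf_le_right
  have hAinv : ∀ h ∈ H, ∀ a ∈ A, h a ∈ A := inv_of_SH H T hHT hT A
    (fun q hq => Or.inl (by rw [hA]; exact Submodule.subset_span ⟨q.2, hq⟩))
  have hBinv : ∀ h ∈ H, ∀ b ∈ B, h b ∈ B := inv_of_SH H T hHT hT B
    (fun q hq => Or.inr (fun m hm => by rw [hB] at hm; exact hm.1 q hq))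
  have hxA : x ∈ A := by rw [hA]; exact Submodule.subset_span ⟨φ, hxS⟩
  have hwA : w ∈ A := by
    have h1 : x + w ∈ A := by rw [hA]; exact Submodule.subset_span ⟨_, hxwS⟩
    have := A.sub_mem h1 hxA
    rwa [add_sub_cancel_left] at this
  have hwB : w ∈ B := by rw [hB]; exact ⟨hw, hwA⟩
  have hωA : ∀ a ∈ A, ω a = 0 := by
    intro a ha
    rw [hA] at ha
    exact kills_span (fun z hz => by obtain ⟨ψ, hψ⟩ := hz; exact hω (z, ψ) hψ) ha
  have hg : ∀ v, (h₂ * h₁⁻¹) v = v + ω v • x + (φ v + ω v) • w := by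
    intro v
    rw [LinearEquiv.mul_apply, htv₁'.inv_apply hφx', htv₂']
    simp only [map_sub, map_smul, LinearMap.add_apply, hφx', hωx, smul_eq_mul]
    module
  have hmem : (⟨h₂ * h₁⁻¹, H.mul_mem hh₂ (H.inv_mem hh₁)⟩ : H) ∈ radSub H A B hBA := by
    refine ⟨fun v => ?_, fun a ha => ?_, fun b hb => ?_⟩
    · show (h₂ * h₁⁻¹) v - v ∈ A
      rw [hg v]
      have : v + ω v • x + (φ v + ω v) • w - v = ω v • x + (φ v + ω v) • w := by abel
      rw [this]
      exact A.add_mem (A.smul_mem _ hxA) (A.smul_mem _ hwA)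
    · show (h₂ * h₁⁻¹) a - a ∈ B
      rw [hg a, hωA a ha]
      have : a + (0 : ZMod p) • x + (φ a + 0) • w - a = (φ a) • w := by module
      rw [this]
      exact B.smul_mem _ hwB
    · show (h₂ * h₁⁻¹) b = b
      have hb' : b ∈ FS (SH H) ⊓ A := by rw [← hB]; exact hb
      have e1 : φ b = 0 := hb'.1 (x, φ) hxS
      rw [hg b, hωA b hb'.2, e1]
      simp
  rw [radSub_eq_bot H hOp A B hBA hAinv hBinv, Subgroup.mem_bot] at hmem
  have h1 : h₂ * h₁⁻¹ = 1 := congrArg Subtype.val hmem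
  have hall : ∀ v, ω v • x + (φ v + ω v) • w = 0 := by
    intro v
    have := hg v
    rw [h1] at this
    have h3 : v = v + (ω v • x + (φ v + ω v) • w) := by
      rw [← add_assoc]
      exact this
    exact left_eq_add.1 h3
  obtain ⟨v₁, hv₁⟩ : ∃ v₁, (φ + ω) v₁ ≠ 0 := by
    by_contra hcon
    push Not at hcon
    exact hφω0' (LinearMap.ext hcon)
  have hxF : x ∉ FS (SH H) := cen_not_mem_FS hNP ⟨φ, hxS⟩
  have hωv₁ : ω v₁ = 0 := by
    by_contra hne
    apply hxF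
    have h2 := hall v₁
    have h3 : ω v₁ • x = -((φ v₁ + ω v₁) • w) := eq_neg_of_add_eq_zero_left h2
    have h4 : x = (ω v₁)⁻¹ • (ω v₁ • x) := by rw [smul_smul, inv_mul_cancel₀ hne, one_smul]
    rw [h4, h3]
    exact (FS (SH H)).smul_mem _ ((FS (SH H)).neg_mem ((FS (SH H)).smul_mem _ hw))
  have hw0 : w = 0 := by
    have h2 := hall v₁
    rw [hωv₁, zero_smul, zero_add] at h2
    rcases smul_eq_zero.1 h2 with h3 | h3
    · exfalso
      apply hv₁
      rw [LinearMap.add_apply, hωv₁]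
      exact h3
    · exact h3
  refine ⟨hw0, ?_⟩
  ext v
  have h2 := hall v
  rw [hw0, smul_zero, add_zero] at h2
  rcases smul_eq_zero.1 h2 with h3 | h3
  · simpa using h3
  · exact absurd h3 hx0'

theorem SH_finite [Finite V] (H : Subgroup (V ≃ₗ[ZMod p] V)) : (SH H).Finite := by
  have : Finite (Dual (ZMod p) V) :=
    Finite.of_injective (fun f : Dual (ZMod p) V => (f : V → ZMod p)) DFunLike.coe_injective
  exact Set.toFinite _

end prime

end Cfsg.Agent.Lib.Helper13.McL
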