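import Mathlib
import Cfsg.Prelude.Def_Solvable
import Cfsg.Agent.Lib.Helper13.McL3
import Cfsg.Agent.Lib.Helper13.McL5

/-!
# McLaughlin's theorem over an odd prime field: assembly
-/

set_option linter.unusedSectionVars false

namespace Cfsg.Agent.Lib.Helper13.McL

open Module

section general

variable {F : Type*} [Field F] {V : Type*} [AddCommGroup V] [Module F V]

/-- pointwise fixer of a subspace -/
def fixer (U : Submodule F V) : Subgroup (V ≃ₗ[F] V) where
  carrier := {h | ∀ v ∈ U, h v = v}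
  mul_mem' := by
    intro a b ha hb v hv
    rw [LinearEquiv.mul_apply, hb v hv, ha v hv]
  one_mem' := fun v _ => rfl
  inv_mem' := by
    intro a ha v hv
    have := ha v hv
    conv_lhs => rw [← this]
    exact inv_mul_apply' _ _

theorem mem_fixer {U : Submodule F V} {h : V ≃ₗ[F] V} : h ∈ fixer U ↔ ∀ v ∈ U, h v = v :=
  Iff.rfl

theorem fixer_anti {U U' : Submodule F V} (h : U ≤ U') : fixer U' ≤ fixer U :=
  fun _ hg v hv => hg v (h hv)

theorem fixer_inf_of_isCompl {P Q : Submodule F V} (h : IsCompl P Q) :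
    fixer P ⊓ fixer Q = ⊥ := by
  rw [eq_bot_iff]
  rintro g ⟨hP, hQ⟩
  rw [Subgroup.mem_bot]
  ext v
  have hv : v ∈ P ⊔ Q := by rw [h.sup_eq_top]; trivial
  obtain ⟨a, ha, b, hb, rfl⟩ := Submodule.mem_sup.1 hv
  rw [map_add, hP a ha, hQ b hb]
  rfl

theorem map_eq_of_closure {G : Set (V ≃ₗ[F] V)} {U : Submodule F V}
    (hG : ∀ g ∈ G, (∀ v ∈ U, g v ∈ U) ∧ (∀ v ∈ U, g⁻¹ v ∈ U)) :
    ∀ h ∈ Subgroup.closure G, U.map (h : V →ₗ[F] V) = U := by
  have key : ∀ h ∈ Subgroup.closure G, (∀ v ∈ U, h v ∈ U) ∧ (∀ v ∈ U, h⁻¹ v ∈ U) := by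
    intro h hh
    induction hh using Subgroup.closure_induction with
    | mem g hg => exact hG g hg
    | one => exact ⟨fun v hv => hv, fun v hv => by simpa using hv⟩
    | mul a b _ _ ha hb =>
      refine ⟨fun m hm => ?_, fun m hm => ?_⟩
      · rw [LinearEquiv.mul_apply]
        exact ha.1 _ (hb.1 m hm)
      · rw [mul_inv_rev, LinearEquiv.mul_apply]
        exact hb.2 _ (ha.2 m hm)
    | inv a _ ha => exact ⟨ha.2, by rw [inv_inv]; exact ha.1⟩
  intro h hh
  obtain ⟨h1, h2⟩ := key h hh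
  apply le_antisymm
  · rintro _ ⟨v, hv, rfl⟩
    exact h1 v hv
  · intro v hv
    exact ⟨h⁻¹ v, h2 v hv, mul_inv_apply' h v⟩

theorem tv_stab {g : V ≃ₗ[F] V} {x : V} {φ : Dual F V} (hg : IsTv g x φ) (hx : φ x = 0)
    {U : Submodule F V} (hU : x ∈ U ∨ ∀ v ∈ U, φ v = 0) :
    (∀ v ∈ U, g v ∈ U) ∧ (∀ v ∈ U, g⁻¹ v ∈ U) := by
  constructor
  · intro m hm
    rw [hg m]
    rcases hU with h1 | h1
    · exact U.add_mem hm (U.smul_mem _ h1)
    · rw [h1 m hm, zero_smul, add_zero]
      exact hm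
  · intro m hm
    rw [hg.inv_apply hx m]
    rcases hU with h1 | h1
    · exact U.sub_mem hm (U.smul_mem _ h1)
    · rw [h1 m hm, zero_smul, sub_zero]
      exact hm

/-- restriction of a group of linear automorphisms to an invariant subspace -/
def restrictHom (U : Submodule F V) (K : Subgroup (V ≃ₗ[F] V))
    (hU : ∀ h ∈ K, U.map ((h : V ≃ₗ[F] V) : V →ₗ[F] V) = U) : K →* (U ≃ₗ[F] U) where
  toFun h := LinearEquiv.ofSubmodules h.1 U U (hU h.1 h.2)
  map_one' := by
    ext v
    rw [LinearEquiv.ofSubmodules_apply]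
    rfl
  map_mul' := by
    intro a b
    ext v
    rw [LinearEquiv.ofSubmodules_apply, LinearEquiv.mul_apply, LinearEquiv.ofSubmodules_apply,
      LinearEquiv.ofSubmodules_apply]
    rfl

theorem restrictHom_apply (U : Submodule F V) (K : Subgroup (V ≃ₗ[F] V))
    (hU : ∀ h ∈ K, U.map ((h : V ≃ₗ[F] V) : V →ₗ[F] V) = U) (h : K) (v : U) :
    ((restrictHom U K hU h v : U) : V) = (h : V ≃ₗ[F] V) v :=
  LinearEquiv.ofSubmodules_apply _ _ _

theorem range_restrictHom (U : Submodule F V) (G : Set (V ≃ₗ[F] V))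
    (hU : ∀ h ∈ Subgroup.closure G, U.map (h : V →ₗ[F] V) = U) :
    (restrictHom U (Subgroup.closure G) hU).range =
      Subgroup.closure {r : U ≃ₗ[F] U | ∃ g ∈ G, ∀ v : U, ((r v : U) : V) = g v} := by
  rw [MonoidHom.range_eq_map, ← Subgroup.closure_closure_coe_preimage (k := G),
    MonoidHom.map_closure]
  congr 1
  ext r
  constructor
  · rintro ⟨⟨g, hg⟩, hgG, rfl⟩
    exact ⟨g, hgG, fun v => restrictHom_apply U _ hU _ v⟩
  · rintro ⟨g, hgG, hr⟩
    refine ⟨⟨g, Subgroup.subset_closure hgG⟩, hgG, ?_⟩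
    ext v
    rw [restrictHom_apply, hr]

/-- generators attached to a set of pairs -/
def gens (C : Set (V × Dual F V)) : Set (V ≃ₗ[F] V) := {h | ∃ q ∈ C, IsTv h q.1 q.2}

theorem gens_stab {C : Set (V × Dual F V)} (horth : ∀ q ∈ C, q.2 q.1 = 0) {U : Submodule F V}
    (hU : ∀ q ∈ C, q.1 ∈ U ∨ ∀ v ∈ U, q.2 v = 0) :
    ∀ g ∈ gens C, (∀ v ∈ U, g v ∈ U) ∧ (∀ v ∈ U, g⁻¹ v ∈ U) := by
  rintro g ⟨q, hq, hg⟩
  exact tv_stab hg (horth q hq) (hU q hq)

theorem closure_gens_le_fixer (C : Set (V × Dual F V)) :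
    Subgroup.closure (gens C) ≤ fixer (FS C) := by
  refine (Subgroup.closure_le _).2 ?_
  rintro g ⟨q, hq, hg⟩ v hv
  rw [hg v, hv q hq, zero_smul, add_zero]

/-- the action of a connected component on the span of its centres -/
theorem comp_rho [FiniteDimensional F V] (h2 : (2 : F) ≠ 0) (C : Set (V × Dual F V))
    (hTD : TD C) (hNP : NP C) (hNP2 : NP2 C) (hC : Conn C)
    (U : Submodule F V) (hUdef : U = Submodule.span F (Cen C))
    (K : Subgroup (V ≃ₗ[F] V)) (hKdef : K = Subgroup.closure (gens C)) :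
    ∃ ρ : K →* (U ≃ₗ[F] U), (∀ (h : K) (v : U), ((ρ h v : U) : V) = (h : V ≃ₗ[F] V) v) ∧
      ((ρ.range : Set (U ≃ₗ[F] U)) = {f : U ≃ₗ[F] U | LinearMap.det (f : U →ₗ[F] U) = 1} ∨
        ∃ B : LinearMap.BilinForm F U, B.IsAlt ∧ B.Nondegenerate ∧
          (ρ.range : Set (U ≃ₗ[F] U)) = {f : U ≃ₗ[F] U | ∀ x y, B (f x) (f y) = B x y}) := by
  subst hUdef hKdef
  have hU : ∀ h ∈ Subgroup.closure (gens C),
      (Submodule.span F (Cen C)).map (h : V →ₗ[F] V) = Submodule.span F (Cen C) :=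
    map_eq_of_closure (gens_stab (fun q hq => hTD.orth hq)
      (fun q hq => Or.inl (Submodule.subset_span ⟨q.2, hq⟩)))
  refine ⟨restrictHom _ _ hU, fun h v => restrictHom_apply _ _ hU h v, ?_⟩
  rw [range_restrictHom]
  have hset : {r : Submodule.span F (Cen C) ≃ₗ[F] Submodule.span F (Cen C) |
      ∃ g ∈ gens C, ∀ v : Submodule.span F (Cen C), ((r v : Submodule.span F (Cen C)) : V) = g v}
      = {r | ∃ q ∈ resS C (Submodule.span F (Cen C)), IsTv r q.1 q.2} := by
    ext r
    constructor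
    · rintro ⟨g, ⟨q, hq, hg⟩, hr⟩
      refine ⟨(⟨q.1, Submodule.subset_span ⟨q.2, hq⟩⟩, q.2.domRestrict _), ⟨q.2, hq, rfl⟩, ?_⟩
      intro v
      apply Subtype.ext
      rw [hr v, hg]
      rfl
    · rintro ⟨q', ⟨φ, hφ, hφ'⟩, hr⟩
      obtain ⟨g, hg⟩ := exists_tv (hTD.orth hφ)
      refine ⟨g, ⟨_, hφ, hg⟩, fun v => ?_⟩
      rw [hr v, hg]
      have e : φ.domRestrict (Submodule.span F (Cen C)) = q'.2 := hφ'
      rw [← e]
      rfl
  rw [hset]
  obtain ⟨-, hdich⟩ := conn_structure hTD hNP hNP2 hC h2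
  rcases hdich with h1 | ⟨B, hB, hnd, hB'⟩
  · left
    refine closure_eq_sl _ h1 ?_
    rintro q' ⟨φ, hφ, hφ'⟩
    have e : φ.domRestrict (Submodule.span F (Cen C)) = q'.2 := hφ'
    rw [← e]
    exact hTD.orth hφ
  · right
    exact ⟨B, hB, hnd, closure_eq_sp B hB hnd _ hB'⟩

/-- the trivial action on the zero space -/
theorem dummy_rho [FiniteDimensional F V] (U : Submodule F V) (hUdef : U = ⊥)
    (K : Subgroup (V ≃ₗ[F] V)) (hKdef : K = ⊥) :
    ∃ ρ : K →* (U ≃ₗ[F] U), (∀ (h : K) (v : U), ((ρ h v : U) : V) = (h : V ≃ₗ[F] V) v) ∧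
      ((ρ.range : Set (U ≃ₗ[F] U)) = {f : U ≃ₗ[F] U | LinearMap.det (f : U →ₗ[F] U) = 1} ∨
        ∃ B : LinearMap.BilinForm F U, B.IsAlt ∧ B.Nondegenerate ∧
          (ρ.range : Set (U ≃ₗ[F] U)) = {f : U ≃ₗ[F] U | ∀ x y, B (f x) (f y) = B x y}) := by
  subst hUdef hKdef
  refine ⟨1, ?_, Or.inl ?_⟩
  · rintro ⟨h, hh⟩ v
    rw [Subgroup.mem_bot] at hh
    subst hh
    rfl
  · ext f
    have hf : f = 1 := by
      ext v
    subst hf
    simp

theorem exists_proj {P Q : Submodule F V} (h : IsCompl P Q) :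
    ∃ π : V →ₗ[F] V, (∀ v, π v ∈ P) ∧ (∀ v ∈ P, π v = v) ∧ (∀ v ∈ Q, π v = 0) ∧
      (∀ v, v - π v ∈ Q) := by
  refine ⟨P.subtype ∘ₗ Submodule.projectionOnto P Q h,
    fun v => (Submodule.projectionOnto P Q h v).2, ?_, ?_, ?_⟩
  · intro v hv
    have := Submodule.projectionOnto_apply_left h ⟨v, hv⟩
    show ((Submodule.projectionOnto P Q h v : P) : V) = v
    have e : (Submodule.projectionOnto P Q h) v = ⟨v, hv⟩ := this
    rw [e]
  · intro v hv
    have := (Submodule.projectionOnto_apply_eq_zero_iff h).2 hv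
    show ((Submodule.projectionOnto P Q h v : P) : V) = 0
    rw [this]
    rfl
  · intro v
    rw [← Submodule.projectionOnto_apply_eq_zero_iff h, map_sub, sub_eq_zero]
    exact (Submodule.projectionOnto_apply_left h _).symm

theorem internal_of_proj {ι : Type*} [Fintype ι] [DecidableEq ι] (A : ι → Submodule F V)
    (P : ι → V →ₗ[F] V) (h1 : ∀ i v, P i v ∈ A i) (h2 : ∀ i, ∀ v ∈ A i, P i v = v)
    (h3 : ∀ i j, i ≠ j → ∀ v ∈ A j, P i v = 0) (h4 : ∀ v, ∑ i, P i v = v) :
    DirectSum.IsInternal A := by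
  apply DirectSum.isInternal_submodule_of_iSupIndep_of_iSup_eq_top
  · intro i
    rw [disjoint_iff, eq_bot_iff]
    rintro v ⟨hv1, hv2⟩
    have hker : (⨆ j, ⨆ (_ : j ≠ i), A j) ≤ LinearMap.ker (P i) := by
      refine iSup₂_le fun j hj => ?_
      intro w hw
      exact h3 i j (Ne.symm hj) w hw
    have e1 := h2 i v hv1
    have e2 : P i v = 0 := hker hv2
    rw [Submodule.mem_bot, ← e1, e2]
  · rw [eq_top_iff]
    intro v _
    rw [← h4 v]
    exact Submodule.sum_mem _ (fun i _ => Submodule.mem_iSup_of_mem i (h1 i v))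

end general

theorem fin2_cases {m : ℕ} {motive : Fin (m + 2) → Prop} (zero : motive 0)
    (one : motive (Fin.succ 0)) (succ : ∀ j : Fin m, motive j.succ.succ) (i : Fin (m + 2)) :
    motive i := by
  refine Fin.cases zero (fun i' => ?_) i
  exact Fin.cases one succ i'

section main

variable {p : ℕ} [Fact p.Prime] {V : Type*} [AddCommGroup V] [Module (ZMod p) V] [Finite V]

/-- McLaughlin's theorem on groups generated by transvections over an odd prime field -/
theorem mcl_main (hp : Odd p) (H : Subgroup (V ≃ₗ[ZMod p] V)) (T : Set (V ≃ₗ[ZMod p] V))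
    (hHT : H = Subgroup.closure T)
    (hT : ∀ t ∈ T, orderOf t = p ∧
      Module.finrank (ZMod p) ↥(LinearMap.ker ((t : V →ₗ[ZMod p] V) - LinearMap.id)) + 1 =
        Module.finrank (ZMod p) V)
    (hOp : Cfsg.pCore p ↥H = ⊥) :
    ∃ (n : ℕ) (W : Fin (n + 1) → Submodule (ZMod p) V) (K : Fin n → Subgroup (V ≃ₗ[ZMod p] V)),
      1 ≤ n ∧ DirectSum.IsInternal W ∧
      (∀ h ∈ H, ∀ i, (W i).map (h : V →ₗ[ZMod p] V) = W i) ∧
      (∀ j, K j ≤ H ∧ ((K j).subgroupOf H).Normal) ∧ ⨆ j, K j = H ∧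
      (∀ j, K j ⊓ (⨆ j' ∈ {j' : Fin n | j' ≠ j}, K j') = ⊥) ∧
      (∀ j j', j ≠ j' → ∀ a ∈ K j, ∀ b ∈ K j', a * b = b * a) ∧
      (∀ j, ∀ h ∈ K j, ∀ i : Fin (n + 1), i ≠ j.succ → ∀ v ∈ W i, h v = v) ∧
      (∀ j, ∃ ρ : ↥(K j) →* (↥(W j.succ) ≃ₗ[ZMod p] ↥(W j.succ)),
        (∀ (h : ↥(K j)) (v : ↥(W j.succ)),
          ((ρ h v : ↥(W j.succ)) : V) = (h : V ≃ₗ[ZMod p] V) (v : V)) ∧
        ((ρ.range : Set (↥(W j.succ) ≃ₗ[ZMod p] ↥(W j.succ))) =
            {f : ↥(W j.succ) ≃ₗ[ZMod p] ↥(W j.succ) |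
              LinearMap.det (f : ↥(W j.succ) →ₗ[ZMod p] ↥(W j.succ)) = 1} ∨
          ∃ B : LinearMap.BilinForm (ZMod p) ↥(W j.succ), B.IsAlt ∧ B.Nondegenerate ∧
            (ρ.range : Set (↥(W j.succ) ≃ₗ[ZMod p] ↥(W j.succ))) =
              {f : ↥(W j.succ) ≃ₗ[ZMod p] ↥(W j.succ) | ∀ x y, B (f x) (f y) = B x y})) := by
  classical
  have h2 : (2 : ZMod p) ≠ 0 := by
    intro h0
    have h3 : ((2 : ℕ) : ZMod p) = 0 := by exact_mod_cast h0
    rw [ZMod.natCast_eq_zero_iff] at h3
    have hp2 : p = 2 := (Nat.prime_dvd_prime_iff_eq Fact.out Nat.prime_two).1 h3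
    rw [hp2] at hp
    exact absurd hp (by decide)
  have hTH : ∀ t ∈ T, t ∈ H := fun t ht => by
    rw [hHT]
    exact Subgroup.subset_closure ht
  have hT' : ∀ t ∈ T, ∃ q ∈ SH H, IsTv t q.1 q.2 := fun t ht =>
    mem_SH_of_T H t (hTH t ht) (hT t ht).1 (hT t ht).2
  have hTD := TD_SH H
  have hNP := NP_SH H T hHT hT' hOp
  have hNP2 := NP2_SH H T hHT hT' hOp
  obtain ⟨m, C, hC, hcov, hdis⟩ := exists_components (SH_finite H) _ (SH H) rfl
    ⟨subset_rfl, fun _ _ q hq _ => hq⟩
  have hcl : ∀ j, Closed (SH H) (C j) := fun j => (hC j).1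
  have hTDj : ∀ j, TD (C j) := fun j => (hcl j).TD hTD hNP
  have hNPj : ∀ j, NP (C j) := fun j => (hcl j).NP hNP
  have hNP2j : ∀ j, NP2 (C j) := fun j => (hcl j).NP2 hNP2
  have hConnj : ∀ j, Conn (C j) := fun j => (hC j).2.1
  have hcompl : ∀ j, IsCompl (Submodule.span (ZMod p) (Cen (C j))) (FS (C j)) :=
    fun j => isCompl_span_FS (hTDj j) (hNPj j) (hNP2j j) (hConnj j) h2
  have hnadj : ∀ i j, i ≠ j → ∀ q ∈ C i, ∀ q' ∈ C j, q.2 q'.1 = 0 ∧ q'.2 q.1 = 0 := by
    intro i j hij q hq q' hq'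
    by_contra hcon
    have hadj : Adj q q' := by
      by_contra h'
      apply hcon
      unfold Adj at h'
      push Not at h'
      exact h'
    exact Set.disjoint_left.1 (hdis i j hij) ((hcl i).2 q hq q' ((hcl j).1 hq') hadj) hq'
  have hWF : ∀ i j, i ≠ j → Submodule.span (ZMod p) (Cen (C i)) ≤ FS (C j) := by
    intro i j hij
    refine Submodule.span_le.2 ?_
    rintro x ⟨φ, hx⟩ q' hq'
    exact (hnadj i j hij (x, φ) hx q' hq').2
  have hFF : ∀ j, FS (SH H) ≤ FS (C j) := fun j v hv q hq => hv q ((hcl j).1 hq)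
  have K1 : ∀ j, gens (C j) ⊆ H := by
    rintro j g ⟨q, hq, hg⟩
    obtain ⟨-, -, -, g', hg', hgt'⟩ := (hcl j).1 hq
    have : g = g' := hg.unique hgt'
    rw [SetLike.mem_coe, this]
    exact hg'
  have K1' : ∀ j, Subgroup.closure (gens (C j)) ≤ H := fun j => (Subgroup.closure_le _).2 (K1 j)
  have K2 : ∀ t ∈ T, ∃ j, t ∈ gens (C j) := by
    intro t ht
    obtain ⟨q, hq, htq⟩ := hT' t ht
    obtain ⟨j, hj⟩ := hcov q hq
    exact ⟨j, q, hj, htq⟩
  have K3 : ∀ j, Subgroup.closure (gens (C j)) ≤ fixer (FS (C j)) :=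
    fun j => closure_gens_le_fixer (C j)
  have K4 : ∀ i j, i ≠ j → ∀ a ∈ Subgroup.closure (gens (C i)),
      ∀ b ∈ Subgroup.closure (gens (C j)), a * b = b * a := by
    intro i j hij a ha b hb
    have hsub : Subgroup.closure (gens (C i)) ≤
        Subgroup.centralizer (Subgroup.closure (gens (C j)) : Set (V ≃ₗ[ZMod p] V)) := by
      refine (Subgroup.closure_le _).2 ?_
      intro g hg
      rw [SetLike.mem_coe, Subgroup.centralizer_closure, Subgroup.mem_centralizer_iff]
      rintro g' hg'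
      obtain ⟨q, hq, hgq⟩ := hg
      obtain ⟨q', hq', hgq'⟩ := hg'
      obtain ⟨e1, e2⟩ := hnadj i j hij q hq q' hq'
      exact hgq'.commute hgq e2 e1
    exact (Subgroup.mem_centralizer_iff.1 (hsub ha) b hb).symm
  have horth : ∀ q ∈ SH H, q.2 q.1 = 0 := fun q hq => hq.2.2.1
  have hTgens : T ⊆ gens (SH H) := fun t ht => hT' t ht
  have hHle : H ≤ Subgroup.closure (gens (SH H)) := by
    intro h hh
    have hh' := hh
    rw [hHT] at hh'
    exact Subgroup.closure_mono hTgens hh'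
  have K5 : ∀ j, ∀ h ∈ H, (Submodule.span (ZMod p) (Cen (C j))).map (h : V →ₗ[ZMod p] V) =
      Submodule.span (ZMod p) (Cen (C j)) := by
    intro j h hh
    refine map_eq_of_closure (gens_stab horth ?_) h (hHle hh)
    intro q hq
    obtain ⟨i, hi⟩ := hcov q hq
    by_cases hij : i = j
    · subst hij
      exact Or.inl (Submodule.subset_span ⟨q.2, hi⟩)
    · right
      intro v hv
      exact hWF j i (Ne.symm hij) hv q hi
  have K6 : ∀ h ∈ H, (FS (SH H)).map (h : V →ₗ[ZMod p] V) = FS (SH H) := by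
    intro h hh
    refine map_eq_of_closure (gens_stab horth ?_) h (hHle hh)
    intro q hq
    exact Or.inr (fun v hv => hv q hq)
  have K7 : ∀ j, ((Subgroup.closure (gens (C j))).subgroupOf H).Normal := by
    intro j
    rw [Subgroup.normal_subgroupOf_iff_le_normalizer (K1' j)]
    intro h hh
    have hh' := hh
    rw [hHT] at hh'
    refine (Subgroup.closure_le _).2 ?_ hh'
    intro t ht
    obtain ⟨i, hi⟩ := K2 t ht
    by_cases hij : i = j
    · subst hij
      exact Subgroup.le_normalizer (Subgroup.subset_closure hi)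
    · refine Subgroup.centralizer_le_normalizer _ ?_
      rw [Subgroup.mem_centralizer_iff]
      intro b hb
      exact K4 j i (Ne.symm hij) b hb t (Subgroup.subset_closure hi)
  refine ⟨m + 1,
    Fin.cons (FS (SH H)) (Fin.cons ⊥ (fun j => Submodule.span (ZMod p) (Cen (C j)))),
    Fin.cons ⊥ (fun j => Subgroup.closure (gens (C j))), Nat.le_add_left 1 m,
    ?_, ?_, ?_, ?_, ?_, ?_, ?_, ?_⟩
  · choose Q hQ1 hQ2 hQ3 hQ4 using fun j => exists_proj (hcompl j)
    refine internal_of_proj _ (Fin.cons ((LinearMap.id : V →ₗ[ZMod p] V) - ∑ j, Q j) (Fin.cons 0 Q)) ?_ ?_ ?_ ?_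
    · intro i
      induction i using fin2_cases with
      | zero =>
        intro v
        show ((LinearMap.id : V →ₗ[ZMod p] V) - ∑ j, Q j) v ∈ FS (SH H)
        intro q hq
        obtain ⟨i₀, hi₀⟩ := hcov q hq
        have e : ((LinearMap.id : V →ₗ[ZMod p] V) - ∑ j, Q j) v =
            (v - Q i₀ v) - ∑ j ∈ Finset.univ.erase i₀, Q j v := by
          rw [LinearMap.sub_apply, LinearMap.id_apply, LinearMap.sum_apply,
            ← Finset.add_sum_erase Finset.univ (fun j => Q j v) (Finset.mem_univ i₀)]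
          abel
        rw [e]
        have hmem : (v - Q i₀ v) - ∑ j ∈ Finset.univ.erase i₀, Q j v ∈ FS (C i₀) := by
          refine (FS (C i₀)).sub_mem (hQ4 i₀ v) (Submodule.sum_mem _ fun j hj => ?_)
          exact hWF j i₀ (Finset.ne_of_mem_erase hj) (hQ1 j v)
        exact hmem q hi₀
      | one =>
        intro v
        show (0 : V →ₗ[ZMod p] V) v ∈ (⊥ : Submodule (ZMod p) V)
        simp
      | succ j =>
        intro v
        exact hQ1 j v
    · intro i
      induction i using fin2_cases with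
      | zero =>
        intro v hv
        have hv' : v ∈ FS (SH H) := hv
        show ((LinearMap.id : V →ₗ[ZMod p] V) - ∑ j, Q j) v = v
        rw [LinearMap.sub_apply, LinearMap.id_apply, LinearMap.sum_apply,
          Finset.sum_eq_zero (fun j _ => hQ3 j v (hFF j hv')), sub_zero]
      | one =>
        intro v hv
        have hv' : v ∈ (⊥ : Submodule (ZMod p) V) := hv
        rw [Submodule.mem_bot] at hv'
        rw [hv', map_zero]
      | succ j =>
        intro v hv
        exact hQ2 j v hv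
    · intro i i'
      induction i using fin2_cases with
      | zero =>
        induction i' using fin2_cases with
        | zero =>
          intro hne
          exact absurd rfl hne
        | one =>
          intro _ v hv
          have hv' : v ∈ (⊥ : Submodule (ZMod p) V) := hv
          rw [Submodule.mem_bot] at hv'
          rw [hv', map_zero]
        | succ j =>
          intro _ v hv
          have hv' : v ∈ Submodule.span (ZMod p) (Cen (C j)) := hv
          show ((LinearMap.id : V →ₗ[ZMod p] V) - ∑ j, Q j) v = 0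
          rw [LinearMap.sub_apply, LinearMap.id_apply, LinearMap.sum_apply,
            Finset.sum_eq_single j
              (fun j' _ hj' => hQ3 j' v (hWF j j' (Ne.symm hj') hv'))
              (fun hj => absurd (Finset.mem_univ j) hj), hQ2 j v hv', sub_self]
      | one =>
        intro _ v _
        show (0 : V →ₗ[ZMod p] V) v = 0
        rfl
      | succ j =>
        induction i' using fin2_cases with
        | zero =>
          intro _ v hv
          exact hQ3 j v (hFF j hv)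
        | one =>
          intro _ v hv
          have hv' : v ∈ (⊥ : Submodule (ZMod p) V) := hv
          rw [Submodule.mem_bot] at hv'
          rw [hv', map_zero]
        | succ j' =>
          intro hne v hv
          have hjj : j ≠ j' := fun hh => hne (by rw [hh])
          exact hQ3 j v (hWF j' j (Ne.symm hjj) hv)
    · intro v
      rw [Fin.sum_univ_succ, Fin.sum_univ_succ]
      show ((LinearMap.id : V →ₗ[ZMod p] V) - ∑ j, Q j) v + ((0 : V →ₗ[ZMod p] V) v + ∑ j, Q j v) = v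
      rw [LinearMap.sub_apply, LinearMap.id_apply, LinearMap.sum_apply, LinearMap.zero_apply,
        zero_add, sub_add_cancel]
  · intro h hh i
    induction i using fin2_cases with
    | zero => exact K6 h hh
    | one => exact Submodule.map_bot _
    | succ j => exact K5 j h hh
  · intro j
    refine Fin.cases ?_ (fun j' => ?_) j
    · refine ⟨bot_le, ?_⟩
      show ((⊥ : Subgroup (V ≃ₗ[ZMod p] V)).subgroupOf H).Normal
      rw [Subgroup.bot_subgroupOf]
      exact Subgroup.normal_bot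
    · exact ⟨K1' j', K7 j'⟩
  · apply le_antisymm
    · refine iSup_le fun j => ?_
      refine Fin.cases ?_ (fun j' => ?_) j
      · exact bot_le
      · exact K1' j'
    · intro h hh
      have hh' := hh
      rw [hHT] at hh'
      refine (Subgroup.closure_le _).2 ?_ hh'
      intro t ht
      obtain ⟨j, hj⟩ := K2 t ht
      exact (le_iSup (Fin.cons ⊥ (fun j => Subgroup.closure (gens (C j))) :
        Fin (m + 1) → Subgroup (V ≃ₗ[ZMod p] V)) j.succ) (Subgroup.subset_closure hj)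
  · intro j
    refine Fin.cases ?_ (fun j₀ => ?_) j
    · exact bot_inf_eq _
    · have h1 : Subgroup.closure (gens (C j₀)) ≤ fixer (FS (C j₀)) := K3 j₀
      have h2' : (⨆ j' ∈ {j' : Fin (m + 1) | j' ≠ Fin.succ j₀},
          (Fin.cons ⊥ (fun j => Subgroup.closure (gens (C j))) :
            Fin (m + 1) → Subgroup (V ≃ₗ[ZMod p] V)) j') ≤
          fixer (Submodule.span (ZMod p) (Cen (C j₀))) := by
        refine iSup₂_le fun j' hj' => ?_
        revert hj'
        refine Fin.cases ?_ (fun j₁ => ?_) j'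
        · intro _
          exact bot_le
        · intro hj'
          have hne : j₁ ≠ j₀ := fun hh => hj' (by rw [hh])
          exact (K3 j₁).trans (fixer_anti (hWF j₀ j₁ (Ne.symm hne)))
      rw [eq_bot_iff]
      exact (le_inf (inf_le_right.trans h2') (inf_le_left.trans h1)).trans
        (fixer_inf_of_isCompl (hcompl j₀)).le
  · intro j j'
    refine Fin.cases ?_ (fun j₀ => ?_) j
    · intro _ a ha b _
      have ha' : a ∈ (⊥ : Subgroup (V ≃ₗ[ZMod p] V)) := ha
      rw [Subgroup.mem_bot] at ha'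
      rw [ha', one_mul, mul_one]
    · refine Fin.cases ?_ (fun j₁ => ?_) j'
      · intro _ a _ b hb
        have hb' : b ∈ (⊥ : Subgroup (V ≃ₗ[ZMod p] V)) := hb
        rw [Subgroup.mem_bot] at hb'
        rw [hb', one_mul, mul_one]
      · intro hne a ha b hb
        exact K4 j₀ j₁ (fun hh => hne (by rw [hh])) a ha b hb
  · intro j
    refine Fin.cases ?_ (fun j₀ => ?_) j
    · intro h hh i _ v _
      have hh' : h ∈ (⊥ : Subgroup (V ≃ₗ[ZMod p] V)) := hh
      rw [Subgroup.mem_bot] at hh'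
      rw [hh']
      rfl
    · intro h hh i
      have hfix : ∀ v ∈ FS (C j₀), h v = v := K3 j₀ hh
      induction i using fin2_cases with
      | zero =>
        intro _ v hv
        exact hfix v (hFF j₀ hv)
      | one =>
        intro _ v hv
        have hv' : v ∈ (⊥ : Submodule (ZMod p) V) := hv
        rw [Submodule.mem_bot] at hv'
        rw [hv', map_zero]
      | succ i₀ =>
        intro hne v hv
        have hij : i₀ ≠ j₀ := fun hh => hne (by rw [hh])
        exact hfix v (hWF i₀ j₀ hij hv)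
  · intro j
    refine Fin.cases ?_ (fun j₀ => ?_) j
    · exact dummy_rho _ rfl _ rfl
    · exact comp_rho h2 (C j₀) (hTDj j₀) (hNPj j₀) (hNP2j j₀) (hConnj j₀) _ rfl _ rfl

end main

end Cfsg.Agent.Lib.Helper13.McL
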