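-- helper13: stabiliser of a nondegenerate subspace in Sp_2m(F).
import Mathlib
import Cfsg.Prelude.Def_ClassicalGeometry
import Cfsg.Agent.Lib.Helper13.Symp
import Cfsg.Agent.Lib.Helper13.SpPrim
import Cfsg.Agent.Lib.Helper13.Blocks
import Cfsg.Agent.Lib.Helper13.SpParab
import Cfsg.Agent.Lib.Helper99.AltBasis
import Cfsg.Agent.S0749

set_option autoImplicit false

namespace Cfsg.Agent.Lib.Helper13

open Matrix Module

universe u

section

variable {F : Type u} [Field F] {m : ℕ}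

/-- Witt's lemma for linearly independent families with the same Gram matrix. -/
theorem witt_gram_tuples {ι : Type*} (x y : ι → Fin m ⊕ Fin m → F)
    (hx : LinearIndependent F x) (hy : LinearIndependent F y)
    (hxy : ∀ i j, Cfsg.sympForm m F (x i) (x j) = Cfsg.sympForm m F (y i) (y j)) :
    ∃ A : ↥(Matrix.symplecticGroup (Fin m) F),
      ∀ i, (A.1 : Matrix (Fin m ⊕ Fin m) (Fin m ⊕ Fin m) F) *ᵥ x i = y i := by
  let bX := Basis.span hx
  let bY := Basis.span hy
  let φ : Submodule.span F (Set.range x) ≃ₗ[F] Submodule.span F (Set.range y) :=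
    bX.equiv bY (Equiv.refl _)
  have h1 : ∀ i, (bX i : Fin m ⊕ Fin m → F) = x i :=
    fun i => congrArg Subtype.val (Basis.span_apply hx i)
  have h2 : ∀ i, (bY i : Fin m ⊕ Fin m → F) = y i :=
    fun i => congrArg Subtype.val (Basis.span_apply hy i)
  have h3 : ∀ i, φ (bX i) = bY i := by
    intro i
    simp [φ]
  have hφ : ∀ a b : Submodule.span F (Set.range x),
      sympBilin m F (φ a : Fin m ⊕ Fin m → F) (φ b : Fin m ⊕ Fin m → F) =
        sympBilin m F (a : Fin m ⊕ Fin m → F) (b : Fin m ⊕ Fin m → F) := by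
    let B1 : LinearMap.BilinForm F (Submodule.span F (Set.range x)) :=
      (sympBilin m F).comp ((Submodule.subtype _).comp φ.toLinearMap)
        ((Submodule.subtype _).comp φ.toLinearMap)
    let B2 : LinearMap.BilinForm F (Submodule.span F (Set.range x)) :=
      (sympBilin m F).comp (Submodule.subtype _) (Submodule.subtype _)
    have hB : B1 = B2 := by
      apply LinearMap.BilinForm.ext_basis bX
      intro i j
      change sympBilin m F (φ (bX i) : Fin m ⊕ Fin m → F) (φ (bX j) : Fin m ⊕ Fin m → F) =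
        sympBilin m F (bX i : Fin m ⊕ Fin m → F) (bX j : Fin m ⊕ Fin m → F)
      rw [h3, h3, h2, h2, h1, h1, sympBilin_apply, sympBilin_apply, hxy]
    intro a b
    have := congrFun (congrArg DFunLike.coe (congrFun (congrArg DFunLike.coe hB) a)) b
    exact this
  obtain ⟨g, hg1, hg2⟩ := Cfsg.Agent.S0749.result (sympBilin m F) sympBilin_nondegenerate
    sympBilin_isAlt _ _ φ hφ
  have hmul : ∀ v : Fin m ⊕ Fin m → F,
      LinearMap.toMatrix' (g : (Fin m ⊕ Fin m → F) →ₗ[F] (Fin m ⊕ Fin m → F)) *ᵥ v = g v := by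
    intro v
    rw [← Matrix.toLin'_apply, Matrix.toLin'_toMatrix']
    rfl
  refine ⟨⟨LinearMap.toMatrix' (g : (Fin m ⊕ Fin m → F) →ₗ[F] (Fin m ⊕ Fin m → F)), ?_⟩, ?_⟩
  · apply mem_symplecticGroup_of_sympForm
    intro u v
    rw [hmul, hmul, ← sympBilin_apply, hg1, sympBilin_apply]
  · intro i
    change LinearMap.toMatrix' (g : (Fin m ⊕ Fin m → F) →ₗ[F] (Fin m ⊕ Fin m → F)) *ᵥ x i = y i
    rw [hmul, ← h1, hg2 (bX i), h3, h2]

/-- the index equivalence splitting `Fin m ⊕ Fin m` according to a splitting of `Fin m`. -/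
def splitIdx {α β : Type} (ε : α ⊕ β ≃ Fin m) : (α ⊕ α) ⊕ (β ⊕ β) ≃ Fin m ⊕ Fin m :=
  (Equiv.sumSumSumComm α α β β).trans (Equiv.sumCongr ε ε)

theorem J_submatrix_splitIdx {α β : Type} [Fintype α] [Fintype β] [DecidableEq α]
    [DecidableEq β] (ε : α ⊕ β ≃ Fin m) :
    (Matrix.J (Fin m) F).submatrix (splitIdx ε) (splitIdx ε) =
      fromBlocks (Matrix.J α F) 0 0 (Matrix.J β F) := by
  ext ((a | a) | (b | b)) ((a' | a') | (b' | b')) <;>
    simp [splitIdx, Matrix.J, Matrix.one_apply]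

theorem sympForm_single (i j : Fin m ⊕ Fin m) :
    Cfsg.sympForm m F (Pi.single i 1) (Pi.single j 1) = Matrix.J (Fin m) F i j := by
  unfold Cfsg.sympForm
  simp


/-- a block upper triangular matrix preserving `J ⊕ J` is block diagonal with symplectic blocks. -/
theorem blockDiag_symp {α β : Type} [Fintype α] [Fintype β] [DecidableEq α] [DecidableEq β]
    (Y : Matrix ((α ⊕ α) ⊕ (β ⊕ β)) ((α ⊕ α) ⊕ (β ⊕ β)) F)
    (hY : Y * fromBlocks (Matrix.J α F) 0 0 (Matrix.J β F) * Yᵀ =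
      fromBlocks (Matrix.J α F) 0 0 (Matrix.J β F))
    (h21 : Y.toBlocks₂₁ = 0) :
    Y.toBlocks₁₂ = 0 ∧ Y.toBlocks₁₁ ∈ Matrix.symplecticGroup α F ∧
      Y.toBlocks₂₂ ∈ Matrix.symplecticGroup β F := by
  obtain ⟨a, b, c, d, rfl⟩ : ∃ a b c d, Y = fromBlocks a b c d :=
    ⟨_, _, _, _, (fromBlocks_toBlocks Y).symm⟩
  simp only [toBlocks_fromBlocks₂₁, toBlocks_fromBlocks₁₂, toBlocks_fromBlocks₁₁,
    toBlocks_fromBlocks₂₂] at h21 ⊢
  subst h21
  rw [fromBlocks_transpose, fromBlocks_multiply, fromBlocks_multiply, fromBlocks_inj] at hY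
  simp only [Matrix.mul_zero, Matrix.zero_mul, add_zero, zero_add, transpose_zero] at hY
  obtain ⟨h1, h2, h3, h4⟩ := hY
  have hd : d ∈ Matrix.symplecticGroup β F := SymplecticGroup.mem_iff.mpr h4
  have hb : b = 0 := by
    let d' : ↥(Matrix.symplecticGroup β F) := ⟨dᵀ, SymplecticGroup.transpose_mem hd⟩
    have hdd : dᵀ * (d'⁻¹).1 = 1 := congrArg Subtype.val (mul_inv_cancel d')
    have hb' : b = b * Matrix.J β F * dᵀ * (d'⁻¹).1 * (-Matrix.J β F) := by
      rw [Matrix.mul_assoc (b * Matrix.J β F) dᵀ, hdd, Matrix.mul_one, Matrix.mul_assoc,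
        Matrix.mul_neg, Matrix.J_squared, neg_neg, Matrix.mul_one]
    rw [hb', h2, Matrix.zero_mul, Matrix.zero_mul]
  subst hb
  refine ⟨rfl, ?_, hd⟩
  rw [SymplecticGroup.mem_iff]
  simpa using h1

/-- the stabiliser of `W = A (coordinate subspace)` in `Sp_2m` is `Sp × Sp`. -/
theorem stab_nondeg_equiv {α β : Type} [Fintype α] [Fintype β] [DecidableEq α] [DecidableEq β]
    (ε : α ⊕ β ≃ Fin m) (A : ↥(Matrix.symplecticGroup (Fin m) F))
    (W : Set (Fin m ⊕ Fin m → F))
    (hW : ∀ u, u ∈ W ↔ ∀ s : β ⊕ β, ((A⁻¹).1 *ᵥ u) (splitIdx ε (Sum.inr s)) = 0) :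
    Nonempty (↥(Cfsg.stabilizing (Cfsg.spToMat m F) W) ≃*
      Matrix.symplecticGroup α F × Matrix.symplecticGroup β F) := by
  set E := splitIdx ε with hE
  set J' : Matrix ((α ⊕ α) ⊕ (β ⊕ β)) ((α ⊕ α) ⊕ (β ⊕ β)) F :=
    fromBlocks (Matrix.J α F) 0 0 (Matrix.J β F) with hJ'
  have hJE : (Matrix.J (Fin m) F).submatrix E E = J' := J_submatrix_splitIdx ε
  let P : Matrix (Fin m ⊕ Fin m) ((α ⊕ α) ⊕ (β ⊕ β)) F := A.1.submatrix id E
  let Q : Matrix ((α ⊕ α) ⊕ (β ⊕ β)) (Fin m ⊕ Fin m) F := (A⁻¹).1.submatrix E id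
  have hAA : (A⁻¹).1 * A.1 = 1 := congrArg Subtype.val (inv_mul_cancel A)
  have hAA' : A.1 * (A⁻¹).1 = 1 := congrArg Subtype.val (mul_inv_cancel A)
  have hQP : Q * P = 1 := by
    change (A⁻¹).1.submatrix E id * A.1.submatrix id E = 1
    rw [← Matrix.submatrix_mul _ _ _ _ _ Function.bijective_id, hAA, Matrix.submatrix_one_equiv]
  have hPQ : P * Q = 1 := by
    change A.1.submatrix id E * (A⁻¹).1.submatrix E id = 1
    rw [Matrix.submatrix_mul_equiv, hAA', Matrix.submatrix_id_id]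
  have hPJ : P * J' * Pᵀ = Matrix.J (Fin m) F := by
    rw [← hJE]
    have h := SymplecticGroup.mem_iff.mp A.2
    change A.1.submatrix id E * (Matrix.J (Fin m) F).submatrix E E * (A.1.submatrix id E)ᵀ = _
    rw [Matrix.transpose_submatrix, Matrix.submatrix_mul_equiv, Matrix.submatrix_mul_equiv, h,
      Matrix.submatrix_id_id]
  have hQJ : Q * Matrix.J (Fin m) F * Qᵀ = J' := by
    rw [← hJE]
    have h := SymplecticGroup.mem_iff.mp (A⁻¹).2
    conv_rhs => rw [← h]
    rfl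
  have hΨJ : ∀ X : Matrix (Fin m ⊕ Fin m) (Fin m ⊕ Fin m) F,
      X ∈ Matrix.symplecticGroup (Fin m) F → (Q * X * P) * J' * (Q * X * P)ᵀ = J' := by
    intro X hX
    have h := SymplecticGroup.mem_iff.mp hX
    calc (Q * X * P) * J' * (Q * X * P)ᵀ = Q * (X * (P * J' * Pᵀ) * Xᵀ) * Qᵀ := by
          simp only [Matrix.transpose_mul, Matrix.mul_assoc]
      _ = J' := by rw [hPJ, h, hQJ]
  have hΨinv : ∀ Y : Matrix ((α ⊕ α) ⊕ (β ⊕ β)) ((α ⊕ α) ⊕ (β ⊕ β)) F, Y * J' * Yᵀ = J' →
      P * Y * Q ∈ Matrix.symplecticGroup (Fin m) F := by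
    intro Y hY
    rw [SymplecticGroup.mem_iff]
    calc (P * Y * Q) * Matrix.J (Fin m) F * (P * Y * Q)ᵀ
        = P * (Y * (Q * Matrix.J (Fin m) F * Qᵀ) * Yᵀ) * Pᵀ := by
          simp only [Matrix.transpose_mul, Matrix.mul_assoc]
      _ = Matrix.J (Fin m) F := by rw [hQJ, hY, hPJ]
  have hW' : ∀ u, u ∈ W ↔ ∀ s : β ⊕ β, (Q *ᵥ u) (Sum.inr s) = 0 := fun u => hW u
  have hstab : ∀ X : ↥(Matrix.symplecticGroup (Fin m) F),
      X ∈ Cfsg.stabilizing (Cfsg.spToMat m F) W ↔ (Q * X.1 * P).toBlocks₂₁ = 0 := by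
    intro X
    have hXX : X.1 * (X⁻¹).1 = 1 := congrArg Subtype.val (mul_inv_cancel X)
    have hdet : (Q * X.1 * P).det ≠ 0 := by
      apply Matrix.det_ne_zero_of_right_inverse (B := Q * (X⁻¹).1 * P)
      calc Q * X.1 * P * (Q * (X⁻¹).1 * P) = Q * (X.1 * (P * Q) * (X⁻¹).1) * P := by
            simp only [Matrix.mul_assoc]
        _ = 1 := by rw [hPQ, Matrix.mul_one, hXX, Matrix.mul_one, hQP]
    rw [← stab_inr_iff _ hdet]
    have hmem : X ∈ Cfsg.stabilizing (Cfsg.spToMat m F) W ↔ ∀ v, v ∈ W ↔ X.1 *ᵥ v ∈ W := Iff.rfl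
    rw [hmem]
    have hQPv : ∀ w : (α ⊕ α) ⊕ (β ⊕ β) → F, Q *ᵥ (P *ᵥ w) = w := by
      intro w
      rw [Matrix.mulVec_mulVec, hQP, Matrix.one_mulVec]
    have hPQv : ∀ v : Fin m ⊕ Fin m → F, P *ᵥ (Q *ᵥ v) = v := by
      intro v
      rw [Matrix.mulVec_mulVec, hPQ, Matrix.one_mulVec]
    constructor
    · intro h w
      simp only [Set.mem_ofPred_eq]
      have h1 := h (P *ᵥ w)
      rw [hW', hW', hQPv] at h1
      rw [h1]
      simp only [Matrix.mulVec_mulVec, Matrix.mul_assoc]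
    · intro h v
      have h1 := h (Q *ᵥ v)
      simp only [Set.mem_ofPred_eq] at h1
      rw [hW', hW', h1]
      have h2 : (Q * X.1 * P) *ᵥ (Q *ᵥ v) = Q *ᵥ (X.1 *ᵥ v) := by
        rw [← Matrix.mulVec_mulVec, hPQv, Matrix.mulVec_mulVec]
      rw [h2]
  have hΨ : ∀ X : ↥(Cfsg.stabilizing (Cfsg.spToMat m F) W),
      (Q * X.1.1 * P).toBlocks₁₂ = 0 ∧ (Q * X.1.1 * P).toBlocks₂₁ = 0 ∧
      (Q * X.1.1 * P).toBlocks₁₁ ∈ Matrix.symplecticGroup α F ∧
      (Q * X.1.1 * P).toBlocks₂₂ ∈ Matrix.symplecticGroup β F := by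
    intro X
    have h21 := (hstab X.1).mp X.2
    obtain ⟨h12, h11, h22⟩ := blockDiag_symp _ (hΨJ X.1.1 X.1.2) h21
    exact ⟨h12, h21, h11, h22⟩
  let f : ↥(Cfsg.stabilizing (Cfsg.spToMat m F) W) →*
      Matrix.symplecticGroup α F × Matrix.symplecticGroup β F :=
    { toFun := fun X => (⟨(Q * X.1.1 * P).toBlocks₁₁, (hΨ X).2.2.1⟩,
        ⟨(Q * X.1.1 * P).toBlocks₂₂, (hΨ X).2.2.2⟩)
      map_one' := by
        apply Prod.ext <;> apply Subtype.ext
        · change (Q * (1 : Matrix (Fin m ⊕ Fin m) (Fin m ⊕ Fin m) F) * P).toBlocks₁₁ = 1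
          rw [Matrix.mul_one, hQP]
          ext i j
          simp [toBlocks₁₁, Matrix.one_apply]
        · change (Q * (1 : Matrix (Fin m ⊕ Fin m) (Fin m ⊕ Fin m) F) * P).toBlocks₂₂ = 1
          rw [Matrix.mul_one, hQP]
          ext i j
          simp [toBlocks₂₂, Matrix.one_apply]
      map_mul' := by
        intro X X'
        have hmul : Q * (X.1.1 * X'.1.1) * P = (Q * X.1.1 * P) * (Q * X'.1.1 * P) := by
          calc Q * (X.1.1 * X'.1.1) * P = Q * (X.1.1 * 1 * X'.1.1) * P := by rw [Matrix.mul_one]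
            _ = (Q * X.1.1 * P) * (Q * X'.1.1 * P) := by
              rw [← hPQ]
              simp only [Matrix.mul_assoc]
        apply Prod.ext <;> apply Subtype.ext
        · change (Q * (X.1.1 * X'.1.1) * P).toBlocks₁₁ =
            (Q * X.1.1 * P).toBlocks₁₁ * (Q * X'.1.1 * P).toBlocks₁₁
          rw [hmul, toBlocks₁₁_mul, (hΨ X').2.1, Matrix.mul_zero, add_zero]
        · change (Q * (X.1.1 * X'.1.1) * P).toBlocks₂₂ =
            (Q * X.1.1 * P).toBlocks₂₂ * (Q * X'.1.1 * P).toBlocks₂₂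
          rw [hmul, toBlocks₂₂_mul, (hΨ X).2.1, Matrix.zero_mul, zero_add] }
  refine ⟨MulEquiv.ofBijective f ⟨?_, ?_⟩⟩
  · intro X X' h
    have h11 : (Q * X.1.1 * P).toBlocks₁₁ = (Q * X'.1.1 * P).toBlocks₁₁ :=
      congrArg (fun p => (p.1.1 : Matrix (α ⊕ α) (α ⊕ α) F)) h
    have h22 : (Q * X.1.1 * P).toBlocks₂₂ = (Q * X'.1.1 * P).toBlocks₂₂ :=
      congrArg (fun p => (p.2.1 : Matrix (β ⊕ β) (β ⊕ β) F)) h
    have hQXP : Q * X.1.1 * P = Q * X'.1.1 * P := by
      rw [← fromBlocks_toBlocks (Q * X.1.1 * P), ← fromBlocks_toBlocks (Q * X'.1.1 * P), h11, h22,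
        (hΨ X).1, (hΨ X).2.1, (hΨ X').1, (hΨ X').2.1]
    have hback : ∀ Z : Matrix (Fin m ⊕ Fin m) (Fin m ⊕ Fin m) F, P * (Q * Z * P) * Q = Z := by
      intro Z
      calc P * (Q * Z * P) * Q = (P * Q) * Z * (P * Q) := by simp only [Matrix.mul_assoc]
        _ = Z := by rw [hPQ, Matrix.one_mul, Matrix.mul_one]
    apply Subtype.ext
    apply Subtype.ext
    rw [← hback X.1.1, hQXP, hback]
  · rintro ⟨a, d⟩
    set Y : Matrix ((α ⊕ α) ⊕ (β ⊕ β)) ((α ⊕ α) ⊕ (β ⊕ β)) F := fromBlocks a.1 0 0 d.1 with hYdef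
    have hY : Y * J' * Yᵀ = J' := by
      rw [hYdef, hJ', fromBlocks_transpose, fromBlocks_multiply, fromBlocks_multiply]
      simp only [Matrix.mul_zero, Matrix.zero_mul, add_zero, zero_add, transpose_zero]
      rw [SymplecticGroup.mem_iff.mp a.2, SymplecticGroup.mem_iff.mp d.2]
    let X0 : ↥(Matrix.symplecticGroup (Fin m) F) := ⟨P * Y * Q, hΨinv Y hY⟩
    have hQXP : Q * X0.1 * P = Y := by
      change Q * (P * Y * Q) * P = Y
      calc Q * (P * Y * Q) * P = (Q * P) * Y * (Q * P) := by simp only [Matrix.mul_assoc]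
        _ = Y := by rw [hQP, Matrix.one_mul, Matrix.mul_one]
    have hX0 : X0 ∈ Cfsg.stabilizing (Cfsg.spToMat m F) W := by
      rw [hstab, hQXP, hYdef, toBlocks_fromBlocks₂₁]
    refine ⟨⟨X0, hX0⟩, ?_⟩
    apply Prod.ext <;> apply Subtype.ext
    · change (Q * X0.1 * P).toBlocks₁₁ = a.1
      rw [hQXP, hYdef, toBlocks_fromBlocks₁₁]
    · change (Q * X0.1 * P).toBlocks₂₂ = d.1
      rw [hQXP, hYdef, toBlocks_fromBlocks₂₂]
/-- The stabiliser in `Sp_2m(F)` of a `2k`-dimensional nondegenerate subspace is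
`Sp_2k(F) × Sp_(2m-2k)(F)`. -/
theorem sp_stab_nondeg (k : ℕ) (hk : k ≤ m) (W : Submodule F (Fin m ⊕ Fin m → F))
    (hWk : finrank F W = 2 * k)
    (hW : ∀ u ∈ W, (∀ v ∈ W, Cfsg.sympForm m F u v = 0) → u = 0) :
    Nonempty (↥(Cfsg.stabilizing (Cfsg.spToMat m F) (W : Set (Fin m ⊕ Fin m → F))) ≃*
      Matrix.symplecticGroup (Fin k) F × Matrix.symplecticGroup (Fin (m - k)) F) := by
  have hN : Cfsg.Agent.Lib.Helper99.NondegOn (sympBilin m F) W := by
    intro u hu h
    exact hW u hu (fun v hv => by rw [← sympBilin_apply]; exact h v hv)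
  obtain ⟨k', e, f, hmem, hef, hee, hff, hspan⟩ :=
    Cfsg.Agent.Lib.Helper99.alt_aux (sympBilin m F) sympBilin_isAlt (finrank F W) W le_rfl hN
  have hfe : ∀ i j, sympBilin m F (f i) (e j) = if i = j then -1 else 0 := by
    intro i j
    rw [← sympBilin_isAlt.neg_eq, hef]
    by_cases h : i = j
    · subst h; simp
    · have h' : ¬ j = i := fun h'' => h h''.symm
      simp [h, h']
  let y : Fin k' ⊕ Fin k' → (Fin m ⊕ Fin m → F) := Sum.elim f e
  have hy : LinearIndependent F y := by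
    rw [Fintype.linearIndependent_iff]
    intro g hg
    simp only [Fintype.sum_sum_type, y, Sum.elim_inl, Sum.elim_inr] at hg
    have hA : ∀ j0, g (Sum.inl j0) = 0 := by
      intro j0
      have h1 := congrArg (fun w => sympBilin m F (e j0) w) hg
      simp only [map_add, map_sum, map_smul, smul_eq_mul, hef, hee, mul_zero,
        Finset.sum_const_zero, add_zero, mul_ite, mul_one, Finset.sum_ite_eq, Finset.mem_univ,
        if_true, map_zero] at h1
      exact h1
    have hB : ∀ j0, g (Sum.inr j0) = 0 := by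
      intro j0
      have h1 := congrArg (fun w => sympBilin m F (f j0) w) hg
      simp only [map_add, map_sum, map_smul, smul_eq_mul, hfe, hff, mul_zero,
        Finset.sum_const_zero, zero_add, mul_ite, mul_neg, mul_one, Finset.sum_ite_eq,
        Finset.mem_univ, if_true, map_zero, neg_eq_zero] at h1
      exact h1
    rintro (j | j)
    · exact hA j
    · exact hB j
  have hspanW : Submodule.span F (Set.range y) = W := by
    apply le_antisymm
    · rw [Submodule.span_le]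
      rintro _ ⟨(i | i), rfl⟩
      · exact (hmem i).2
      · exact (hmem i).1
    · intro w hw
      obtain ⟨a, b, rfl⟩ := hspan w hw
      refine Submodule.add_mem _ ?_ ?_
      · exact Submodule.sum_mem _ fun i _ => Submodule.smul_mem _ _
          (Submodule.subset_span ⟨Sum.inr i, rfl⟩)
      · exact Submodule.sum_mem _ fun i _ => Submodule.smul_mem _ _
          (Submodule.subset_span ⟨Sum.inl i, rfl⟩)
  have hk' : k' = k := by
    have h1 : finrank F (Submodule.span F (Set.range y)) = Fintype.card (Fin k' ⊕ Fin k') :=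
      finrank_span_eq_card hy
    rw [hspanW, hWk] at h1
    simp only [Fintype.card_sum, Fintype.card_fin] at h1
    omega
  subst hk'
  let ε : Fin k' ⊕ Fin (m - k') ≃ Fin m := finSumFinEquiv.trans (finCongr (by omega))
  let x : Fin k' ⊕ Fin k' → (Fin m ⊕ Fin m → F) :=
    fun t => Pi.single (splitIdx ε (Sum.inl t)) 1
  have hx : LinearIndependent F x := by
    have h1 := (Pi.basisFun F (Fin m ⊕ Fin m)).linearIndependent.comp
      (fun t : Fin k' ⊕ Fin k' => splitIdx ε (Sum.inl t))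
      (fun a b hab => Sum.inl_injective ((splitIdx ε).injective hab))
    convert h1 using 1
    ext t
    simp [x]
  have hxy : ∀ s t, Cfsg.sympForm m F (x s) (x t) = Cfsg.sympForm m F (y s) (y t) := by
    intro s t
    have hJ := congrFun (congrFun (J_submatrix_splitIdx (F := F) ε) (Sum.inl s)) (Sum.inl t)
    simp only [submatrix_apply, fromBlocks_apply₁₁] at hJ
    rw [sympForm_single, hJ, ← sympBilin_apply]
    rcases s with i | i <;> rcases t with j | j
    · simp [y, Matrix.J, hff]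
    · simp only [y, Matrix.J, hfe, Matrix.one_apply, Sum.elim_inl, Sum.elim_inr,
        fromBlocks_apply₁₂, Matrix.neg_apply]
      split_ifs <;> simp
    · simp [y, Matrix.J, hef, Matrix.one_apply]
    · simp [y, Matrix.J, hee]
  obtain ⟨A, hA⟩ := witt_gram_tuples x y hx hy hxy
  apply stab_nondeg_equiv ε A
  have hAA : (A⁻¹).1 * A.1 = 1 := congrArg Subtype.val (inv_mul_cancel A)
  have hAA' : A.1 * (A⁻¹).1 = 1 := congrArg Subtype.val (mul_inv_cancel A)
  intro u
  constructor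
  · intro hu s
    have hu' : u ∈ Submodule.span F (Set.range y) := by rw [hspanW]; exact hu
    induction hu' using Submodule.span_induction with
    | mem w hw =>
      obtain ⟨t, rfl⟩ := hw
      rw [← hA t, Matrix.mulVec_mulVec, hAA, Matrix.one_mulVec]
      simp [x]
    | zero => simp
    | add a b _ _ h1 h2 =>
      rw [Matrix.mulVec_add, Pi.add_apply, h1 (by rw [← hspanW]; assumption),
        h2 (by rw [← hspanW]; assumption), add_zero]
    | smul c a _ h1 =>
      rw [Matrix.mulVec_smul, Pi.smul_apply, h1 (by rw [← hspanW]; assumption), smul_zero]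
  · intro hv
    set v := (A⁻¹).1 *ᵥ u with hvdef
    have hu : u = A.1 *ᵥ v := by
      rw [hvdef, Matrix.mulVec_mulVec, hAA', Matrix.one_mulVec]
    have hvsum : v = ∑ t : Fin k' ⊕ Fin k', v (splitIdx ε (Sum.inl t)) • x t := by
      funext i
      obtain ⟨j, rfl⟩ := (splitIdx ε).surjective i
      rw [Finset.sum_apply]
      rcases j with t0 | s
      · rw [Finset.sum_eq_single t0]
        · simp [x]
        · intro t _ ht
          have : splitIdx ε (Sum.inl t) ≠ splitIdx ε (Sum.inl t0) :=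
            fun h => ht (Sum.inl_injective ((splitIdx ε).injective h))
          simp [x, this.symm]
        · intro h
          exact absurd (Finset.mem_univ _) h
      · rw [hv s]
        symm
        apply Finset.sum_eq_zero
        intro t _
        have : splitIdx ε (Sum.inr s) ≠ splitIdx ε (Sum.inl t) :=
          fun h => by simpa using (splitIdx ε).injective h
        simp [x, this]
    rw [hu, hvsum, Matrix.mulVec_sum]
    apply Submodule.sum_mem
    intro t _
    rw [Matrix.mulVec_smul, hA t]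
    apply Submodule.smul_mem
    rw [← hspanW]
    exact Submodule.subset_span ⟨t, rfl⟩

end

end Cfsg.Agent.Lib.Helper13
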